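import Cfsg.Agent.OddChar.S3CubedTI
import Cfsg.Agent.Coprime.Generation

/-!
A group with a subgroup isomorphic to the even triples which is the normaliser of its Sylow
`3`-subgroup and contains the centralisers of its elements of order three is that subgroup.
-/

set_option autoImplicit false

open Cfsg

namespace Cfsg.Agent.OddChar.S3Cubed

/-- The five generators in `K`. -/
def ga (k : Fin 3) : K := ⟨fun j => if j = k then cyc else 1, by revert k; decide +kernel⟩

/-- The two generating involutions. -/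
def gi (k : Fin 3) : K :=
  ⟨fun j => if j = k then 1 else tr, by revert k; decide +kernel⟩

theorem gens_prod : ∀ f : K, ∃ a b : Fin 2, ∃ x y z : Fin 3,
    f = gi 2 ^ (a : ℕ) * gi 1 ^ (b : ℕ) * ga 0 ^ (x : ℕ) * ga 1 ^ (y : ℕ) * ga 2 ^ (z : ℕ) := by
  decide +kernel

theorem iota_gens :
    iota (ga 0) = Equiv.swap (0 : Fin 9) 1 * Equiv.swap 1 2 ∧
    iota (ga 1) = Equiv.swap (3 : Fin 9) 4 * Equiv.swap 4 5 ∧
    iota (ga 2) = Equiv.swap (6 : Fin 9) 7 * Equiv.swap 7 8 ∧
    iota (gi 2) = Equiv.swap (0 : Fin 9) 1 * Equiv.swap 3 4 ∧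
    iota (gi 1) = Equiv.swap (0 : Fin 9) 1 * Equiv.swap 6 7 := by decide +kernel

theorem closure_eq :
    Subgroup.closure ({Equiv.swap (0 : Fin 9) 1 * Equiv.swap 1 2,
      Equiv.swap (3 : Fin 9) 4 * Equiv.swap 4 5, Equiv.swap (6 : Fin 9) 7 * Equiv.swap 7 8,
      Equiv.swap (0 : Fin 9) 1 * Equiv.swap 3 4, Equiv.swap (0 : Fin 9) 1 * Equiv.swap 6 7} :
      Set (Equiv.Perm (Fin 9))) = K.map iota := by
  obtain ⟨h0, h1, h2, hi, hi'⟩ := iota_gens
  refine le_antisymm ((Subgroup.closure_le _).mpr ?_) ?_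
  · simp only [Set.insert_subset_iff, Set.singleton_subset_iff, SetLike.mem_coe]
    exact ⟨⟨_, (ga 0).2, h0⟩, ⟨_, (ga 1).2, h1⟩, ⟨_, (ga 2).2, h2⟩, ⟨_, (gi 2).2, hi⟩,
      ⟨_, (gi 1).2, hi'⟩⟩
  · rintro _ ⟨f, hf, rfl⟩
    obtain ⟨a, b, x, y, z, he⟩ := gens_prod ⟨f, hf⟩
    rw [show f = ((⟨f, hf⟩ : K) : Fin 3 → S3) from rfl, he]
    simp only [Subgroup.coe_mul, Subgroup.coe_pow, map_mul, map_pow, h0, h1, h2, hi, hi']
    refine mul_mem (mul_mem (mul_mem (mul_mem (pow_mem ?_ _) (pow_mem ?_ _)) (pow_mem ?_ _))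
      (pow_mem ?_ _)) (pow_mem ?_ _) <;>
      exact Subgroup.subset_closure (by simp)

variable {G : Type*} [Group G] [Finite G]

theorem whole {H T : Subgroup G} (e : H ≃* K) (hTH : T ≤ H) (hT : Nat.card T = 27)
    (hN : Subgroup.normalizer (T : Set G) = H)
    (hC : ∀ t ∈ T, t ≠ 1 → Subgroup.centralizer ({t} : Set G) ≤ H) : H = ⊤ := by
  classical
  haveI : Fintype G := Fintype.ofFinite G
  haveI : Fintype H := Fintype.ofFinite H
  -- the elements of `T`
  have hTmem : ∀ g : G, g ∈ T ↔ g ∈ H ∧ g ^ 3 = 1 := by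
    have hsub : ∀ g ∈ T, g ∈ H ∧ g ^ 3 = 1 := by
      intro g hg
      refine ⟨hTH hg, ?_⟩
      have h6 : g ^ 6 = 1 := by
        have : (⟨g, hTH hg⟩ : H) ^ 6 = 1 := e.injective (by rw [map_pow, pow_six, map_one])
        simpa using congrArg Subtype.val this
      have h27 : g ^ 27 = 1 := by
        have : (⟨g, hg⟩ : T) ^ Nat.card T = 1 := pow_card_eq_one'
        rw [hT] at this
        simpa only [Subgroup.coe_pow, Subgroup.coe_one] using congrArg Subtype.val this
      have h3 : g ^ Nat.gcd 6 27 = 1 := pow_gcd_eq_one.mpr ⟨h6, h27⟩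
      exact h3
    let S : Finset G := Finset.univ.filter fun g => g ∈ H ∧ g ^ 3 = 1
    have hS : S.card = 27 := by
      rw [← card_cube]
      refine Finset.card_bij' (fun g hg => e ⟨g, (Finset.mem_filter.mp hg).2.1⟩)
        (fun f _ => (e.symm f : G)) ?_ ?_ ?_ ?_
      · intro g hg
        simp only [Finset.mem_filter, Finset.mem_univ, true_and]
        rw [← map_pow, show (⟨g, _⟩ : H) ^ 3 = 1 from Subtype.ext (Finset.mem_filter.mp hg).2.2,
          map_one]
      · intro f hf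
        simp only [S, Finset.mem_filter, Finset.mem_univ, true_and] at hf ⊢
        exact ⟨(e.symm f).2, by rw [← Subgroup.coe_pow, ← map_pow, hf, map_one, Subgroup.coe_one]⟩
      · intro g _; simp
      · intro f _; simp
    have hTS : Finset.univ.filter (fun g => g ∈ T) = S := by
      refine Finset.eq_of_subset_of_card_le (fun g hg => ?_) ?_
      · simp only [S, Finset.mem_filter, Finset.mem_univ, true_and] at hg ⊢
        exact hsub g hg
      · rw [hS, ← Fintype.card_subtype, ← Nat.card_eq_fintype_card]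
        exact le_of_eq hT.symm
    intro g
    have := Finset.ext_iff.mp hTS g
    simpa [S] using this
  have hTcomm : ∀ a ∈ T, ∀ b ∈ T, a * b = b * a := by
    intro a ha b hb
    obtain ⟨haH, ha3⟩ := (hTmem a).mp ha
    obtain ⟨hbH, hb3⟩ := (hTmem b).mp hb
    have h := comm_of_cube (e ⟨a, haH⟩) (e ⟨b, hbH⟩)
      (by rw [← map_pow, show (⟨a, haH⟩ : H) ^ 3 = 1 from Subtype.ext ha3, map_one])
      (by rw [← map_pow, show (⟨b, hbH⟩ : H) ^ 3 = 1 from Subtype.ext hb3, map_one])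
    rw [← map_mul, ← map_mul] at h
    simpa using congrArg Subtype.val (e.injective h)
  -- two elements of `T#` are conjugate only in `H`
  have hkey : ∀ g : G, ∀ t ∈ T, t ≠ 1 → g * t * g⁻¹ ∈ T → g ∈ H := by
    intro g t ht ht1 hgt
    rw [← hN]
    refine Subgroup.mem_normalizer_fintype (S := (T : Set G)) fun n hn => ?_
    refine (hTmem _).mpr ⟨hC _ hgt ?_ (Subgroup.mem_centralizer_singleton_iff.mpr ?_), ?_⟩
    · intro h
      exact ht1 (conj_eq_one_iff.mp h)
    · calc g * n * g⁻¹ * (g * t * g⁻¹) = g * (n * t) * g⁻¹ := by group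
        _ = g * (t * n) * g⁻¹ := by rw [hTcomm n hn t ht]
        _ = g * t * g⁻¹ * (g * n * g⁻¹) := by group
    · rw [conj_pow, ((hTmem n).mp hn).2, mul_one, mul_inv_cancel]
  have h12 : ∀ a ∈ H, a ^ 12 = 1 := by
    intro a ha
    have : (⟨a, ha⟩ : H) ^ 6 = 1 := e.injective (by rw [map_pow, pow_six, map_one])
    rw [show 12 = 6 * 2 from rfl, pow_mul, show a ^ 6 = 1 by simpa using congrArg Subtype.val this,
      one_pow]
  have hfuse : ∀ g : G, ∀ a ∈ setA H, g * a * g⁻¹ ∈ setA H → g ∈ H := by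
    intro g a ha hga
    refine hkey g (a ^ 4) ((hTmem _).mpr ⟨pow_mem ha.1 4, ?_⟩) ha.2
      ((hTmem _).mpr ⟨?_, ?_⟩)
    · rw [← pow_mul]; exact h12 a ha.1
    · rw [← conj_pow]; exact pow_mem hga.1 4
    · rw [conj_pow, ← pow_mul, h12 a ha.1, mul_one, mul_inv_cancel]
  have hA : IsTISection H (setA H) := by
    refine ⟨fun a ha => ha.1, hfuse, fun g a ha h => hfuse g a ha ?_⟩
    rw [h]
    exact ⟨inv_mem ha.1, by rw [inv_pow, Ne, inv_eq_one]; exact ha.2⟩
  choose M hMn hzM hM0 using exists_normal e hA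
  -- the intersection of `T` with the normal subgroups
  have hTM : ∀ k : Fin 3, ∀ x : H, (x : G) ∈ T → ((x : G) ∈ M k ↔ comp e k x = 1) := by
    intro k x hx
    obtain ⟨-, hx3⟩ := (hTmem _).mp hx
    have hx3' : (e x) ^ 3 = 1 := by
      rw [← map_pow, show x ^ 3 = 1 from Subtype.ext (by simpa using hx3), map_one]
    constructor
    · intro hm
      by_contra hne
      have h0 := hM0 k x ⟨x.2, fun h4 => ?_⟩ hm
      · unfold theta phi at h0
        have hcub : comp e k x * comp e k x * comp e k x = 1 := by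
          have := congrArg (fun f : K => (f : Fin 3 → S3) k) hx3'
          simpa [comp_apply, pow_succ] using this
        rw [if_pos ⟨hcub, hne⟩] at h0
        norm_num at h0
      · refine hne ?_
        have hx1 : (x : G) = 1 := by
          have : (x : G) ^ Nat.gcd 3 4 = 1 := pow_gcd_eq_one.mpr ⟨hx3, h4⟩
          simpa using this
        rw [show x = 1 from Subtype.ext hx1, map_one]
    · intro h1
      obtain ⟨y, -, hy⟩ := cube_of_apply_eq_one k (e x) hx3' h1
      have hx' : (x : G) = invG e k *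
          ((e.symm y : G) * (invG e k)⁻¹ * (e.symm y : G)⁻¹) := by
        have : x = e.symm (six k ^ 3) * (e.symm y * (e.symm (six k ^ 3))⁻¹ * (e.symm y)⁻¹) := by
          apply e.injective
          simp only [map_mul, map_inv, MulEquiv.apply_symm_apply]
          rw [← hy]
          group
        rw [this]; simp [invG]
      rw [hx']
      exact mul_mem (hzM k) ((hMn k).conj_mem _ (inv_mem (hzM k)) _)
  -- the common part is trivial
  haveI : ∀ k, (M k).Normal := hMn
  set M0 : Subgroup G := ⨅ k, M k with hM0def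
  haveI hM0n : M0.Normal := Subgroup.normal_iInf_normal hMn
  have hTM0 : ∀ x ∈ T, x ∈ M0 → x = 1 := by
    intro x hx hm
    rw [hM0def, Subgroup.mem_iInf] at hm
    obtain ⟨hxH, hx3⟩ := (hTmem _).mp hx
    have : e ⟨x, hxH⟩ = 1 := eq_one_of_cube _
      (by rw [← map_pow, show (⟨x, hxH⟩ : H) ^ 3 = 1 from Subtype.ext hx3, map_one])
      (fun k h => h.2 ((hTM k ⟨x, hxH⟩ hx).mp (hm k)))
    simpa using congrArg Subtype.val (e.injective (this.trans (map_one e).symm))
  have hHM0 : ∀ x ∈ H, x ∈ M0 → x = 1 := by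
    intro x hxH hm
    refine hTM0 x ((hTmem _).mpr ⟨hxH, ?_⟩) hm
    have : (e ⟨x, hxH⟩) ^ 3 = 1 := cube_of_commute _ fun y hy => by
      have hyT : (e.symm y : G) ∈ T := (hTmem _).mpr ⟨(e.symm y).2, by
        rw [← Subgroup.coe_pow, ← map_pow, hy, map_one, Subgroup.coe_one]⟩
      have hc : x * (e.symm y : G) * x⁻¹ * (e.symm y : G)⁻¹ = 1 := by
        refine hTM0 _ (mul_mem ((hTmem _).mpr ⟨mul_mem (mul_mem hxH (hTH hyT)) (inv_mem hxH), by
          rw [conj_pow, ((hTmem _).mp hyT).2, mul_one, mul_inv_cancel]⟩) (inv_mem hyT)) ?_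
        have := mul_mem hm (hM0n.conj_mem _ (inv_mem hm) (e.symm y : G))
        simpa [mul_assoc] using this
      have hc' : (⟨x, hxH⟩ : H) * e.symm y = e.symm y * ⟨x, hxH⟩ := Subtype.ext (by
        simp only [Subgroup.coe_mul]
        exact mul_inv_eq_iff_eq_mul.mp (mul_inv_eq_one.mp hc))
      simpa using congrArg e hc'
    rw [← map_pow] at this
    simpa using congrArg Subtype.val (e.injective (this.trans (map_one e).symm))
  haveI : Fact (Nat.Prime 3) := ⟨Nat.prime_three⟩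
  have hTp : IsPGroup 3 T := IsPGroup.of_card (n := 3) hT
  -- `T` is a Sylow subgroup
  obtain ⟨P, hTP⟩ := hTp.exists_le_sylow
  have hPT : (P : Subgroup G) = T := by
    by_contra hne
    have hlt : T < (P : Subgroup G) := lt_of_le_of_ne hTP fun h => hne h.symm
    obtain ⟨x, hx, hxT⟩ : ∃ x ∈ (P : Subgroup G) ⊓ Subgroup.normalizer (T : Set G), x ∉ T := by
      haveI : Group.IsNilpotent (P : Subgroup G) := P.2.isNilpotent
      have h := Group.normalizerCondition_of_isNilpotent (T.subgroupOf (P : Subgroup G))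
        (lt_top_iff_ne_top.mpr fun h => hlt.not_ge (Subgroup.subgroupOf_eq_top.mp h))
      obtain ⟨x, hx, hxn⟩ := SetLike.exists_of_lt h
      refine ⟨(x : G), ⟨x.2, ?_⟩, fun h => hxn (Subgroup.mem_subgroupOf.mpr h)⟩
      refine Subgroup.mem_normalizer_fintype (S := (T : Set G)) fun n hn => ?_
      have := (Subgroup.mem_normalizer_iff.mp hx ⟨n, hTP hn⟩).mp (Subgroup.mem_subgroupOf.mpr hn)
      simpa [Subgroup.mem_subgroupOf] using this
    rw [hN] at hx
    obtain ⟨n, hn⟩ := P.2 ⟨x, hx.1⟩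
    have hn' : x ^ 3 ^ n = 1 := by simpa using congrArg Subtype.val hn
    have h6 : x ^ 6 = 1 := by
      have : (⟨x, hx.2⟩ : H) ^ 6 = 1 := e.injective (by rw [map_pow, pow_six, map_one])
      simpa using congrArg Subtype.val this
    refine hxT ((hTmem x).mpr ⟨hx.2, ?_⟩)
    have h36 : Nat.gcd 6 (3 ^ n) ∣ 3 := by
      refine (Nat.Coprime.dvd_of_dvd_mul_left ?_ (show Nat.gcd 6 (3 ^ n) ∣ 2 * 3 from
        Nat.gcd_dvd_left 6 (3 ^ n)))
      exact Nat.Coprime.coprime_dvd_left (Nat.gcd_dvd_right 6 (3 ^ n))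
        (Nat.Coprime.pow_left n (by norm_num))
    obtain ⟨c, hc⟩ := h36
    rw [hc, pow_mul, pow_gcd_eq_one.mpr ⟨h6, hn'⟩, one_pow]
  -- a `3`-element of a normal subgroup is conjugate into `T`
  have hinto : ∀ Q : Subgroup G, IsPGroup 3 Q → ∃ g : G, ∀ q ∈ Q, g * q * g⁻¹ ∈ T := by
    intro Q hQ
    obtain ⟨P', hP'⟩ := hQ.exists_le_sylow
    obtain ⟨g, hg⟩ := MulAction.exists_smul_eq G P' P
    refine ⟨g, fun q hq => ?_⟩
    rw [← hPT, ← hg]
    exact ⟨q, hP' hq, rfl⟩
  have hcop : ¬ 3 ∣ Nat.card M0 := by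
    intro hd
    obtain ⟨q, hq⟩ := exists_prime_orderOf_dvd_card' 3 hd
    have hq' : orderOf (q : G) = 3 := by rw [Subgroup.orderOf_coe, hq]
    obtain ⟨g, hg⟩ := hinto (Subgroup.zpowers (q : G))
      (IsPGroup.of_card (n := 1) (by rw [Nat.card_zpowers, hq', pow_one]))
    have h1 := hTM0 _ (hg _ (Subgroup.mem_zpowers _)) (hM0n.conj_mem _ q.2 g)
    rw [conj_eq_one_iff.mp h1, orderOf_one] at hq'
    omega
  have hM0bot : M0 = ⊥ := by
    haveI : IsMulCommutative T := ⟨⟨fun a b => Subtype.ext (hTcomm a a.2 b b.2)⟩⟩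
    have hnc : ¬ IsCyclic T := by
      intro hc
      obtain ⟨g, hg⟩ := hc.exists_generator
      have h27 : orderOf g = 27 := by rw [orderOf_eq_card_of_forall_mem_zpowers hg, hT]
      have : g ^ 3 = 1 := Subtype.ext (by simpa using ((hTmem _).mp g.2).2)
      have := orderOf_dvd_of_pow_eq_one this
      rw [h27] at this
      norm_num at this
    rw [eq_bot_iff, ← Coprime.eq_centralizerJoin hnc
      (le_top.trans (Subgroup.normalizer_eq_top (H := M0)).ge)
      (by
        rw [hT, show 27 = 3 ^ 3 from rfl]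
        exact Nat.Coprime.pow_left 3 ((Nat.Prime.coprime_iff_not_dvd Nat.prime_three).mpr hcop))]
    refine iSup_le fun t x hx => ?_
    rw [Subgroup.mem_bot]
    exact hHM0 x (hC t t.2.1 t.2.2 hx.2) hx.1
  -- Frattini
  have hfrat : ∀ k, ∀ g : G, ∀ t ∈ T, g * t * g⁻¹ ∈ T ⊔ M k := by
    intro k
    obtain ⟨Q⟩ : Nonempty (Sylow 3 (M k)) := inferInstance
    obtain ⟨g0, hg0⟩ := hinto ((Q : Subgroup (M k)).map (M k).subtype)
      (Q.2.map _)
    -- a non-trivial element of `T ⊓ M k`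
    obtain ⟨w, hwk, hw3, hw1⟩ : ∃ w : K, (w : Fin 3 → S3) k = 1 ∧ w ^ 3 = 1 ∧ w ≠ 1 :=
      (by decide +kernel : ∀ k : Fin 3, ∃ w : K, (w : Fin 3 → S3) k = 1 ∧ w ^ 3 = 1 ∧ w ≠ 1) k
    have hwT : (e.symm w : G) ∈ T := (hTmem _).mpr ⟨(e.symm w).2, by
      rw [← Subgroup.coe_pow, ← map_pow, hw3, map_one, Subgroup.coe_one]⟩
    have hwM : (e.symm w : G) ∈ M k := (hTM k _ hwT).mpr (by
      rw [comp_apply, MulEquiv.apply_symm_apply, hwk])
    have hw1' : (e.symm w : G) ≠ 1 := fun h => hw1 (by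
      simpa using congrArg e (show e.symm w = 1 from Subtype.ext h))
    -- the Sylow subgroup moved into `T`
    let g1 : MulAut (M k) := MulAut.conjNormal g0
    set Q' : Sylow 3 (M k) := g1 • Q with hQ'
    have hQ'T : ∀ q : M k, q ∈ Q' → (q : G) ∈ T := by
      intro q hq
      obtain ⟨r, hr, rfl⟩ := hq
      have := hg0 (r : G) ⟨r, hr, rfl⟩
      simpa [g1] using this
    have hTQ' : ∀ q : M k, (q : G) ∈ T → q ∈ Q' := by
      have hle : (Q' : Subgroup (M k)) ≤ T.subgroupOf (M k) := fun q hq => hQ'T q hq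
      have hp : IsPGroup 3 (T.subgroupOf (M k)) :=
        hTp.comap_of_injective (M k).subtype (M k).subtype_injective
      intro q hq
      have := Q'.3 hp hle
      show q ∈ (Q' : Subgroup (M k))
      rw [← this]
      exact hq
    have hsup : H ⊔ M k = ⊤ := by
      rw [eq_top_iff, ← Sylow.normalizer_sup_eq_top Q']
      refine sup_le_sup_right (fun g hg => ?_) _
      refine hkey g _ hwT hw1' ?_
      have hmem : (e.symm w : G) ∈ (Q' : Subgroup (M k)).map (M k).subtype :=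
        ⟨⟨_, hwM⟩, hTQ' _ hwT, rfl⟩
      obtain ⟨r, hr, hre⟩ := (Subgroup.mem_normalizer_iff.mp hg _).mp hmem
      rw [← hre]
      exact hQ'T r hr
    intro g t ht
    have hg : g ∈ H ⊔ M k := hsup ▸ Subgroup.mem_top g
    obtain ⟨a, ha, m, hm, rfl⟩ := Subgroup.mem_sup_of_normal_right.mp hg
    have hat : a * t * a⁻¹ ∈ T := by
      rw [← hN] at ha
      exact (Subgroup.mem_normalizer_iff.mp ha t).mp ht
    have h1 : m * t * m⁻¹ * t⁻¹ ∈ M k := by
      have := mul_mem hm ((hMn k).conj_mem _ (inv_mem hm) t)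
      simpa [mul_assoc] using this
    have : a * m * t * (a * m)⁻¹ = a * (m * t * m⁻¹ * t⁻¹) * a⁻¹ * (a * t * a⁻¹) := by group
    rw [this]
    exact mul_mem (Subgroup.mem_sup_right ((hMn k).conj_mem _ h1 a)) (Subgroup.mem_sup_left hat)
  rw [eq_top_iff]
  intro g _
  rw [← hN]
  refine Subgroup.mem_normalizer_fintype (S := (T : Set G)) fun t ht => ?_
  -- the conjugate commutes with `T`
  have hyc : ∀ s ∈ T, g * t * g⁻¹ * s * (g * t * g⁻¹)⁻¹ * s⁻¹ = 1 := by
    intro s hs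
    rw [← Subgroup.mem_bot, ← hM0bot, hM0def, Subgroup.mem_iInf]
    intro k
    obtain ⟨a, ha, m, hm, hy⟩ := Subgroup.mem_sup_of_normal_right.mp (hfrat k g t ht)
    rw [← hy]
    have h1 : m * s * m⁻¹ * s⁻¹ ∈ M k := by
      have := mul_mem hm ((hMn k).conj_mem _ (inv_mem hm) s)
      simpa [mul_assoc] using this
    have : a * m * s * (a * m)⁻¹ * s⁻¹ = a * (m * s * m⁻¹ * s⁻¹) * a⁻¹ * (a * s * a⁻¹ * s⁻¹) := by
      group
    rw [this, hTcomm a ha s hs, mul_inv_cancel_right, mul_inv_cancel, mul_one]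
    exact (hMn k).conj_mem _ h1 a
  obtain ⟨w, hw3, hw1⟩ : ∃ w : K, w ^ 3 = 1 ∧ w ≠ 1 := by decide +kernel
  have hwT : (e.symm w : G) ∈ T := (hTmem _).mpr ⟨(e.symm w).2, by
    rw [← Subgroup.coe_pow, ← map_pow, hw3, map_one, Subgroup.coe_one]⟩
  have hw1' : (e.symm w : G) ≠ 1 := fun h => hw1 (by
    simpa using congrArg e (show e.symm w = 1 from Subtype.ext h))
  refine (hTmem _).mpr ⟨hC _ hwT hw1' (Subgroup.mem_centralizer_singleton_iff.mpr ?_), ?_⟩
  · exact mul_inv_eq_iff_eq_mul.mp (mul_inv_eq_one.mp (hyc _ hwT))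
  · rw [conj_pow, ((hTmem t).mp ht).2, mul_one, mul_inv_cancel]

end Cfsg.Agent.OddChar.S3Cubed
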