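import Cfsg.Agent.Chars.Orth
import Cfsg.Agent.Chars.Eigen
import Cfsg.Agent.OddLocal.NilBasics
import Cfsg.Agent.OddLocal.Basic
import Mathlib.GroupTheory.SchurZassenhaus
import Mathlib.GroupTheory.Nilpotent
import Mathlib.GroupTheory.NoncommCoprod

/-!
Irreducible characters of a direct product, and the splitting of a finite nilpotent group at a
prime.
-/

set_option autoImplicit false
set_option linter.unusedSectionVars false

open scoped Classical ComplexConjugate

namespace Cfsg.Agent.OddChar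

section prod

variable {A B : Type*} [Group A] [Group B] [Fintype A] [Fintype B]

/-- The outer product of two functions. -/
def outer (α : A → ℂ) (β : B → ℂ) : A × B → ℂ := fun x => α x.1 * β x.2

theorem classInner_outer (α α' : A → ℂ) (β β' : B → ℂ) :
    Cfsg.classInner (outer α β) (outer α' β') =
      Cfsg.classInner α α' * Cfsg.classInner β β' := by
  simp only [Chars.classInner_def, outer, Nat.card_prod, Nat.cast_mul, mul_inv, map_mul,
    Fintype.sum_prod_type]
  rw [mul_mul_mul_comm, Finset.sum_mul_sum]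
  congr 1
  exact Finset.sum_congr rfl fun a _ => Finset.sum_congr rfl fun b _ => by ring

theorem isIrr_outer {α : A → ℂ} {β : B → ℂ} (hα : Cfsg.IsIrrCharacter A α)
    (hβ : Cfsg.IsIrrCharacter B β) : Cfsg.IsIrrCharacter (A × B) (outer α β) := by
  refine Chars.isIrrCharacter_of_norm_one ?_ ?_
  · have h1 := Chars.isCharacter_comp (Chars.isCharacter_of_isIrr hα) (MonoidHom.fst A B)
    have h2 := Chars.isCharacter_comp (Chars.isCharacter_of_isIrr hβ) (MonoidHom.snd A B)
    exact Chars.isCharacter_mul h1 h2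
  · rw [classInner_outer, Chars.classInner_self_irr hα, Chars.classInner_self_irr hβ, one_mul]

theorem sum_normSq_irr (X : Type*) [Group X] [Fintype X] :
    ∑ χ : Cfsg.IrrCharacter X, Complex.normSq ((χ : X → ℂ) 1) = (Nat.card X : ℝ) := by
  have h := Chars.column_orth (G := X) 1 1
  rw [if_pos (IsConj.refl _), show Subgroup.centralizer ({(1 : X)} : Set X) = ⊤ from
    top_unique fun y _ => Subgroup.mem_centralizer_singleton_iff.mpr (by simp),
    Subgroup.card_top] at h
  simp only [Complex.mul_conj] at h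
  exact_mod_cast h

/-- Every irreducible character of a product is an outer product. -/
theorem exists_outer {χ : A × B → ℂ} (hχ : Cfsg.IsIrrCharacter (A × B) χ) :
    ∃ (α : Cfsg.IrrCharacter A) (β : Cfsg.IrrCharacter B), χ = outer (α : A → ℂ) (β : B → ℂ) := by
  set f : Cfsg.IrrCharacter A × Cfsg.IrrCharacter B → Cfsg.IrrCharacter (A × B) :=
    fun p => ⟨outer (p.1 : A → ℂ) (p.2 : B → ℂ), isIrr_outer p.1.2 p.2.2⟩
  have hinj : Function.Injective f := by
    intro p q h
    have h' : outer (p.1 : A → ℂ) (p.2 : B → ℂ) = outer (q.1 : A → ℂ) (q.2 : B → ℂ) :=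
      congrArg Subtype.val h
    have h1 := classInner_outer (p.1 : A → ℂ) (q.1 : A → ℂ) (p.2 : B → ℂ) (q.2 : B → ℂ)
    rw [← h', Chars.classInner_self_irr (isIrr_outer p.1.2 p.2.2),
      Chars.classInner_irr p.1.2 q.1.2, Chars.classInner_irr p.2.2 q.2.2] at h1
    refine Prod.ext (Subtype.ext ?_) (Subtype.ext ?_)
    · by_contra hne
      rw [if_neg hne, zero_mul] at h1
      exact one_ne_zero h1
    · by_contra hne
      rw [if_neg hne, mul_zero] at h1
      exact one_ne_zero h1
  suffices (⟨χ, hχ⟩ : Cfsg.IrrCharacter (A × B)) ∈ Finset.univ.image f by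
    obtain ⟨p, -, hp⟩ := Finset.mem_image.mp this
    exact ⟨p.1, p.2, (congrArg Subtype.val hp).symm⟩
  by_contra hno
  have h := sum_normSq_irr (A × B)
  rw [← Finset.sum_sdiff (Finset.subset_univ (Finset.univ.image f)),
    Finset.sum_image (fun a _ b _ e => hinj e)] at h
  have h2 : ∑ p : Cfsg.IrrCharacter A × Cfsg.IrrCharacter B,
      Complex.normSq ((f p : A × B → ℂ) 1) = (Nat.card (A × B) : ℝ) := by
    simp only [f, outer, Prod.fst_one, Prod.snd_one, map_mul, Fintype.sum_prod_type]
    rw [← Finset.sum_mul_sum, sum_normSq_irr, sum_normSq_irr, Nat.card_prod, Nat.cast_mul]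
  rw [h2, add_eq_right] at h
  have h3 := (Finset.sum_eq_zero_iff_of_nonneg fun i _ => Complex.normSq_nonneg _).mp h
    ⟨χ, hχ⟩ (Finset.mem_sdiff.mpr ⟨Finset.mem_univ _, hno⟩)
  exact Chars.irr_apply_one_ne_zero hχ (Complex.normSq_eq_zero.mp h3)

end prod

/-- A finite nilpotent group splits at a prime. -/
theorem nilpotent_split (K : Type*) [Group K] [Finite K] [hK : Group.IsNilpotent K] (p : ℕ)
    [Fact p.Prime] :
    ∃ P Q : Subgroup K, IsPGroup p P ∧ ¬ p ∣ Nat.card Q ∧
      (∀ x : K, x ∈ Q ↔ x ^ Nat.card Q = 1) ∧ (∀ x : K, x ∈ P ↔ x ^ Nat.card P = 1) ∧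
      ∃ e : K ≃* P × Q, (∀ a : P, e (a : K) = (a, 1)) ∧ ∀ b : Q, e (b : K) = (1, b) := by
  obtain ⟨S⟩ : Nonempty (Sylow p K) := inferInstance
  haveI hSn : (S : Subgroup K).Normal :=
    (((Group.isNilpotent_of_finite_tfae (G := K)).out 0 3 :
      Group.IsNilpotent K ↔ ∀ (q : ℕ) (_hq : Fact q.Prime) (R : Sylow q K), (R : Subgroup K).Normal).mp
      hK) p inferInstance S
  set P := (S : Subgroup K)
  have hcop : Nat.Coprime (Nat.card P) P.index := S.card_coprime_index
  obtain ⟨Q, hQ⟩ := Subgroup.exists_right_complement'_of_coprime hcop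
  have hQi : Nat.card Q = P.index := hQ.symm.index_eq_card.symm
  have hcop' : Nat.Coprime (Nat.card P) (Nat.card Q) := by rw [hQi]; exact hcop
  have hcomm : ∀ (a : P) (b : Q), Commute (a : K) (b : K) := fun a b => by
    refine OddLocal.commute_of_coprime_orderOf (x := (a : K)) (y := (b : K)) ?_
    rw [Subgroup.orderOf_coe, Subgroup.orderOf_coe]
    exact Nat.Coprime.coprime_dvd_left (orderOf_dvd_natCard a)
      (hcop'.coprime_dvd_right (orderOf_dvd_natCard b))
  set μ : P × Q →* K := MonoidHom.noncommCoprod P.subtype Q.subtype hcomm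
  have hμ : Function.Bijective μ := hQ
  set e := (MulEquiv.ofBijective μ hμ).symm
  have he : ∀ (a : P) (b : Q), e ((a : K) * (b : K)) = (a, b) := fun a b =>
    (MulEquiv.ofBijective μ hμ).symm_apply_apply (a, b)
  have hmemP : ∀ x : K, x ∈ P ↔ x ^ Nat.card P = 1 := by
    intro x
    refine ⟨fun hx => ?_, fun hx => ?_⟩
    · exact congrArg Subtype.val (pow_card_eq_one' (x := (⟨x, hx⟩ : P)))
    obtain ⟨⟨a, b⟩, rfl⟩ := hμ.2 x
    rw [← map_pow, ← map_one μ] at hx
    have h := congrArg Prod.snd (hμ.1 hx)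
    simp only [Prod.pow_snd, Prod.snd_one] at h
    have hb : b = 1 := orderOf_eq_one_iff.mp (Nat.eq_one_of_dvd_coprimes hcop'
      (orderOf_dvd_of_pow_eq_one h) (orderOf_dvd_natCard b))
    subst hb
    show (a : K) * ((1 : Q) : K) ∈ P
    simp
  have hmemQ : ∀ x : K, x ∈ Q ↔ x ^ Nat.card Q = 1 := by
    intro x
    refine ⟨fun hx => ?_, fun hx => ?_⟩
    · exact congrArg Subtype.val (pow_card_eq_one' (x := (⟨x, hx⟩ : Q)))
    obtain ⟨⟨a, b⟩, rfl⟩ := hμ.2 x
    rw [← map_pow, ← map_one μ] at hx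
    have h := congrArg Prod.fst (hμ.1 hx)
    simp only [Prod.pow_fst, Prod.fst_one] at h
    have ha : a = 1 := orderOf_eq_one_iff.mp (Nat.eq_one_of_dvd_coprimes hcop'.symm
      (orderOf_dvd_of_pow_eq_one h) (orderOf_dvd_natCard a))
    subst ha
    show ((1 : P) : K) * (b : K) ∈ Q
    simp
  refine ⟨P, Q, S.isPGroup', ?_, hmemQ, hmemP, e, fun a => ?_, fun b => ?_⟩
  · rw [hQi]; exact S.not_dvd_index
  · simpa using he a 1
  · simpa using he 1 b

end Cfsg.Agent.OddChar
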