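import Cfsg.Agent.OddChar.CritA6Main
import Cfsg.Agent.SmallOrder.AffineF4

/-!
The affine group over the field with four elements as such an extension.
-/

set_option autoImplicit false

namespace Cfsg.Agent.OddChar.CritA6

open Cfsg.Agent.SmallOrder

theorem A5_selfcommute : ∀ s : A5, (∀ g : A5, s * (g * s * g⁻¹) = g * s * g⁻¹ * s) → s = 1 := by
  decide +kernel

theorem spec_and_exists {X : Type*} [Group X]
    (hX : Set.range (orderOf : X → ℕ) = ({1, 2, 3, 4, 5} : Set ℕ)) :
    Cfsg.Agent.SmallOrder.Spec5.Spec5 X ∧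
      ∀ k, k ∈ ({1, 2, 3, 4, 5} : Set ℕ) → ∃ x : X, orderOf x = k := by
  refine ⟨fun x => ?_, fun k hk => ?_⟩
  · have : orderOf x ∈ Set.range (orderOf : X → ℕ) := ⟨x, rfl⟩
    rw [hX] at this
    simp only [Set.mem_insert_iff, Set.mem_singleton_iff] at this
    omega
  · rw [← hX] at hk; exact hk

variable {F : Type*} [Field F]

/-- The translation by `(e, f)`. -/
def trans (e f : F) : affSL F := affMk 1 0 0 1 e f (by ring)

theorem trans_conj (g : affSL F) (e f : F) :
    ∃ e' f', g * trans e f * g⁻¹ = trans e' f' := by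
  obtain ⟨⟨N, hN⟩, hg⟩ := g
  obtain ⟨h0, h1, h2⟩ := mem_affSL.mp hg
  refine ⟨N 0 0 * e + N 0 1 * f, N 1 0 * e + N 1 1 * f, mul_inv_eq_iff_eq_mul.2 ?_⟩
  apply Subtype.ext; apply Subtype.ext
  change N * _ = _ * N
  ext i j
  fin_cases i <;> fin_cases j <;>
    simp [trans, affMk, Matrix.mul_apply, Fin.sum_univ_three] <;> simp_all <;> ring

theorem trans_comm (e f e' f' : F) : trans e f * trans e' f' = trans e' f' * trans e f := by
  apply Subtype.ext; apply Subtype.ext
  change (_ : Matrix (Fin 3) (Fin 3) F) * _ = _ * _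
  ext i j
  fin_cases i <;> fin_cases j <;> simp [trans, affMk, Matrix.mul_apply, Fin.sum_univ_three, add_comm]

theorem trans_mem_ker {φ : affSL F →* A5} (hs : Function.Surjective φ) (e f : F) :
    trans e f ∈ φ.ker := by
  refine MonoidHom.mem_ker.2 (A5_selfcommute _ fun g => ?_)
  obtain ⟨x, rfl⟩ := hs g
  obtain ⟨e', f', h⟩ := trans_conj x e f
  rw [← map_inv, ← map_mul, ← map_mul, h, ← map_mul, ← map_mul, trans_comm]

theorem trans_zero_ne_one : trans (1 : F) 0 ≠ 1 :=
  affMk_ne_one _ (Or.inr one_ne_zero)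

theorem card_ker_le [Fintype F] (hF : Fintype.card F = 4) {φ : affSL F →* A5} (h : Ext φ) :
    Nat.card φ.ker ≤ 16 := by
  have hlin : ∀ x : φ.ker,
      ((x : affSL F) : Matrix.SpecialLinearGroup (Fin 3) F).1 0 0 = 1 ∧
      ((x : affSL F) : Matrix.SpecialLinearGroup (Fin 3) F).1 0 1 = 0 ∧
      ((x : affSL F) : Matrix.SpecialLinearGroup (Fin 3) F).1 1 0 = 0 ∧
      ((x : affSL F) : Matrix.SpecialLinearGroup (Fin 3) F).1 1 1 = 1 := by
    intro x
    have hc : ∀ e f : F, ((x : affSL F) : Matrix.SpecialLinearGroup (Fin 3) F).1 * (trans e f).1.1 =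
        (trans e f).1.1 * ((x : affSL F) : Matrix.SpecialLinearGroup (Fin 3) F).1 := fun e f =>
      congrArg (fun g : affSL F => (g : Matrix.SpecialLinearGroup (Fin 3) F).1)
        (congrArg Subtype.val (h.elem.1.is_comm.comm x ⟨trans e f, trans_mem_ker h.surj e f⟩))
    obtain ⟨-, -, h2⟩ := mem_affSL.mp (x : affSL F).2
    have a0 := congrFun (congrFun (hc 1 0) 0) 2
    have b0 := congrFun (congrFun (hc 0 1) 0) 2
    have a1 := congrFun (congrFun (hc 1 0) 1) 2
    have b1 := congrFun (congrFun (hc 0 1) 1) 2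
    simp [trans, affMk, Matrix.mul_apply, Fin.sum_univ_three, h2] at a0 b0 a1 b1
    grind
  let r : φ.ker → F × F := fun x =>
    (((x : affSL F) : Matrix.SpecialLinearGroup (Fin 3) F).1 0 2,
      ((x : affSL F) : Matrix.SpecialLinearGroup (Fin 3) F).1 1 2)
  have hr : Function.Injective r := by
    intro x y hxy
    obtain ⟨e1, e2⟩ := Prod.mk.injEq _ _ _ _ ▸ hxy
    obtain ⟨p0, p1, p2, p3⟩ := hlin x
    obtain ⟨q0, q1, q2, q3⟩ := hlin y
    obtain ⟨x0, x1, x2⟩ := mem_affSL.mp (x : affSL F).2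
    obtain ⟨y0, y1, y2⟩ := mem_affSL.mp (y : affSL F).2
    apply Subtype.ext; apply Subtype.ext; apply Subtype.ext
    ext i j
    fin_cases i <;> fin_cases j <;> simp_all
  refine (Nat.card_le_card_of_injective r hr).trans (le_of_eq ?_)
  rw [Nat.card_prod, Nat.card_eq_fintype_card, hF]

end Cfsg.Agent.OddChar.CritA6
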