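import Cfsg.Agent.OddChar.CritA6Split

/-!
Groups with element orders `{1, …, 5}` minimal with this property which are extensions by `A₅`.
-/

set_option autoImplicit false

namespace Cfsg.Agent.OddChar.CritA6

open Cfsg.Agent.SmallOrder.Spec5

theorem A5_pow : ∀ x : A5, x ^ 4 = 1 → x ^ 2 = 1 := by decide +kernel

namespace Ext

variable {G : Type*} [Group G] [Finite G] {φ : G →* A5} (h : Ext φ)
include h

/-- The kernel is spanned by the four vectors of some section. -/
def Spanned : Prop :=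
  ∃ (e : A5 →* G) (he : ∀ g, φ (e g) = g) (v : φ.ker), v ≠ 1 ∧
    @Rep.ρ φ.ker h.commGroup (h.rep e he) px v = v ∧ @Rep.ρ φ.ker h.commGroup (h.rep e he) py v = v ∧
      Function.Surjective (@Rep.lin φ.ker h.commGroup (h.rep e he) v)

theorem ker_nontrivial {g : G} (hg : orderOf g = 4) : Nontrivial φ.ker := by
  have h4 : g ^ 4 = 1 := hg ▸ pow_orderOf_eq_one g
  refine ⟨⟨⟨g ^ 2, ?_⟩, 1, fun e => ?_⟩⟩
  · rw [MonoidHom.mem_ker, map_pow]
    exact A5_pow _ (by rw [← map_pow, h4, map_one])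
  · have := orderOf_dvd_of_pow_eq_one (congrArg Subtype.val e)
    rw [hg] at this
    norm_num at this

theorem spanned_of_card (hne : Nontrivial φ.ker) (hc : Nat.card φ.ker ≤ 16) : h.Spanned := by
  letI := h.commGroup
  obtain ⟨e, he⟩ := h.exists_section
  obtain ⟨v, hv, hx, hy⟩ := (h.rep e he).exists_fixed
  refine ⟨e, he, v, hv, hx, hy, ?_⟩
  have hi : Function.Injective ((h.rep e he).lin v) :=
    (injective_iff_map_eq_one _).2 fun c => ((h.rep e he).lin_eq_one_iff hv hx hy c).1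
  refine (hi.bijective_of_nat_card_le (hc.trans (le_of_eq ?_))).2
  rw [Nat.card_congr Multiplicative.toAdd, Nat.card_fun, Nat.card_eq_fintype_card,
    Nat.card_eq_fintype_card]
  rfl

theorem spanned_of_minimal (hne : Nontrivial φ.ker)
    (hmin : ∀ H : Subgroup G, (∀ k ∈ ({1, 2, 3, 4, 5} : Set ℕ), ∃ x ∈ H, orderOf x = k) → H = ⊤) :
    h.Spanned := by
  letI := h.commGroup
  obtain ⟨e, he⟩ := h.exists_section
  set R := h.rep e he with hR
  obtain ⟨v, hv, hx, hy⟩ := R.exists_fixed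
  refine ⟨e, he, v, hv, hx, hy, ?_⟩
  set M : Subgroup G := (R.lin v).range.map φ.ker.subtype with hM
  have hinv : ∀ g, ∀ m ∈ M, e g * m * (e g)⁻¹ ∈ M := by
    rintro g _ ⟨a, ha, rfl⟩
    exact ⟨R.ρ g a, R.range_invariant hx hy g a ha, h.rep_apply e he g a⟩
  let H : Subgroup G :=
    { carrier := {x | x * (e (φ x))⁻¹ ∈ M}
      one_mem' := by simp
      mul_mem' := by
        intro x y hx' hy'
        show x * y * (e (φ (x * y)))⁻¹ ∈ M
        have heq : x * y * (e (φ (x * y)))⁻¹ =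
            (x * (e (φ x))⁻¹) * (e (φ x) * (y * (e (φ y))⁻¹) * (e (φ x))⁻¹) := by
          rw [map_mul, map_mul]; group
        rw [heq]
        exact mul_mem hx' (hinv _ _ hy')
      inv_mem' := by
        intro x hx'
        show x⁻¹ * (e (φ x⁻¹))⁻¹ ∈ M
        have heq : x⁻¹ * (e (φ x⁻¹))⁻¹ =
            e (φ x)⁻¹ * (x * (e (φ x))⁻¹)⁻¹ * (e (φ x)⁻¹)⁻¹ := by
          rw [map_inv, map_inv, inv_inv]; group
        rw [heq]
        exact hinv _ _ (inv_mem hx') }
  have heH : ∀ g, e g ∈ H := fun g => by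
    show e g * (e (φ (e g)))⁻¹ ∈ M
    rw [he, mul_inv_cancel]; exact one_mem M
  have hinj : Function.Injective e := Function.LeftInverse.injective he
  have horder : ∀ {p : ℕ}, p.Prime → ∀ {g : A5}, g ^ p = 1 → g ≠ 1 → ∃ x ∈ H, orderOf x = p := by
    intro p hp g hg hg1
    haveI := Fact.mk hp
    exact ⟨e g, heH g, by rw [orderOf_injective e hinj, orderOf_eq_prime hg hg1]⟩
  have hHtop : H = ⊤ := by
    refine hmin H fun k hk => ?_
    simp only [Set.mem_insert_iff, Set.mem_singleton_iff] at hk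
    rcases hk with rfl | rfl | rfl | rfl | rfl
    · exact ⟨1, one_mem H, orderOf_one⟩
    · exact horder Nat.prime_two (pow_two px ▸ px_py.2.1) pxd_five.2.2
    · exact horder Nat.prime_three pb_cube.1 pb_cube.2
    · set w := R.ρ pd v with hw
      set t : G := (w : G) * e px with ht
      have hwM : (w : G) ∈ M :=
        ⟨w, R.range_invariant hx hy pd v ⟨Multiplicative.ofAdd ![1, 0, 0, 0], by
          rw [R.lin_apply]; show v ^ 1 * R.ρ pb v ^ 0 * R.ρ pd v ^ 0 * R.ρ pd (R.ρ pb v) ^ 0 = v; simp⟩, rfl⟩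
      have htH : t ∈ H := by
        show t * (e (φ t))⁻¹ ∈ M
        rw [ht, map_mul, MonoidHom.mem_ker.1 w.2, one_mul, he, mul_assoc, mul_inv_cancel, mul_one]
        exact hwM
      have hpx : (e px) * (e px) = 1 := by rw [← map_mul, px_py.2.1, map_one]
      have ht2 : t * t = (v : G) := by
        have h1 : ((w * R.ρ px w : φ.ker) : G) = (v : G) := by
          rw [hw, R.act_xd hx hx, mul_comm v, ← mul_assoc, R.sq, one_mul]
        rw [Subgroup.coe_mul, h.rep_apply e he px, inv_eq_of_mul_eq_one_right hpx] at h1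
        rw [← h1, ht]; group
      refine ⟨t, htH, orderOf_eq_prime_pow (p := 2) (n := 1) (hnot := ?_) ?_⟩
      · rw [pow_one, pow_two, ht2]
        exact fun e' => hv (Subtype.ext e')
      · rw [show (2 : ℕ) ^ (1 + 1) = 2 * 2 from rfl, pow_mul, pow_two t, ht2]
        exact h.elem.2 _ v.2
    · exact horder (by norm_num) pxd_five.1 pxd_five.2.1
  intro n
  have hn : (n : G) * (e (φ n))⁻¹ ∈ M := (hHtop ▸ Subgroup.mem_top (n : G) : (n : G) ∈ H)
  rw [MonoidHom.mem_ker.1 n.2, map_one, inv_one, mul_one] at hn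
  obtain ⟨a, ⟨c, rfl⟩, ha⟩ := hn
  exact ⟨c, Subtype.ext ha⟩

theorem exists_iso {G' : Type*} [Group G'] [Finite G'] {φ' : G' →* A5} (h' : Ext φ')
    (hS : h.Spanned) (hS' : h'.Spanned) : Nonempty (G ≃* G') := by
  letI := h.commGroup
  letI := h'.commGroup
  obtain ⟨e, he, v, hv, hx, hy, hs⟩ := hS
  obtain ⟨e', he', v', hv', hx', hy', hs'⟩ := hS'
  obtain ⟨T, hT⟩ := (h.rep e he).exists_equiv (h'.rep e' he') hv hx hy hs hv' hx' hy' hs'
  let k : G → φ.ker := fun g => ⟨g * (e (φ g))⁻¹, by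
    rw [MonoidHom.mem_ker, map_mul, map_inv, he, mul_inv_cancel]⟩
  have hk : ∀ a b, k (a * b) = k a * (h.rep e he).ρ (φ a) (k b) := by
    intro a b
    refine Subtype.ext ?_
    rw [Subgroup.coe_mul, h.rep_apply e he]
    simp only [k, map_mul]
    group
  let f : G →* G' := MonoidHom.mk' (fun g => (T (k g) : G') * e' (φ g)) (by
    intro a b
    rw [hk, map_mul T, hT, Subgroup.coe_mul, h'.rep_apply e' he', map_mul φ, map_mul e']
    group)
  have hφ' : ∀ g, φ' (f g) = φ g := fun g => by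
    show φ' ((T (k g) : G') * e' (φ g)) = φ g
    rw [map_mul, MonoidHom.mem_ker.1 (T (k g)).2, one_mul, he']
  have hfi : Function.Injective f := by
    intro a b hab
    have hp : φ a = φ b := by rw [← hφ' a, ← hφ' b, hab]
    have hTk : T (k a) = T (k b) := by
      refine Subtype.ext ?_
      have : (T (k a) : G') * e' (φ a) = (T (k b) : G') * e' (φ b) := hab
      rw [hp] at this
      exact mul_right_cancel this
    have hkk : a * (e (φ a))⁻¹ = b * (e (φ b))⁻¹ := congrArg Subtype.val (T.injective hTk)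
    rw [hp] at hkk
    exact mul_right_cancel hkk
  have hfs : Function.Surjective f := by
    intro g'
    let n : φ'.ker := ⟨g' * (e' (φ' g'))⁻¹, by
      rw [MonoidHom.mem_ker, map_mul, map_inv, he', mul_inv_cancel]⟩
    refine ⟨(T.symm n : G) * e (φ' g'), ?_⟩
    have hφ : φ ((T.symm n : G) * e (φ' g')) = φ' g' := by
      rw [map_mul, MonoidHom.mem_ker.1 (T.symm n).2, one_mul, he]
    have hkn : k ((T.symm n : G) * e (φ' g')) = T.symm n := by
      refine Subtype.ext ?_
      show (T.symm n : G) * e (φ' g') * (e (φ ((T.symm n : G) * e (φ' g'))))⁻¹ = _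
      rw [hφ, mul_assoc, mul_inv_cancel, mul_one]
    show (T (k _) : G') * e' (φ _) = g'
    rw [hkn, hφ, T.apply_symm_apply]
    show g' * (e' (φ' g'))⁻¹ * e' (φ' g') = g'
    rw [inv_mul_cancel_right]
  exact ⟨MulEquiv.ofBijective f ⟨hfi, hfs⟩⟩

end Ext

end Cfsg.Agent.OddChar.CritA6
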