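import Cfsg.Agent.Core.Icosa

/-!
An elementary abelian 2-group on which `A₅` acts with every element of order three fixed point
free: a non-trivial vector fixed by a four-group spans an invariant subgroup of order 16, and the
action on it does not depend on any choice.
-/

set_option autoImplicit false

namespace Cfsg.Agent.OddChar.CritA6

/-- The alternating group on five letters. -/
abbrev A5 : Type := alternatingGroup (Fin 5)

/-- A double transposition fixing `4`. -/
def px : A5 := ⟨Equiv.swap 0 1 * Equiv.swap 2 3, Equiv.Perm.mem_alternatingGroup.mpr (by decide)⟩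

/-- A three-cycle fixing `4`. -/
def pb : A5 := ⟨Equiv.swap 0 1 * Equiv.swap 1 2, Equiv.Perm.mem_alternatingGroup.mpr (by decide)⟩

/-- A double transposition moving `4`. -/
def pd : A5 := ⟨Equiv.swap 0 1 * Equiv.swap 3 4, Equiv.Perm.mem_alternatingGroup.mpr (by decide)⟩

/-- The conjugate of `px`. -/
def py : A5 := pb * px * pb⁻¹

theorem pb_cube : pb ^ 3 = 1 ∧ pb ≠ 1 := by decide +kernel
theorem pb_py : pb * py = px * py * pb := by decide +kernel
theorem pb_px : pb * px = py * pb := by decide +kernel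
theorem px_py : px * py = py * px ∧ px * px = 1 ∧ py * py = 1 := by decide +kernel
theorem pd_rel : pd * pd = 1 ∧ pb * pd = pd * (pb * pb) ∧ pb * (pd * pb) = pd := by decide +kernel
theorem pxd_cube : (px * pd) ^ 3 = 1 ∧ px * pd ≠ 1 := by decide +kernel
theorem pdxdx_cube : (pd * px * pd * px) ^ 3 = 1 ∧ pd * px * pd * px ≠ 1 := by decide +kernel
theorem pxd_five : (px * pb * pd) ^ 5 = 1 ∧ px * pb * pd ≠ 1 ∧ px ≠ 1 := by decide +kernel

theorem eq_top_of_orders {T : Subgroup A5} {u v w : A5} (hu : u ∈ T) (hv : v ∈ T) (hw : w ∈ T)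
    (hu2 : u ^ 2 = 1) (hv3 : v ^ 3 = 1) (hw5 : w ^ 5 = 1) (hu1 : u ≠ 1) (hv1 : v ≠ 1)
    (hw1 : w ≠ 1) : T = ⊤ := by
  haveI : Fact (Nat.Prime 2) := ⟨Nat.prime_two⟩
  haveI : Fact (Nat.Prime 3) := ⟨Nat.prime_three⟩
  haveI : Fact (Nat.Prime 5) := ⟨by norm_num⟩
  have h2 : 2 ∣ Nat.card T := (dvd_of_eq (orderOf_eq_prime hu2 hu1).symm).trans (T.orderOf_dvd_natCard hu)
  have h3 : 3 ∣ Nat.card T := (dvd_of_eq (orderOf_eq_prime hv3 hv1).symm).trans (T.orderOf_dvd_natCard hv)
  have h5 : 5 ∣ Nat.card T := (dvd_of_eq (orderOf_eq_prime hw5 hw1).symm).trans (T.orderOf_dvd_natCard hw)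
  have h30 : 30 ∣ Nat.card T := by omega
  have h30' := Nat.le_of_dvd Nat.card_pos h30
  have hidx := T.card_mul_index
  rw [KnownA.card_alt_five] at hidx
  haveI := alternatingGroup.isSimpleGroup (α := Fin 5) (by simp)
  have hnc : ¬ IsCyclic A5 := fun h => absurd (mul_comm' pb px) (by decide +kernel)
  exact Core.Icosa.eq_top_of_index_le_two hnc T (fun h => by simp [h] at hidx) (by nlinarith)

theorem closure_gens : Subgroup.closure ({px, pb, pd} : Set A5) = ⊤ := by
  have hx : px ∈ Subgroup.closure ({px, pb, pd} : Set A5) := Subgroup.subset_closure (by simp)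
  have hb : pb ∈ Subgroup.closure ({px, pb, pd} : Set A5) := Subgroup.subset_closure (by simp)
  have hd : pd ∈ Subgroup.closure ({px, pb, pd} : Set A5) := Subgroup.subset_closure (by simp)
  exact eq_top_of_orders hx hb (mul_mem (mul_mem hx hb) hd) (by rw [pow_two]; exact px_py.2.1)
    pb_cube.1 pxd_five.1 pxd_five.2.2 pb_cube.2 pxd_five.2.1

/-- An action of `A₅` on an elementary abelian 2-group, elements of order three fixed point free. -/
structure Rep (A : Type*) [CommGroup A] where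
  /-- the action -/
  ρ : A5 →* MulAut A
  sq : ∀ a : A, a * a = 1
  fpf : ∀ t : A5, t ^ 3 = 1 → t ≠ 1 → ∀ a : A, ρ t a = a → a = 1

namespace Rep

variable {A : Type*} [CommGroup A] (R : Rep A)

theorem apply_mul (g h : A5) (a : A) : R.ρ (g * h) a = R.ρ g (R.ρ h a) := by
  rw [map_mul]; rfl

theorem apply_one (a : A) : R.ρ 1 a = a := by
  rw [map_one]; rfl

theorem norm_eq_one {t : A5} (ht : t ^ 3 = 1) (ht1 : t ≠ 1) (a : A) :
    a * R.ρ t a * R.ρ t (R.ρ t a) = 1 := by
  refine R.fpf t ht ht1 _ ?_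
  have h3 : R.ρ t (R.ρ t (R.ρ t a)) = a := by
    rw [← R.apply_mul, ← R.apply_mul, mul_assoc, ← pow_three, ht, R.apply_one]
  rw [map_mul, map_mul, h3]
  ac_rfl

include R in
theorem eq_of_mul {a b : A} (h : a * b = 1) : a = b :=
  mul_right_cancel (h.trans (R.sq b).symm)

theorem exists_fixed [Nontrivial A] : ∃ v : A, v ≠ 1 ∧ R.ρ px v = v ∧ R.ρ py v = v := by
  obtain ⟨c, hc, hy⟩ := px_py
  obtain ⟨a, ha⟩ := exists_ne (1 : A)
  obtain ⟨u, hu1, hu⟩ : ∃ u : A, u ≠ 1 ∧ R.ρ px u = u := by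
    by_cases h : R.ρ px a = a
    · exact ⟨a, ha, h⟩
    · refine ⟨a * R.ρ px a, fun e => h (R.eq_of_mul e).symm, ?_⟩
      rw [map_mul, ← R.apply_mul, hc, R.apply_one, mul_comm]
  by_cases h : R.ρ py u = u
  · exact ⟨u, hu1, hu, h⟩
  · refine ⟨u * R.ρ py u, fun e => h (R.eq_of_mul e).symm, ?_, ?_⟩
    · rw [map_mul, ← R.apply_mul, c, R.apply_mul, hu]
    · rw [map_mul, ← R.apply_mul, hy, R.apply_one, mul_comm]

/-- The four basis vectors built from `v`. -/
def vec (v : A) (i : Fin 4) : A :=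
  ![v, R.ρ pb v, R.ρ pd v, R.ρ pd (R.ρ pb v)] i

include R in
theorem pow_val_add (a : A) (s t : ZMod 2) : a ^ (s + t).val = a ^ s.val * a ^ t.val := by
  rw [← pow_add, ZMod.val_add]
  conv_rhs => rw [← Nat.mod_add_div (s.val + t.val) 2, pow_add, pow_mul, pow_two, R.sq, one_pow, mul_one]

/-- The linear map given by the four vectors. -/
def lin (v : A) : Multiplicative (Fin 4 → ZMod 2) →* A where
  toFun c := ∏ i, R.vec v i ^ (Multiplicative.toAdd c i).val
  map_one' := by simp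
  map_mul' c d := by
    rw [← Finset.prod_mul_distrib]
    exact Finset.prod_congr rfl fun i _ => R.pow_val_add _ _ _

theorem lin_apply (v : A) (p q r s : ZMod 2) :
    R.lin v (Multiplicative.ofAdd ![p, q, r, s]) =
      v ^ p.val * R.ρ pb v ^ q.val * (R.ρ pd v ^ r.val) * (R.ρ pd (R.ρ pb v) ^ s.val) := by
  show ∏ i, R.vec v i ^ (![p, q, r, s] i).val = _
  rw [Fin.prod_univ_four]
  rfl

variable {v : A} (hx : R.ρ px v = v) (hy : R.ρ py v = v)
include hx hy

theorem fixed_b : R.ρ px (R.ρ pb v) = R.ρ pb v ∧ R.ρ py (R.ρ pb v) = R.ρ pb v := by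
  have h1 : px * pb = pb * (px * py) := by decide +kernel
  have h2 : py * pb = pb * px := pb_px.symm
  constructor
  · rw [← R.apply_mul, h1, R.apply_mul, R.apply_mul, hy, hx]
  · rw [← R.apply_mul, h2, R.apply_mul, hx]

theorem act_bb : R.ρ pb (R.ρ pb v) = v * R.ρ pb v := by
  refine (R.eq_of_mul ?_).symm
  exact R.norm_eq_one pb_cube.1 pb_cube.2 v

theorem act_bd : R.ρ pb (R.ρ pd v) = R.ρ pd v * R.ρ pd (R.ρ pb v) := by
  rw [← R.apply_mul, pd_rel.2.1, R.apply_mul, R.apply_mul, R.act_bb hx hy, map_mul]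

theorem act_bdb : R.ρ pb (R.ρ pd (R.ρ pb v)) = R.ρ pd v := by
  rw [← R.apply_mul, ← R.apply_mul, mul_assoc, pd_rel.2.2]

omit hy in
theorem act_xd {u : A} (hu : R.ρ px u = u) : R.ρ px (R.ρ pd u) = u * R.ρ pd u := by
  have h := R.norm_eq_one pxd_cube.1 pxd_cube.2 u
  have h2 : R.ρ (px * pd) (R.ρ (px * pd) u) = R.ρ pd u := by
    rw [← R.apply_mul, show px * pd * (px * pd) = pd * px by decide +kernel, R.apply_mul, hu]
  rw [h2, R.apply_mul, mul_comm u, mul_assoc] at h
  exact R.eq_of_mul h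

omit hx hy in
theorem lin_eq_one_iff (hv : v ≠ 1) (hx : R.ρ px v = v) (hy : R.ρ py v = v)
    (c : Multiplicative (Fin 4 → ZMod 2)) : R.lin v c = 1 ↔ c = 1 := by
  refine ⟨fun h => ?_, fun h => by rw [h, map_one]⟩
  obtain ⟨p, q, r, s, rfl⟩ : ∃ p q r s, c = Multiplicative.ofAdd ![p, q, r, s] :=
    ⟨_, _, _, _, by ext i; fin_cases i <;> rfl⟩
  obtain ⟨bx, by'⟩ := R.fixed_b hx hy
  set P := v ^ p.val * R.ρ pb v ^ q.val with hP
  set Q := v ^ r.val * R.ρ pb v ^ s.val with hQ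
  have hPQ : P = R.ρ pd Q := by
    refine R.eq_of_mul ?_
    rw [R.lin_apply, mul_assoc] at h
    rw [hQ, map_mul, map_pow, map_pow]
    exact h
  have hfP : R.ρ px P = P := by rw [hP, map_mul, map_pow, map_pow, hx, bx]
  have hfQ : R.ρ px Q = Q := by rw [hQ, map_mul, map_pow, map_pow, hx, bx]
  have hP1 : P = 1 := by
    refine R.fpf _ pdxdx_cube.1 pdxdx_cube.2 _ ?_
    rw [R.apply_mul, hfP, hPQ, ← R.apply_mul, show pd * px * pd * pd = pd * px by decide +kernel,
      R.apply_mul, hfQ]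
  have hQ1 : Q = 1 := by
    rw [hP1] at hPQ
    exact (map_eq_one_iff _ (R.ρ pd).injective).mp hPQ.symm
  have hb1 : R.ρ pb v ≠ 1 := fun e => hv ((map_eq_one_iff _ (R.ρ pb).injective).mp e)
  have hbv : v * R.ρ pb v ≠ 1 := fun e => hv (R.fpf pb pb_cube.1 pb_cube.2 v (R.eq_of_mul e).symm)
  have hz : ∀ a b : ZMod 2, v ^ a.val * R.ρ pb v ^ b.val = 1 → a = 0 ∧ b = 0 := by
    intro a b
    fin_cases a <;> fin_cases b <;> intro e
    · exact ⟨rfl, rfl⟩
    · exact absurd (by simpa [ZMod.val] using e) hb1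
    · exact absurd (by simpa [ZMod.val] using e) hv
    · exact absurd (by simpa [ZMod.val] using e) hbv
  obtain ⟨rfl, rfl⟩ := hz p q hP1
  obtain ⟨rfl, rfl⟩ := hz r s hQ1
  ext i; fin_cases i <;> rfl

/-- The three universal coordinate transformations. -/
theorem lin_gens (p q r s : ZMod 2) :
    R.ρ pb (R.lin v (Multiplicative.ofAdd ![p, q, r, s])) =
        R.lin v (Multiplicative.ofAdd ![q, p + q, r + s, r]) ∧
      R.ρ pd (R.lin v (Multiplicative.ofAdd ![p, q, r, s])) =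
        R.lin v (Multiplicative.ofAdd ![r, s, p, q]) ∧
      R.ρ px (R.lin v (Multiplicative.ofAdd ![p, q, r, s])) =
        R.lin v (Multiplicative.ofAdd ![p + r, q + s, r, s]) := by
  obtain ⟨bx, -⟩ := R.fixed_b hx hy
  have dd : ∀ a, R.ρ pd (R.ρ pd a) = a := fun a => by
    rw [← R.apply_mul, pd_rel.1, R.apply_one]
  simp only [R.lin_apply, map_mul, map_pow, R.act_bb hx hy, R.act_bd hx hy, R.act_bdb hx hy, hx, bx,
    R.act_xd hx, R.act_xd bx, dd, mul_pow, R.pow_val_add]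
  refine ⟨?_, ?_, ?_⟩ <;> simp only [mul_comm, mul_left_comm, mul_assoc]

/-- The invariant subgroup. -/
theorem range_invariant (g : A5) : ∀ a ∈ (R.lin v).range, R.ρ g a ∈ (R.lin v).range := by
  have hg : g ∈ Subgroup.closure ({px, pb, pd} : Set A5) := closure_gens ▸ Subgroup.mem_top g
  induction hg using Subgroup.closure_induction'' with
  | mem t ht =>
    rintro _ ⟨c, rfl⟩
    obtain ⟨p, q, r, s, rfl⟩ : ∃ p q r s, c = Multiplicative.ofAdd ![p, q, r, s] :=
      ⟨_, _, _, _, by ext i; fin_cases i <;> rfl⟩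
    obtain ⟨h1, h2, h3⟩ := R.lin_gens hx hy p q r s
    rcases ht with rfl | rfl | rfl
    exacts [⟨_, h3.symm⟩, ⟨_, h1.symm⟩, ⟨_, h2.symm⟩]
  | inv_mem t ht =>
    have hinv : t⁻¹ = t ∨ t⁻¹ = t * t := by
      rcases ht with rfl | rfl | rfl <;> decide +kernel
    have hgen : ∀ a ∈ (R.lin v).range, R.ρ t a ∈ (R.lin v).range := by
      rintro _ ⟨c, rfl⟩
      obtain ⟨p, q, r, s, rfl⟩ : ∃ p q r s, c = Multiplicative.ofAdd ![p, q, r, s] :=
        ⟨_, _, _, _, by ext i; fin_cases i <;> rfl⟩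
      obtain ⟨h1, h2, h3⟩ := R.lin_gens hx hy p q r s
      rcases ht with rfl | rfl | rfl
      exacts [⟨_, h3.symm⟩, ⟨_, h1.symm⟩, ⟨_, h2.symm⟩]
    intro a ha
    rcases hinv with e | e <;> rw [e]
    · exact hgen a ha
    · rw [R.apply_mul]; exact hgen _ (hgen a ha)
  | one => intro a ha; rw [R.apply_one]; exact ha
  | mul x y _ _ hx' hy' => intro a ha; rw [R.apply_mul]; exact hx' _ (hy' a ha)

omit hx hy in
/-- Two such actions on groups spanned by the vectors are equivalent. -/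
theorem exists_equiv {B : Type*} [CommGroup B] (S : Rep B) {v : A} {w : B}
    (hv : v ≠ 1) (hxv : R.ρ px v = v) (hyv : R.ρ py v = v) (hsv : Function.Surjective (R.lin v))
    (hw : w ≠ 1) (hxw : S.ρ px w = w) (hyw : S.ρ py w = w) (hsw : Function.Surjective (S.lin w)) :
    ∃ T : A ≃* B, ∀ g a, T (R.ρ g a) = S.ρ g (T a) := by
  have hi : Function.Injective (R.lin v) :=
    (injective_iff_map_eq_one _).2 fun c => (R.lin_eq_one_iff hv hxv hyv c).1
  have hj : Function.Injective (S.lin w) :=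
    (injective_iff_map_eq_one _).2 fun c => (S.lin_eq_one_iff hw hxw hyw c).1
  let L := MulEquiv.ofBijective (R.lin v) ⟨hi, hsv⟩
  let M := MulEquiv.ofBijective (S.lin w) ⟨hj, hsw⟩
  refine ⟨L.symm.trans M, fun g => ?_⟩
  have hL : ∀ c, (L.symm.trans M) (R.lin v c) = S.lin w c := fun c => by
    rw [MulEquiv.trans_apply, show L.symm (R.lin v c) = c from L.symm_apply_apply c]
    rfl
  have hgen : ∀ t ∈ ({px, pb, pd} : Set A5), ∀ a,
      (L.symm.trans M) (R.ρ t a) = S.ρ t ((L.symm.trans M) a) := by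
    intro t ht a
    obtain ⟨c, rfl⟩ := hsv a
    obtain ⟨p, q, r, s, rfl⟩ : ∃ p q r s, c = Multiplicative.ofAdd ![p, q, r, s] :=
      ⟨_, _, _, _, by ext i; fin_cases i <;> rfl⟩
    obtain ⟨h1, h2, h3⟩ := R.lin_gens hxv hyv p q r s
    obtain ⟨k1, k2, k3⟩ := S.lin_gens hxw hyw p q r s
    rcases ht with rfl | rfl | rfl
    · rw [h3, hL, hL, k3]
    · rw [h1, hL, hL, k1]
    · rw [h2, hL, hL, k2]
  have hg : g ∈ Subgroup.closure ({px, pb, pd} : Set A5) := closure_gens ▸ Subgroup.mem_top g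
  induction hg using Subgroup.closure_induction with
  | mem t ht => exact hgen t ht
  | one => intro a; rw [R.apply_one, S.apply_one]
  | mul x y _ _ hx' hy' => intro a; rw [R.apply_mul, S.apply_mul, hx', hy']
  | inv x _ hx' =>
    intro a
    have := hx' (R.ρ x⁻¹ a)
    rw [← R.apply_mul, mul_inv_cancel, R.apply_one] at this
    rw [this, ← S.apply_mul, inv_mul_cancel, S.apply_one]

end Rep

end Cfsg.Agent.OddChar.CritA6
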