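import Cfsg.Agent.OddChar.CritA6Module
import Cfsg.Agent.SmallOrder.Spec5.Basic
import Cfsg.Prelude.Def_Transfer

/-!
Extensions of elementary abelian 2-groups by `A₅` with all element orders at most five split.
-/

set_option autoImplicit false

namespace Cfsg.Agent.OddChar.CritA6

open Cfsg.Agent.SmallOrder.Spec5

/-- The involution used for the presentation. -/
def pa : A5 := ⟨Equiv.swap 0 3 * Equiv.swap 1 4, Equiv.Perm.mem_alternatingGroup.mpr (by decide)⟩

theorem pa_facts : pa ^ 2 = 1 ∧ pa ≠ 1 ∧ (pb⁻¹ * pa) ^ 5 = 1 ∧ pb⁻¹ * pa ≠ 1 ∧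
    pd * pb * pd⁻¹ = pb⁻¹ ∧ pd ≠ 1 := by decide +kernel

theorem pa_conj : ∃ g : A5, g * pd * g⁻¹ = pa := by decide +kernel

variable {G : Type*} [Group G]

/-- An extension of an elementary abelian 2-group by `A₅` with element orders at most five. -/
structure Ext (φ : G →* A5) : Prop where
  surj : Function.Surjective φ
  elem : Cfsg.IsElementaryAbelian 2 φ.ker
  spec : Spec5 G

variable [Finite G] {φ : G →* A5}

namespace Ext

variable (h : Ext φ)
include h

theorem lift_pow {p : ℕ} [hp : Fact p.Prime] (hp3 : 3 ≤ p) {g : G} (hg : φ g ^ p = 1) (hne : φ g ≠ 1) :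
    orderOf g = p := by
  have hd : p ∣ orderOf g := by
    rw [← orderOf_eq_prime hg hne]; exact orderOf_map_dvd φ g
  obtain ⟨k, hk⟩ := hd
  have := h.spec g
  have := orderOf_pos g
  rcases Nat.lt_or_ge k 2 with hk2 | hk2
  · interval_cases k
    · omega
    · omega
  · nlinarith

theorem fpf {g n : G} (hg : φ g ^ 3 = 1) (hne : φ g ≠ 1) (hn : n ∈ φ.ker) (hc : g * n = n * g) :
    n = 1 := by
  haveI : Fact (Nat.Prime 3) := ⟨Nat.prime_three⟩
  haveI : Fact (Nat.Prime 2) := ⟨Nat.prime_two⟩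
  by_contra hn1
  refine h.spec.comm_false hc (fun e => hne (by rw [e, map_one])) hn1 ?_
  rw [h.lift_pow le_rfl hg hne, orderOf_eq_prime (p := 2) (h.elem.2 n hn) hn1]
  norm_num

theorem exists_inverting {b : G} (hb : φ b = pb) : ∃ v : G, φ v = pd ∧ v * v = 1 ∧ v * b * v⁻¹ = b⁻¹ := by
  have hb3 : φ b ^ 3 = 1 ∧ φ b ≠ 1 := hb ▸ pb_cube
  obtain ⟨u, hu⟩ := h.surj pd
  let ψ : φ.ker → φ.ker := fun m => ⟨(m : G) * b⁻¹ * (m : G)⁻¹ * b, by
    rw [MonoidHom.mem_ker, map_mul, map_mul, map_mul, map_inv, map_inv, MonoidHom.mem_ker.1 m.2]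
    group⟩
  have hψ : Function.Injective ψ := by
    intro m k hmk
    have he : (m : G) * b⁻¹ * (m : G)⁻¹ = (k : G) * b⁻¹ * (k : G)⁻¹ :=
      mul_right_cancel (congrArg Subtype.val hmk)
    have hc : ((k : G)⁻¹ * m) * b⁻¹ = b⁻¹ * ((k : G)⁻¹ * m) := by
      calc ((k : G)⁻¹ * m) * b⁻¹ = (k : G)⁻¹ * ((m : G) * b⁻¹ * (m : G)⁻¹) * m := by group
        _ = (k : G)⁻¹ * ((k : G) * b⁻¹ * (k : G)⁻¹) * m := by rw [he]
        _ = _ := by group
    have hc' : b * ((k : G)⁻¹ * m) = ((k : G)⁻¹ * m) * b := by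
      calc b * ((k : G)⁻¹ * m) = b * (((k : G)⁻¹ * m) * b⁻¹) * b := by group
        _ = b * (b⁻¹ * ((k : G)⁻¹ * m)) * b := by rw [hc]
        _ = _ := by group
    have := h.fpf hb3.1 hb3.2 (mul_mem (inv_mem k.2) m.2) hc'
    exact Subtype.ext (inv_mul_eq_one.1 this).symm
  obtain ⟨m, hm⟩ := (Finite.injective_iff_surjective.1 hψ) ⟨u * b * u⁻¹ * b, by
    rw [MonoidHom.mem_ker, map_mul, map_mul, map_mul, map_inv, hu, hb, pa_facts.2.2.2.2.1,
      inv_mul_cancel]⟩
  have hm' : (m : G) * b⁻¹ * (m : G)⁻¹ = u * b * u⁻¹ := mul_right_cancel (congrArg Subtype.val hm)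
  have hv : φ ((m : G)⁻¹ * u) = pd := by
    rw [map_mul, map_inv, MonoidHom.mem_ker.1 m.2, inv_one, one_mul, hu]
  have hinv : ((m : G)⁻¹ * u) * b * ((m : G)⁻¹ * u)⁻¹ = b⁻¹ := by
    calc _ = (m : G)⁻¹ * (u * b * u⁻¹) * m := by group
      _ = (m : G)⁻¹ * ((m : G) * b⁻¹ * (m : G)⁻¹) * m := by rw [hm']
      _ = _ := by group
  refine ⟨(m : G)⁻¹ * u, hv, ?_, hinv⟩
  set v := (m : G)⁻¹ * u
  refine h.fpf hb3.1 hb3.2 ?_ ?_
  · rw [MonoidHom.mem_ker, map_mul, hv, pd_rel.1]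
  · have h2 : v * v * b * (v * v)⁻¹ = b := by
      calc v * v * b * (v * v)⁻¹ = v * (v * b * v⁻¹) * v⁻¹ := by group
        _ = v * b⁻¹ * v⁻¹ := by rw [hinv]
        _ = (v * b * v⁻¹)⁻¹ := by group
        _ = b := by rw [hinv, inv_inv]
    calc b * (v * v) = v * v * b * (v * v)⁻¹ * (v * v) := by rw [h2]
      _ = _ := by group

theorem exists_section : ∃ e : A5 →* G, ∀ g, φ (e g) = g := by
  haveI : Fact (Nat.Prime 3) := ⟨Nat.prime_three⟩
  haveI : Fact (Nat.Prime 5) := ⟨by norm_num⟩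
  obtain ⟨b, hb⟩ := h.surj pb
  obtain ⟨v, hv, hv2, -⟩ := h.exists_inverting hb
  obtain ⟨g₀, hg₀⟩ := pa_conj
  obtain ⟨g, hg⟩ := h.surj g₀
  set a := g * v * g⁻¹ with ha
  have hφa : φ a = pa := by rw [ha, map_mul, map_mul, map_inv, hg, hv, hg₀]
  have ha2 : a * a = 1 := by
    calc a * a = g * (v * v) * g⁻¹ := by rw [ha]; group
      _ = 1 := by rw [hv2]; group
  set y := b⁻¹ * a with hy
  have hφy : φ y = pb⁻¹ * pa := by rw [hy, map_mul, map_inv, hb, hφa]
  have hb3 : b ^ 3 = 1 := by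
    have := h.lift_pow le_rfl (g := b) (hb ▸ pb_cube.1) (hb ▸ pb_cube.2)
    exact this ▸ pow_orderOf_eq_one b
  have hy5 : y ^ 5 = 1 := by
    have := h.lift_pow (p := 5) (by norm_num) (g := y) (hφy ▸ pa_facts.2.2.1) (hφy ▸ pa_facts.2.2.2.1)
    exact this ▸ pow_orderOf_eq_one y
  have hby : (b * y) ^ 2 = 1 := by rw [hy, mul_inv_cancel_left, pow_two, ha2]
  set S := Subgroup.closure ({b, y} : Set G) with hS
  have hbS : b ∈ S := Subgroup.subset_closure (by simp)
  have hyS : y ∈ S := Subgroup.subset_closure (by simp)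
  have hgen : Subgroup.closure ({⟨b, hbS⟩, ⟨y, hyS⟩} : Set S) = ⊤ := by
    refine Subgroup.map_injective S.subtype_injective ?_
    rw [MonoidHom.map_closure, ← MonoidHom.range_eq_map, Subgroup.range_subtype, Set.image_pair]
    exact hS.symm
  obtain ⟨-, h60⟩ := Core.Icosa.card_le_sixty (⟨b, hbS⟩ : S) ⟨y, hyS⟩ hgen (Subtype.ext hb3)
    (Subtype.ext hy5) (Subtype.ext hby)
  set f : S →* A5 := φ.comp S.subtype with hf
  have hfs : Function.Surjective f := by
    rw [← MonoidHom.range_eq_top]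
    have hbr : pb ∈ f.range := ⟨⟨b, hbS⟩, hb⟩
    have hyr : pb⁻¹ * pa ∈ f.range := ⟨⟨y, hyS⟩, hφy⟩
    have har : pa ∈ f.range := by simpa using mul_mem hbr hyr
    exact eq_top_of_orders har hbr hyr pa_facts.1 pb_cube.1 pa_facts.2.2.1 pa_facts.2.1 pb_cube.2
      pa_facts.2.2.2.1
  have hcard : Nat.card S = Nat.card A5 := by
    refine le_antisymm ?_ (Nat.card_le_card_of_surjective f hfs)
    rw [KnownA.card_alt_five]; exact h60
  let E := MulEquiv.ofBijective f ((Nat.bijective_iff_surjective_and_card f).mpr ⟨hfs, hcard⟩)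
  exact ⟨S.subtype.comp E.symm.toMonoidHom, fun x => E.apply_symm_apply x⟩

/-- The elementary abelian kernel as a commutative group. -/
@[reducible] def commGroup : CommGroup φ.ker :=
  { (inferInstance : Group φ.ker) with mul_comm := fun a b => h.elem.1.is_comm.comm a b }

/-- The action given by a section. -/
noncomputable def rep (e : A5 →* G) (he : ∀ g, φ (e g) = g) : @Rep φ.ker h.commGroup :=
  @Rep.mk φ.ker h.commGroup ((MulAut.conjNormal (H := φ.ker)).comp e)
    (fun a => Subtype.ext (by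
      have := h.elem.2 a a.2
      rw [pow_two] at this
      exact this))
    (fun t ht ht1 a ha => Subtype.ext (by
      refine h.fpf (g := e t) (by rw [he]; exact ht) (by rw [he]; exact ht1) a.2 ?_
      have := congrArg Subtype.val ha
      rw [MonoidHom.comp_apply, MulAut.conjNormal_apply] at this
      calc e t * (a : G) = e t * (a : G) * (e t)⁻¹ * e t := by group
        _ = (a : G) * e t := by rw [this]))

theorem rep_apply (e : A5 →* G) (he : ∀ g, φ (e g) = g) (g : A5) (a : φ.ker) :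
    ((@Rep.ρ φ.ker h.commGroup (h.rep e he) g a : φ.ker) : G) = e g * (a : G) * (e g)⁻¹ :=
  MulAut.conjNormal_apply (e g) a

end Ext

end Cfsg.Agent.OddChar.CritA6
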