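import Cfsg.Agent.S0732
import Mathlib.GroupTheory.Sylow
import Mathlib.GroupTheory.SpecificGroups.Cyclic

/-!
Transitive groups of degree `18` with an element of order `17` whose cyclic subgroup is normalised
by the stabiliser of its fixed point: they have `153` Sylow `2`-subgroups and `136` Sylow
`3`-subgroups, and they are `PSL(2, 17)` or `PGL(2, 17)`.
-/

set_option autoImplicit false

open MulAction Subgroup

namespace Cfsg.Agent.OddChar.Degree18

/-- The data: a transitive group of degree `18`, an element `u` of order `17` fixing `a` only,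
whose cyclic subgroup is normalised by the stabiliser of `a`. -/
structure Datum {α : Type*} [Fintype α] [DecidableEq α] (K : Subgroup (Equiv.Perm α))
    (a : α) (u : K) : Prop where
  card_eq : Fintype.card α = 18
  trans : IsPretransitive K α
  order : orderOf u = 17
  fix : (u : Equiv.Perm α) a = a
  unique : ∀ b : α, (u : Equiv.Perm α) b = b → b = a
  normal : ∀ x ∈ stabilizer K a, x * u * x⁻¹ ∈ zpowers u

variable {α : Type*} [Fintype α] [DecidableEq α] {K : Subgroup (Equiv.Perm α)} {a : α} {u : K}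

theorem smul_a (h : Datum K a u) : u • a = a := h.fix

theorem fix_only (h : Datum K a u) {x : K} (hx : x * u = u * x) : x • a = a := by
  refine h.unique _ ?_
  change u • x • a = x • a
  rw [← mul_smul, ← hx, mul_smul, smul_a h]

theorem orbit_u (h : Datum K a u) {b : α} (hb : b ≠ a) {c : α} (hc : c ≠ a) :
    ∃ k : ℕ, (u ^ k) • b = c := by
  have h17 : Nat.Prime 17 := by norm_num
  have hord : orderOf (u : Equiv.Perm α) = 17 := by rw [Subgroup.orderOf_coe, h.order]
  haveI := Fact.mk h17
  have hcyc : Equiv.Perm.IsCycle (u : Equiv.Perm α) := by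
    refine Equiv.Perm.isCycle_of_prime_order (hord ▸ h17) ?_
    rw [hord]
    have := Finset.card_le_univ (u : Equiv.Perm α).support
    rw [h.card_eq] at this
    omega
  obtain ⟨k, hk⟩ := hcyc.exists_pow_eq (fun hh => hb (h.unique b hh)) (fun hh => hc (h.unique c hh))
  exact ⟨k, by rw [Subgroup.smul_def, SubgroupClass.coe_pow]; exact hk⟩

/-- An element commuting with `u` and fixing two points is trivial. -/
theorem eq_one_of_comm (h : Datum K a u) {x : K} (hx : x * u = u * x) {b : α} (hb : b ≠ a)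
    (hxb : x • b = b) : x = 1 := by
  refine Subtype.ext (Equiv.Perm.ext fun c => ?_)
  change x • c = c
  rcases eq_or_ne c a with rfl | hc
  · exact fix_only h hx
  · obtain ⟨k, rfl⟩ := orbit_u h hb hc
    rw [← mul_smul, (Commute.pow_right (hx : Commute x u) k).eq, mul_smul, hxb]

/-- The two-point stabiliser has at most sixteen elements. -/
theorem two_point_le (h : Datum K a u) {b : α} (hb : b ≠ a) :
    Nat.card ↥(stabilizer K a ⊓ stabilizer K b) ≤ 16 := by
  classical
  haveI : Finite (zpowers u) := Subtype.finite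
  let f : ↥(stabilizer K a ⊓ stabilizer K b) → {y : zpowers u // y ≠ 1} := fun x =>
    ⟨⟨(x : K) * u * (x : K)⁻¹, h.normal x x.2.1⟩, fun hh => by
      have h1 := congrArg Subtype.val hh
      simp only [Subgroup.coe_one] at h1
      rw [conj_eq_one_iff] at h1
      have := h.order
      rw [h1, orderOf_one] at this
      omega⟩
  have hf : Function.Injective f := by
    intro x y hxy
    have h1 : (x : K) * u * (x : K)⁻¹ = (y : K) * u * (y : K)⁻¹ :=
      congrArg (fun z => ((z : zpowers u) : K)) (congrArg Subtype.val hxy)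
    have h2 : ((y : K)⁻¹ * x) * u = u * ((y : K)⁻¹ * x) := by
      calc ((y : K)⁻¹ * x) * u = (y : K)⁻¹ * ((x : K) * u * (x : K)⁻¹) * x := by group
        _ = (y : K)⁻¹ * ((y : K) * u * (y : K)⁻¹) * x := by rw [h1]
        _ = u * ((y : K)⁻¹ * x) := by group
    refine Subtype.ext (inv_mul_eq_one.mp (eq_one_of_comm h h2 hb ?_)).symm
    rw [mul_smul, inv_smul_eq_iff, show (x : K) • b = b from x.2.2,
      show (y : K) • b = b from y.2.2]
  refine (Nat.card_le_card_of_injective f hf).trans ?_
  haveI : Fintype (zpowers u) := Fintype.ofFinite _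
  rw [Nat.card_eq_fintype_card, Fintype.card_subtype_compl, Fintype.card_subtype_eq,
    ← Nat.card_eq_fintype_card, Nat.card_zpowers, h.order]

theorem card_eq_mul (h : Datum K a u) {b : α} (hb : b ≠ a) :
    Nat.card K = 18 * 17 * Nat.card ↥(stabilizer K a ⊓ stabilizer K b) := by
  haveI := h.trans
  have h1 : Nat.card K = 18 * Nat.card (stabilizer K a) := by
    rw [← (stabilizer K a).index_mul_card, index_stabilizer_of_transitive,
      Nat.card_eq_fintype_card (α := α), h.card_eq]
  have horb : orbit (stabilizer K a) b = {a}ᶜ := by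
    ext c
    constructor
    · rintro ⟨x, rfl⟩ hc
      change (x : K) • b = a at hc
      exact hb (by rw [← inv_smul_eq_iff.mpr hc.symm, ← eq_inv_smul_iff.mpr x.2])
    · intro hc
      obtain ⟨k, hk⟩ := orbit_u h hb hc
      exact ⟨⟨u ^ k, pow_mem (smul_a h) k⟩, hk⟩
  have h2 := (stabilizer (stabilizer K a) b).index_mul_card
  rw [index_stabilizer, horb, Set.ncard_compl, Set.ncard_singleton, Nat.card_eq_fintype_card
    (α := α), h.card_eq] at h2
  have h3 : Nat.card (stabilizer (stabilizer K a) b) =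
      Nat.card ↥(stabilizer K a ⊓ stabilizer K b) := by
    refine Nat.card_congr
      { toFun := fun x => ⟨((x : stabilizer K a) : K), (x : stabilizer K a).2, x.2⟩
        invFun := fun x => ⟨⟨(x : K), x.2.1⟩, x.2.2⟩
        left_inv := fun _ => rfl
        right_inv := fun _ => rfl }
  rw [h1, ← h2, h3, mul_assoc]

/-- The possible shapes. -/
theorem cases (h : Datum K a u) :
    (Nat.card K = 18 * 17 * 16 ∧ Nonempty (K ≃* Matrix.ProjGenLinGroup (Fin 2) (ZMod 17))) ∨
    (Nat.card K = 18 * 17 * 8 ∧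
      Nonempty (K ≃* Matrix.ProjectiveSpecialLinearGroup (Fin 2) (ZMod 17))) := by
  obtain ⟨b, hb⟩ := Fintype.exists_ne_of_one_lt_card (by rw [h.card_eq]; norm_num) a
  haveI := h.trans
  rcases S0732.result (p := 17) (d := Nat.card ↥(stabilizer K a ⊓ stabilizer K b)) (by norm_num)
    h.card_eq K (card_eq_mul h hb) (Nat.lt_succ_of_le (two_point_le h hb)) with
    ⟨hd, e⟩ | ⟨hd, e⟩ | ⟨q, -, hq, -⟩
  · exact Or.inl ⟨by rw [card_eq_mul h hb, hd], e⟩
  · refine Or.inr ⟨?_, e⟩
    rw [card_eq_mul h hb, show Nat.card ↥(stabilizer K a ⊓ stabilizer K b) = 8 by omega]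
  · exfalso
    have h5 : q < 5 := (Nat.pow_lt_pow_iff_right (a := 2) (by norm_num)).mp (by omega)
    interval_cases q <;> omega

theorem two_point_card (h : Datum K a u) {b : α} (hb : b ≠ a) :
    Nat.card ↥(stabilizer K a ⊓ stabilizer K b) = 8 ∨
      Nat.card ↥(stabilizer K a ⊓ stabilizer K b) = 16 := by
  have := card_eq_mul h hb
  rcases cases h with ⟨hc, -⟩ | ⟨hc, -⟩ <;> omega

/-- The datum may be moved to any point. -/
theorem conj (h : Datum K a u) (g : K) : Datum K (g • a) (g * u * g⁻¹) := by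
  refine ⟨h.card_eq, h.trans, ?_, ?_, ?_, ?_⟩
  · rw [← h.order]; exact orderOf_injective (MulAut.conj g).toMonoidHom (MulAut.conj g).injective u
  · change (g * u * g⁻¹) • g • a = g • a
    rw [mul_smul, mul_smul, inv_smul_smul, smul_a h]
  · intro b hb
    change (g * u * g⁻¹) • b = b at hb
    rw [mul_smul, mul_smul, ← eq_inv_smul_iff] at hb
    exact inv_smul_eq_iff.mp (h.unique (g⁻¹ • b) hb)
  · intro x hx
    have hx' : g⁻¹ * x * g ∈ stabilizer K a := by
      rw [mem_stabilizer_iff, mul_smul, mul_smul, inv_smul_eq_iff]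
      exact hx
    obtain ⟨k, hk⟩ := h.normal _ hx'
    refine ⟨k, ?_⟩
    change (g * u * g⁻¹) ^ k = _
    rw [conj_zpow, show u ^ k = g⁻¹ * x * g * u * (g⁻¹ * x * g)⁻¹ from hk]
    group

/-- An element fixing three points is trivial. -/
theorem eq_one_of_fix (h : Datum K a u) {x : K} {b c : α} (hba : b ≠ a) (hca : c ≠ a) (hbc : b ≠ c)
    (hxa : x • a = a) (hxb : x • b = b) (hxc : x • c = c) : x = 1 := by
  have hord : orderOf (x * u * x⁻¹) = 17 := by
    rw [← h.order]; exact orderOf_injective (MulAut.conj x).toMonoidHom (MulAut.conj x).injective u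
  obtain ⟨k, hk⟩ := orbit_u h hba hca
  have hcomm : x * u ^ k = u ^ k * x := by
    obtain ⟨j, hj⟩ := h.normal x hxa
    change u ^ j = x * u * x⁻¹ at hj
    have h1 : (x * u ^ k * x⁻¹) • b = (u ^ k) • b := by
      rw [mul_smul, mul_smul, inv_smul_eq_iff.mpr hxb.symm, hk, hxc]
    have h2 : x * u ^ k * x⁻¹ ∈ zpowers u := by
      rw [← conj_pow, ← hj]; exact pow_mem (zpow_mem (mem_zpowers u) j) k
    obtain ⟨i, hi⟩ := h2
    change u ^ i = x * u ^ k * x⁻¹ at hi
    have h3 : ((u ^ k)⁻¹ * u ^ i) • b = b := by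
      rw [mul_smul, hi, h1, inv_smul_smul]
    have h4 : (u ^ k)⁻¹ * u ^ i = 1 := eq_one_of_comm h
      (((Commute.self_pow u k).symm.inv_left.mul_left (Commute.self_zpow u i).symm)).eq hba h3
    rw [inv_mul_eq_one] at h4
    exact mul_inv_eq_iff_eq_mul.mp (hi.symm.trans h4.symm)
  have hk0 : ¬ 17 ∣ k := by
    rintro ⟨m, rfl⟩
    rw [pow_mul, show u ^ 17 = 1 by rw [← h.order]; exact pow_orderOf_eq_one u, one_pow,
      one_smul] at hk
    exact hbc hk
  have hgen : u ∈ zpowers (u ^ k) := by
    rw [mem_zpowers_pow_iff, h.order]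
    exact ((Nat.Prime.coprime_iff_not_dvd (by norm_num)).mpr hk0).symm
  obtain ⟨i, hi⟩ := hgen
  refine eq_one_of_comm h ?_ hba hxb
  rw [← show (u ^ k) ^ i = u from hi]
  exact (Commute.zpow_right (show Commute x (u ^ k) from hcomm) i).eq

end Cfsg.Agent.OddChar.Degree18
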