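import Cfsg.Agent.OddChar.Degree18
import Mathlib.GroupTheory.GroupAction.Quotient

/-!
The Sylow numbers of the groups of degree `18` of `Degree18`.
-/

set_option autoImplicit false

open MulAction Subgroup

namespace Cfsg.Agent.OddChar.Degree18

variable {α : Type*} [Fintype α] [DecidableEq α] {K : Subgroup (Equiv.Perm α)} {a : α} {u : K}

theorem exists_datum (h : Datum K a u) (c : α) : ∃ v : K, Datum K c v := by
  haveI := h.trans
  obtain ⟨g, rfl⟩ := exists_smul_eq K a c
  exact ⟨_, conj h g⟩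

theorem exists_move (h : Datum K a u) {c d b : α} (hc : c ≠ b) (hd : d ≠ b) :
    ∃ x : K, x • b = b ∧ x • c = d := by
  obtain ⟨v, hv⟩ := exists_datum h b
  obtain ⟨k, hk⟩ := orbit_u hv hc hd
  exact ⟨v ^ k, mem_stabilizer_iff.mp (pow_mem (show v ∈ stabilizer K b from smul_a hv) k), hk⟩

/-- The stabiliser of the pair `{a, b}`. -/
def pairStab (K : Subgroup (Equiv.Perm α)) (a b : α) : Subgroup K where
  carrier := {x | (x • a = a ∧ x • b = b) ∨ (x • a = b ∧ x • b = a)}
  one_mem' := Or.inl ⟨one_smul _ _, one_smul _ _⟩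
  mul_mem' {x y} hx hy := by
    simp only [Set.mem_setOf_eq, mul_smul] at *
    rcases hy with ⟨h1, h2⟩ | ⟨h1, h2⟩ <;> rcases hx with ⟨h3, h4⟩ | ⟨h3, h4⟩ <;>
      simp [h1, h2, h3, h4]
  inv_mem' {x} hx := by
    simp only [Set.mem_setOf_eq, inv_smul_eq_iff] at *
    rcases hx with ⟨h1, h2⟩ | ⟨h1, h2⟩
    · exact Or.inl ⟨h1.symm, h2.symm⟩
    · exact Or.inr ⟨h2.symm, h1.symm⟩

theorem card_sylow_two (h : Datum K a u) (P : Sylow 2 K) : Nat.card (Sylow 2 K) = 153 := by
  classical
  obtain ⟨b, hb⟩ := Fintype.exists_ne_of_one_lt_card (by rw [h.card_eq]; norm_num) a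
  haveI := h.trans
  haveI : Fact (Nat.Prime 2) := ⟨Nat.prime_two⟩
  set d := Nat.card ↥(stabilizer K a ⊓ stabilizer K b) with hd
  set S := pairStab K a b with hS
  have hsub : stabilizer K a ⊓ stabilizer K b ≤ S := fun x hx => Or.inl ⟨hx.1, hx.2⟩
  obtain ⟨g, hga, hgb⟩ : ∃ g : K, g • a = b ∧ g • b = a := by
    obtain ⟨g, hg⟩ := exists_smul_eq K a b
    have hne : g • b ≠ b := fun hh => hb ((MulAction.injective g) (hh.trans hg.symm))
    obtain ⟨x, hx1, hx2⟩ := exists_move h hne hb.symm
    exact ⟨x * g, by rw [mul_smul, hg, hx1], by rw [mul_smul, hx2]⟩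
  have hcard : Nat.card S = 2 * d := by
    have hidx : (stabilizer K a ⊓ stabilizer K b).relIndex S = 2 := by
      rw [relIndex, Subgroup.index_eq_two_iff]
      refine ⟨⟨g, Or.inr ⟨hga, hgb⟩⟩, fun x => ?_⟩
      simp only [Subgroup.mem_subgroupOf, Subgroup.coe_mul, Subgroup.mem_inf, mem_stabilizer_iff,
        mul_smul, hga, hgb]
      rcases x.2 with ⟨h1, h2⟩ | ⟨h1, h2⟩
      · refine Or.inr ⟨⟨h1, h2⟩, fun hh => hb ?_⟩
        exact h2.symm.trans hh.1
      · refine Or.inl ⟨⟨h2, h1⟩, fun hh => hb ?_⟩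
        exact h1.symm.trans hh.1
    have := Subgroup.relIndex_mul_relIndex ⊥ (stabilizer K a ⊓ stabilizer K b) S bot_le hsub
    rw [relIndex_bot_left, relIndex_bot_left, hidx, ← hd] at this
    omega
  have hd8 := two_point_card h hb
  rw [← hd] at hd8
  have hp : IsPGroup 2 S := by
    rcases hd8 with e | e
    · exact IsPGroup.of_card (n := 4) (by rw [hcard, e]; norm_num)
    · exact IsPGroup.of_card (n := 5) (by rw [hcard, e]; norm_num)
  have hindex : S.index = 153 := by
    have h1 := S.index_mul_card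
    rw [hcard, card_eq_mul h hb, ← hd] at h1
    rcases hd8 with e | e <;> rw [e] at h1 <;> omega
  set Q : Sylow 2 K := hp.toSylow (by rw [hindex]; norm_num) with hQ
  have hnorm : normalizer (S : Set K) = S := by
    refine le_antisymm (fun x hx => ?_) Subgroup.le_normalizer
    have hmem : ∀ c : α, (c = a ∨ c = b) → x • c = a ∨ x • c = b := by
      intro c hc
      by_contra hne
      rw [not_or] at hne
      have horb : ∀ t : ↥(stabilizer K a ⊓ stabilizer K b),
          (t : K) • x • c = x • a ∨ (t : K) • x • c = x • b := by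
        intro t
        have ht : x⁻¹ * (t : K) * x ∈ S := (Subgroup.mem_normalizer_iff''.mp hx t).mp (hsub t.2)
        rcases ht with ⟨h1, h2⟩ | ⟨h1, h2⟩ <;> rcases hc with rfl | rfl <;>
          simp only [mul_smul, inv_smul_eq_iff] at h1 h2 <;> simp [h1, h2]
      let f : ↥(stabilizer K a ⊓ stabilizer K b) → ({x • a, x • b} : Finset α) := fun t =>
        ⟨(t : K) • x • c, by simpa using horb t⟩
      have hf : Function.Injective f := by
        intro s t hst
        have h1 : (s : K) • x • c = (t : K) • x • c := congrArg Subtype.val hst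
        refine Subtype.ext (inv_mul_eq_one.mp (eq_one_of_fix h hb hne.1 (Ne.symm hne.2) ?_ ?_ ?_)).symm
        · rw [mul_smul, inv_smul_eq_iff, show (s : K) • a = a from s.2.1,
            show (t : K) • a = a from t.2.1]
        · rw [mul_smul, inv_smul_eq_iff, show (s : K) • b = b from s.2.2,
            show (t : K) • b = b from t.2.2]
        · rw [mul_smul, inv_smul_eq_iff, h1]
      have h2 : Nat.card ({x • a, x • b} : Finset α) ≤ 2 := by
        rw [Nat.card_eq_fintype_card, Fintype.card_coe]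
        exact Finset.card_le_two
      have := (Nat.card_le_card_of_injective f hf).trans h2
      rw [← hd] at this
      omega
    have hne : x • a ≠ x • b := fun hh => hb (MulAction.injective x hh).symm
    rcases hmem a (Or.inl rfl) with h1 | h1 <;> rcases hmem b (Or.inr rfl) with h2 | h2
    · exact absurd (h1.trans h2.symm) hne
    · exact Or.inl ⟨h1, h2⟩
    · exact Or.inr ⟨h1, h2⟩
    · exact absurd (h1.trans h2.symm) hne
  rw [Sylow.card_eq_index_normalizer Q]
  exact (congrArg Subgroup.index hnorm).trans hindex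

/-- An element of order nine of the two projective groups. -/
theorem exists_order_nine_psl :
    ∃ g : Matrix.ProjectiveSpecialLinearGroup (Fin 2) (ZMod 17), orderOf g = 9 := by
  let A : Matrix.SpecialLinearGroup (Fin 2) (ZMod 17) := ⟨!![0, -1; 1, 3], by decide +kernel⟩
  refine ⟨QuotientGroup.mk A, ?_⟩
  haveI : Fact (Nat.Prime 3) := ⟨Nat.prime_three⟩
  refine orderOf_eq_prime_pow (p := 3) (n := 1) ?_ ?_
  · rw [← QuotientGroup.mk_pow, QuotientGroup.eq_one_iff, Subgroup.mem_center_iff]
    intro hh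
    have := hh ⟨!![1, 1; 0, 1], by decide +kernel⟩
    revert this
    decide +kernel
  · rw [← QuotientGroup.mk_pow, QuotientGroup.eq_one_iff, Subgroup.mem_center_iff]
    intro g
    have hA : ((A ^ 3 ^ (1 + 1) : Matrix.SpecialLinearGroup (Fin 2) (ZMod 17)) :
        Matrix (Fin 2) (Fin 2) (ZMod 17)) = Matrix.scalar (Fin 2) (16 : ZMod 17) := by decide +kernel
    apply Subtype.ext
    rw [Matrix.SpecialLinearGroup.coe_mul, Matrix.SpecialLinearGroup.coe_mul, hA]
    exact ((Matrix.scalar_commute _ (fun r => Commute.all _ r) _).symm).eq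

theorem exists_order_nine_pgl :
    ∃ g : Matrix.ProjGenLinGroup (Fin 2) (ZMod 17), orderOf g = 9 := by
  let A : GL (Fin 2) (ZMod 17) :=
    ⟨!![0, -1; 1, 3], !![3, 1; -1, 0], by decide +kernel, by decide +kernel⟩
  refine ⟨Matrix.ProjGenLinGroup.mk A, ?_⟩
  haveI : Fact (Nat.Prime 3) := ⟨Nat.prime_three⟩
  refine orderOf_eq_prime_pow (p := 3) (n := 1) ?_ ?_
  · rw [← map_pow]
    intro hh
    have hc : A ^ 3 ^ 1 ∈ Subgroup.center (GL (Fin 2) (ZMod 17)) := (QuotientGroup.eq_one_iff _).mp hh
    have := Subgroup.mem_center_iff.mp hc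
      ⟨!![1, 1; 0, 1], !![1, -1; 0, 1], by decide +kernel, by decide +kernel⟩
    revert this
    decide +kernel
  · rw [← map_pow]
    refine (QuotientGroup.eq_one_iff _).mpr (Subgroup.mem_center_iff.mpr fun g => ?_)
    have hA : ((A ^ 3 ^ (1 + 1) : GL (Fin 2) (ZMod 17)) : Matrix (Fin 2) (Fin 2) (ZMod 17)) =
        Matrix.scalar (Fin 2) (16 : ZMod 17) := by decide +kernel
    apply Units.ext
    rw [Units.val_mul, Units.val_mul, hA]
    exact ((Matrix.scalar_commute _ (fun r => Commute.all _ r) _).symm).eq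

theorem card_sylow_three (h : Datum K a u) (P : Sylow 3 K) (hn : Nat.card (Sylow 3 K) ∣ 136) :
    Nat.card (Sylow 3 K) = 136 := by
  classical
  haveI := h.trans
  haveI : Fact (Nat.Prime 3) := ⟨Nat.prime_three⟩
  obtain ⟨b, hb⟩ := Fintype.exists_ne_of_one_lt_card (by rw [h.card_eq]; norm_num) a
  set d := Nat.card ↥(stabilizer K a ⊓ stabilizer K b) with hd
  have hd8 := two_point_card h hb
  rw [← hd] at hd8
  have hK := card_eq_mul h hb
  rw [← hd] at hK
  have hR : Nat.card (P : Subgroup K) = 9 := by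
    rw [P.card_eq_multiplicity, hK]
    have hd3 : d.factorization 3 = 0 := by
      refine Nat.factorization_eq_zero_of_not_dvd ?_
      rcases hd8 with e | e <;> rw [e] <;> norm_num
    rw [show 18 * 17 * d = 3 ^ 2 * (34 * d) by ring,
      Nat.factorization_mul (by norm_num) (by rcases hd8 with e | e <;> omega),
      Nat.factorization_mul (by norm_num) (by rcases hd8 with e | e <;> omega),
      Nat.factorization_pow]
    simp [hd3, Nat.Prime.factorization_self Nat.prime_three,
      Nat.factorization_eq_zero_of_not_dvd (show ¬ 3 ∣ 34 by norm_num)]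
  have hcyc : IsCyclic (P : Subgroup K) := by
    obtain ⟨x, hx⟩ : ∃ x : K, orderOf x = 9 := by
      rcases cases h with ⟨-, ⟨f⟩⟩ | ⟨-, ⟨f⟩⟩
      · obtain ⟨g, hg⟩ := exists_order_nine_pgl
        exact ⟨f.symm g, by rw [MulEquiv.orderOf_eq, hg]⟩
      · obtain ⟨g, hg⟩ := exists_order_nine_psl
        exact ⟨f.symm g, by rw [MulEquiv.orderOf_eq, hg]⟩
    obtain ⟨Q, hQ⟩ := (IsPGroup.of_card (p := 3) (n := 2)
      (show Nat.card (zpowers x) = 3 ^ 2 by rw [Nat.card_zpowers, hx]; norm_num)).exists_le_sylow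
    have hQ9 : Nat.card (Q : Subgroup K) = 9 := by rw [Sylow.card_eq_multiplicity, ← P.card_eq_multiplicity, hR]
    haveI : IsCyclic (Q : Subgroup K) :=
      isCyclic_of_orderOf_eq_card ⟨x, hQ (mem_zpowers x)⟩ (by rw [Subgroup.orderOf_mk, hx, hQ9])
    exact (Sylow.equiv Q P).isCyclic.mp inferInstance
  -- semiregularity
  have hsemi : ∀ r ∈ (P : Subgroup K), ∀ c : α, r • c = c → r = 1 := by
    intro r hr c hc
    obtain ⟨v, hv⟩ := exists_datum h c
    obtain ⟨e, he⟩ := Fintype.exists_ne_of_one_lt_card (by rw [h.card_eq]; norm_num) c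
    have h1 : orderOf r ∣ 9 := hR ▸ Subgroup.orderOf_dvd_natCard _ hr
    have h2 : orderOf r ∣ Nat.card (stabilizer K c) := Subgroup.orderOf_dvd_natCard _ hc
    have h3 : Nat.card (stabilizer K c) = 17 * d := by
      have := (stabilizer K c).index_mul_card
      rw [index_stabilizer_of_transitive, Nat.card_eq_fintype_card (α := α), h.card_eq, hK] at this
      omega
    rw [h3] at h2
    have : orderOf r ∣ Nat.gcd 9 (17 * d) := Nat.dvd_gcd h1 h2
    rw [show Nat.gcd 9 (17 * d) = 1 by rcases hd8 with e | e <;> rw [e] <;> norm_num] at this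
    exact orderOf_eq_one_iff.mp (Nat.dvd_one.mp this)
  obtain ⟨r0, hr0, hr01⟩ : ∃ r ∈ (P : Subgroup K), r ≠ 1 := by
    by_contra hcon
    push Not at hcon
    rw [(Subgroup.eq_bot_iff_forall _).mpr hcon, Subgroup.card_bot] at hR
    omega
  -- an element commuting with `P` fixes no point
  have hfree : ∀ y : K, (∀ r ∈ (P : Subgroup K), y * r = r * y) → y ≠ 1 → ∀ c : α, y • c ≠ c := by
    intro y hy hy1 c hc
    obtain ⟨v, hv⟩ := exists_datum h c
    obtain ⟨w, hw⟩ := hcyc.exists_generator
    have hw1 : ∀ c' : α, (w : K) • c' ≠ c' := by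
      intro c' hc'
      apply hr01
      have := hsemi w w.2 c' hc'
      obtain ⟨k, hk⟩ := hw ⟨r0, hr0⟩
      have hk' : (w : K) ^ k = r0 := by simpa using congrArg Subtype.val hk
      rw [← hk', this, one_zpow]
    have hfixw : y • (w : K) • c = (w : K) • c := by rw [← mul_smul, hy w w.2, mul_smul, hc]
    have hfixw2 : y • (w : K) • (w : K) • c = (w : K) • (w : K) • c := by
      rw [← mul_smul, hy w w.2, mul_smul, hfixw]
    rcases eq_or_ne ((w : K) • (w : K) • c) c with h2 | h2
    · have hw2 : (w : K) * (w : K) = 1 := hsemi _ (mul_mem w.2 w.2) c (by rw [mul_smul, h2])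
      have h1 : orderOf (w : K) ∣ 2 := orderOf_dvd_of_pow_eq_one (by rw [sq, hw2])
      have h9 : orderOf (w : K) = 9 := by
        rw [Subgroup.orderOf_coe, orderOf_eq_card_of_forall_mem_zpowers hw, hR]
      rw [h9] at h1
      norm_num at h1
    · exact hy1 (eq_one_of_fix hv (hw1 c) h2 (fun hh => hw1 _ hh.symm) hc hfixw hfixw2)
  set N := normalizer ((P : Subgroup K) : Set K) with hN
  have hidx : Nat.card (Sylow 3 K) = N.index := Sylow.card_eq_index_normalizer P
  have haut : Nat.card (MulAut (P : Subgroup K)) = 6 := by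
    rw [IsCyclic.card_mulAut, hR]; decide +kernel
  set f := Subgroup.normalizerMonoidHom (P : Subgroup K) with hf
  have hker : ∀ y : N, f y = 1 → ∀ r ∈ (P : Subgroup K), (y : K) * r = r * (y : K) := by
    intro y hy r hr
    have := congrArg (fun z : MulAut (P : Subgroup K) => (z ⟨r, hr⟩ : K)) hy
    simp only [MulAut.one_apply] at this
    exact mul_inv_eq_iff_eq_mul.mp this
  -- `17` does not divide the order of the normaliser
  have h17 : ¬ 17 ∣ Nat.card N := by
    intro hdvd
    haveI : Fact (Nat.Prime 17) := ⟨by norm_num⟩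
    obtain ⟨v, hv⟩ := exists_prime_orderOf_dvd_card' 17 hdvd
    have hfv : f v = 1 := by
      refine orderOf_eq_one_iff.mp (Nat.dvd_one.mp ?_)
      have h1 : orderOf (f v) ∣ 17 := hv ▸ orderOf_map_dvd f v
      have h2 : orderOf (f v) ∣ 6 := haut ▸ orderOf_dvd_natCard _
      exact (show Nat.gcd 17 6 = 1 by norm_num) ▸ Nat.dvd_gcd h1 h2
    have hv' : orderOf (v : K) = 17 := by rw [Subgroup.orderOf_coe, hv]
    haveI : Finite (zpowers (v : K)) := Subtype.finite
    obtain ⟨c, hc⟩ := (IsPGroup.of_card (p := 17) (n := 1)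
      (show Nat.card (zpowers (v : K)) = 17 ^ 1 by rw [Nat.card_zpowers, hv', pow_one])
      ).nonempty_fixed_point_of_prime_not_dvd_card α (by
        rw [Nat.card_eq_fintype_card, h.card_eq]; norm_num)
    exact hfree v (hker v hfv) (fun hh => by rw [hh, orderOf_one] at hv'; omega) c
      (hc ⟨_, mem_zpowers _⟩)
  have hNK := N.index_mul_card
  rw [← hidx, hK] at hNK
  have h17' : 17 ∣ Nat.card (Sylow 3 K) := by
    have : 17 ∣ Nat.card (Sylow 3 K) * Nat.card N := ⟨18 * d, by rw [hNK]; ring⟩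
    exact ((Nat.Prime.dvd_mul (by norm_num)).mp this).resolve_right h17
  have hmod : Nat.card (Sylow 3 K) % 3 = 1 := by
    have := card_sylow_modEq_one 3 K
    simpa [Nat.ModEq] using this
  have hcand : Nat.card (Sylow 3 K) = 34 ∨ Nat.card (Sylow 3 K) = 136 := by
    obtain ⟨k, hk⟩ := h17'
    have h8 : k ∣ 8 := Nat.dvd_of_mul_dvd_mul_left (by norm_num : 0 < 17) (hk ▸ hn)
    have hk8 : k ≤ 8 := Nat.le_of_dvd (by norm_num) h8
    interval_cases k <;> omega
  refine hcand.resolve_left fun h34 => ?_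
  rw [h34] at hNK
  have hkr := f.ker.index_mul_card
  rw [Subgroup.index_ker] at hkr
  have hr6 : Nat.card f.range ∣ 6 := haut ▸ Subgroup.card_subgroup_dvd_card f.range
  have h4 : 2 ^ 2 ∣ Nat.card f.ker := by
    have hcN : Nat.card N = 9 * d := by omega
    rw [hcN] at hkr
    have hr : Nat.card f.range ≤ 6 := Nat.le_of_dvd (by norm_num) hr6
    have hcop : Nat.card f.range = 1 ∨ Nat.card f.range = 2 ∨ Nat.card f.range = 3 ∨
        Nat.card f.range = 6 := by
      obtain ⟨k, hk⟩ := hr6
      interval_cases (Nat.card f.range) <;> omega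
    rcases hd8 with e | e <;> rw [e] at hkr <;> rcases hcop with e' | e' | e' | e' <;>
      rw [e'] at hkr <;> omega
  haveI : Fact (Nat.Prime 2) := ⟨Nat.prime_two⟩
  obtain ⟨Y, hY⟩ := Sylow.exists_subgroup_card_pow_prime (G := f.ker) 2 (n := 2) h4
  let Y' : Subgroup K := (Y.map f.ker.subtype).map N.subtype
  have hY' : Nat.card Y' = 4 := by
    rw [Subgroup.card_map_of_injective N.subtype_injective,
      Subgroup.card_map_of_injective f.ker.subtype_injective, hY]
    norm_num
  have hYfree : ∀ y : Y', y ≠ 1 → ∀ c : α, y • c ≠ c := by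
    intro y hy1 c
    obtain ⟨y1, hy1m, hy⟩ := y.2
    obtain ⟨y0, -, rfl⟩ := hy1m
    rw [Subgroup.smul_def, ← hy]
    exact hfree _ (hker _ y0.2) (fun hh => hy1 (Subtype.ext (hy.symm.trans hh))) c
  haveI : Fintype Y' := Fintype.ofFinite _
  haveI : Fintype (Quotient (orbitRel Y' α)) := Fintype.ofFinite _
  have hburn := sum_card_fixedBy_eq_card_orbits_mul_card_group Y' α
  rw [Finset.sum_eq_single_of_mem (1 : Y') (Finset.mem_univ _) (fun y _ hy => by
      rw [Fintype.card_eq_zero_iff]
      exact ⟨fun c => hYfree y hy c.1 c.2⟩)] at hburn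
  have h18 : Fintype.card (fixedBy α (1 : Y')) = 18 := by
    rw [← h.card_eq]
    exact Fintype.card_congr ⟨fun c => c.1, fun c => ⟨c, one_smul _ c⟩, fun _ => rfl, fun _ => rfl⟩
  rw [h18, ← Nat.card_eq_fintype_card (α := Y'), hY'] at hburn
  omega

end Cfsg.Agent.OddChar.Degree18
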