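import Cfsg.Agent.OddChar.S3SquaredWhole

/-!
The parity contradiction when two classes of involutions fuse.
-/

set_option autoImplicit false

open Cfsg
open scoped Classical

namespace Cfsg.Agent.OddChar.S3Squared

open S3Cubed (S3 cyc tr setA)

variable {G : Type*} [Group G] [Fintype G] {H : Subgroup G} [Fintype H]

/-- Sums over the subgroup. -/
theorem card_filter_H (e : H ≃* K) (p : K → Prop) :
    (Finset.univ.filter fun h : H => p (e h)).card = (Finset.univ.filter fun f : K => p f).card := by
  refine Finset.card_bij' (fun h _ => e h) (fun f _ => e.symm f) ?_ ?_ (by simp) (by simp)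
  · intro h hh; exact Finset.mem_filter.mpr ⟨Finset.mem_univ _, (Finset.mem_filter.mp hh).2⟩
  · intro f hf
    exact Finset.mem_filter.mpr ⟨Finset.mem_univ _, by simpa using (Finset.mem_filter.mp hf).2⟩

theorem factor_sq {a : ℕ} (ha : a ≠ 0) : (a ^ 2).factorization 2 = 2 * a.factorization 2 := by
  rw [Nat.factorization_pow, Finsupp.smul_apply, smul_eq_mul]

theorem factor_two_mul {a : ℕ} (ha : a ≠ 0) : (2 * a).factorization 2 = 1 + a.factorization 2 := by
  rw [Nat.factorization_mul two_ne_zero ha, Finsupp.add_apply, Nat.prime_two.factorization_self]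

theorem factor_odd_mul {o a : ℕ} (ho : Odd o) (ha : a ≠ 0) :
    (o * a).factorization 2 = a.factorization 2 := by
  rw [Nat.factorization_mul (fun h => by simp [h] at ho) ha, Finsupp.add_apply,
    Nat.factorization_eq_zero_of_not_dvd (fun h => (Nat.not_even_iff_odd.mpr ho)
      (even_iff_two_dvd.mpr h)), zero_add]

/-- The arithmetic. -/
theorem parity_false {g C C₁ Z i β : ℕ} (hg : g = 4 * C₁ ^ 2) (hg6 : g = Z * (6 * C)) (hZ : Odd Z)
    (hi : i ^ 2 = 2 * C) (hC : C ≠ 0) (hC₁ : C₁ ≠ 0) (hβ : β + 1 ≤ C₁.factorization 2)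
    (hdvd : 2 ^ (C.factorization 2 - β) ∣ i) : False := by
  have hi0 : i ≠ 0 := fun h => by rw [h] at hi; omega
  have h1 : g.factorization 2 = 2 + 2 * C₁.factorization 2 := by
    rw [hg, show 4 * C₁ ^ 2 = 2 * (2 * C₁ ^ 2) by ring, factor_two_mul (by positivity),
      factor_two_mul (by positivity), factor_sq hC₁]
    ring
  have h2 : g.factorization 2 = 1 + C.factorization 2 := by
    rw [hg6, factor_odd_mul hZ (by omega), show 6 * C = 2 * (3 * C) by ring,
      factor_two_mul (by omega), factor_odd_mul (by decide) hC]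
  have h3 : 2 * i.factorization 2 = 1 + C.factorization 2 := by
    rw [← factor_sq hi0, hi, factor_two_mul hC]
  have h4 := (Nat.prime_two.pow_dvd_iff_le_factorization hi0).mp hdvd
  omega

section

variable (e : H ≃* K) {M : Sylow 3 G}

/-- The number of elements over a three-cycle, and their counts. -/
theorem pairs_whole (A : Wreath72.Ambient M H) (k : Fin 2) (π : G →* S3)
    (hπ : ∀ f : K, π (el e f) = f k) :
    ∑ g ∈ Finset.univ.filter (fun g : G => g ∈ (⊤ : Subgroup G) ∧ IsCyc (π g)),
        (Finset.univ.filter fun u : G =>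
          u ∈ (⊤ : Subgroup G) ∧ u * u = 1 ∧ π u ≠ 1 ∧ u * g * u⁻¹ = g⁻¹).card =
      H.index * 96 ∧
      ∀ g : G, IsCyc (π g) → ∃ c : G, ∃ h : K, IsCyc (h k) ∧ c * el e h * c⁻¹ = g := by
  set Ak := Finset.univ.filter fun f : K => IsCyc (f k)
  set S := Finset.univ.filter fun g : G => g ∈ (⊤ : Subgroup G) ∧ IsCyc (π g)
  let F : (G ⧸ H) × K → G := fun x => x.1.out * el e x.2 * x.1.out⁻¹
  have hFmem : ∀ x ∈ (Finset.univ : Finset (G ⧸ H)) ×ˢ Ak, F x ∈ S := by
    intro x hx
    have hc : IsCyc (x.2 k) := (Finset.mem_filter.mp (Finset.mem_product.mp hx).2).2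
    refine Finset.mem_filter.mpr ⟨Finset.mem_univ _, Subgroup.mem_top _, ?_⟩
    simp only [F, map_mul, map_inv, hπ]
    have hconj : ∀ p q : S3, IsCyc p → IsCyc (q * p * q⁻¹) := by decide +kernel
    exact hconj _ _ hc
  have hinj : ∀ x ∈ (Finset.univ : Finset (G ⧸ H)) ×ˢ Ak,
      ∀ y ∈ (Finset.univ : Finset (G ⧸ H)) ×ˢ Ak, F x = F y → x = y := by
    rintro ⟨q, f⟩ hx ⟨q', f'⟩ hy hxy
    have hc : IsCyc (f k) := (Finset.mem_filter.mp (Finset.mem_product.mp hx).2).2
    have hc' : IsCyc (f' k) := (Finset.mem_filter.mp (Finset.mem_product.mp hy).2).2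
    have h1 : (el e f) ∈ setA H := cyc_setA e (h := e.symm f) (k := k) (by simpa using hc)
    have h2 : (el e f') ∈ setA H := cyc_setA e (h := e.symm f') (k := k) (by simpa using hc')
    simp only [F] at hxy
    have h3 : q'.out⁻¹ * q.out * el e f * (q'.out⁻¹ * q.out)⁻¹ = el e f' := by
      calc q'.out⁻¹ * q.out * el e f * (q'.out⁻¹ * q.out)⁻¹
          = q'.out⁻¹ * (q.out * el e f * q.out⁻¹) * q'.out := by group
        _ = el e f' := by rw [hxy]; group
    have hmem := (isTI e A).fuse _ _ h1 (h3.symm ▸ h2)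
    have hq : q = q' := by
      rw [← QuotientGroup.out_eq' q, ← QuotientGroup.out_eq' q']
      refine (QuotientGroup.eq.mpr ?_)
      have := H.inv_mem hmem
      simpa using this
    subst hq
    rw [el_inj e (mul_left_cancel (mul_right_cancel hxy))]
  have hidx : Fintype.card (G ⧸ H) = H.index := by
    rw [Subgroup.index_eq_card, Nat.card_eq_fintype_card]
  have hscard : S.card = H.index * 12 := by
    have hsurj : ∀ p : S3, ∃ d ∈ (⊤ : Subgroup G), π d = p := fun p =>
      ⟨el e (fun _ => p), Subgroup.mem_top _, hπ _⟩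
    have hfib := card_range_fibre π ⊤ hsurj
    have hall : ∀ p, (Finset.univ.filter fun g : G => g ∈ (⊤ : Subgroup G) ∧ π g = p).card * 6 =
        Fintype.card G := by
      intro p
      rw [← Finset.card_univ (α := G),
        Finset.card_eq_sum_card_fiberwise (f := π) (t := (Finset.univ : Finset S3))
          (s := (Finset.univ : Finset G)) (fun g _ => Finset.mem_univ _),
        Finset.sum_congr rfl (g := fun _ => (Finset.univ.filter fun g : G => g ∈ (⊤ : Subgroup G) ∧ π g = p).card)
          fun q _ => (congrArg Finset.card (by ext g; simp)).trans ((hfib q).trans (hfib p).symm),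
        Finset.sum_const, Finset.card_univ, smul_eq_mul,
        show Fintype.card S3 = 6 by simp [Fintype.card_perm, Nat.factorial], mul_comm]
    have hS : S.card = 2 * (Finset.univ.filter fun g : G => g ∈ (⊤ : Subgroup G) ∧ π g = 1).card := by
      rw [Finset.card_eq_sum_card_fiberwise (f := π)
          (t := Finset.univ.filter fun p : S3 => IsCyc p)
          (fun g hg => Finset.mem_filter.mpr ⟨Finset.mem_univ _, (Finset.mem_filter.mp hg).2.2⟩),
        Finset.sum_congr rfl (g := fun _ => (Finset.univ.filter fun g : G => g ∈ (⊤ : Subgroup G) ∧ π g = 1).card)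
          fun p hp => ?_, Finset.sum_const, card_cyc, smul_eq_mul]
      rw [← hfib p]
      congr 1
      ext g
      simp only [S, Finset.mem_filter, Finset.mem_univ, true_and, Subgroup.mem_top]
      exact ⟨fun h => h.2, fun h => ⟨h ▸ (Finset.mem_filter.mp hp).2, h⟩⟩
    have hH : Nat.card H = 36 := card_H e
    have hG := H.card_mul_index
    rw [hH, Nat.card_eq_fintype_card] at hG
    have h1 := hall 1
    omega
  have himg : ((Finset.univ : Finset (G ⧸ H)) ×ˢ Ak).image F = S := by
    refine Finset.eq_of_subset_of_card_le ?_ ?_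
    · intro g hg
      obtain ⟨x, hx, rfl⟩ := Finset.mem_image.mp hg
      exact hFmem x hx
    · rw [Finset.card_image_of_injOn hinj, Finset.card_product, Finset.card_univ, card_theta, hidx,
        hscard]
  refine ⟨?_, fun g hg => ?_⟩
  · rw [← himg, Finset.sum_image hinj, Finset.sum_product,
      Finset.sum_congr rfl (g := fun _ => 96) fun q _ => ?_, Finset.sum_const, Finset.card_univ, hidx,
      smul_eq_mul]
    rw [← sum_cnt k]
    refine Finset.sum_congr rfl fun f hf => ?_
    have hfA : el e f ∈ setA H :=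
      cyc_setA e (h := e.symm f) (k := k) (by simpa using (Finset.mem_filter.mp hf).2)
    rw [cnt]
    refine Finset.card_bij (fun u hu => e ⟨q.out⁻¹ * u * q.out, ?_⟩) ?_ ?_ ?_
    · obtain ⟨-, -, -, -, hinv⟩ := Finset.mem_filter.mp hu
      refine (isTI e A).invert _ _ hfA ?_
      simp only [F] at hinv
      calc q.out⁻¹ * u * q.out * el e f * (q.out⁻¹ * u * q.out)⁻¹
          = q.out⁻¹ * (u * (q.out * el e f * q.out⁻¹) * u⁻¹) * q.out := by group
        _ = (el e f)⁻¹ := by rw [hinv]; group
    · intro u hu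
      obtain ⟨-, -, hu2, hu1, hinv⟩ := Finset.mem_filter.mp hu
      refine Finset.mem_filter.mpr ⟨Finset.mem_univ _, ?_, ?_, ?_⟩
      · apply el_inj e
        rw [el_mul, el_one, el_apply]
        calc q.out⁻¹ * u * q.out * (q.out⁻¹ * u * q.out) = q.out⁻¹ * (u * u) * q.out := by group
          _ = 1 := by rw [hu2]; group
      · intro h
        replace h := (hπ _).trans h
        rw [el_apply, map_mul, map_mul, map_inv] at h
        refine hu1 ?_
        calc π u = π q.out * ((π q.out)⁻¹ * π u * π q.out) * (π q.out)⁻¹ := by group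
          _ = 1 := by rw [h, mul_one, mul_inv_cancel]
      · apply el_inj e
        rw [el_mul, el_mul, el_inv, el_inv, el_apply]
        simp only [F] at hinv
        calc q.out⁻¹ * u * q.out * el e f * (q.out⁻¹ * u * q.out)⁻¹
            = q.out⁻¹ * (u * (q.out * el e f * q.out⁻¹) * u⁻¹) * q.out := by group
          _ = (el e f)⁻¹ := by rw [hinv]; group
    · intro u _ v _ huv
      exact mul_left_cancel (mul_right_cancel (congrArg Subtype.val (e.injective huv)))
    · intro w hw
      obtain ⟨-, hw2, hw1, hwinv⟩ := Finset.mem_filter.mp hw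
      refine ⟨q.out * el e w * q.out⁻¹, Finset.mem_filter.mpr ⟨Finset.mem_univ _, Subgroup.mem_top _,
        ?_, ?_, ?_⟩, ?_⟩
      · calc q.out * el e w * q.out⁻¹ * (q.out * el e w * q.out⁻¹)
            = q.out * (el e w * el e w) * q.out⁻¹ := by group
          _ = 1 := by rw [← el_mul, hw2, el_one, mul_one, mul_inv_cancel]
      · intro h
        rw [map_mul, map_mul, map_inv, hπ, conj_eq_one_iff] at h
        exact hw1 h
      · simp only [F]
        calc q.out * el e w * q.out⁻¹ * (q.out * el e f * q.out⁻¹) * (q.out * el e w * q.out⁻¹)⁻¹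
            = q.out * (el e w * el e f * (el e w)⁻¹) * q.out⁻¹ := by group
          _ = (q.out * el e f * q.out⁻¹)⁻¹ := by
            rw [← el_inv, ← el_mul, ← el_mul, hwinv, el_inv]; group
      · apply el_inj e
        rw [el_apply]
        group
  · have : g ∈ S := Finset.mem_filter.mpr ⟨Finset.mem_univ _, Subgroup.mem_top _, hg⟩
    rw [← himg] at this
    obtain ⟨⟨q, f⟩, hx, hxg⟩ := Finset.mem_image.mp this
    exact ⟨q.out, f, (Finset.mem_filter.mp (Finset.mem_product.mp hx).2).2, hxg⟩

theorem clOf_eq {a b : G} (h : IsConj a b) : clOf a = clOf b := by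
  ext u
  simp only [mem_clOf]
  exact ⟨fun hu => h.symm.trans hu, fun hu => h.trans hu⟩

/-- Two fused classes are impossible. -/
theorem false_of_fused (A : Wreath72.Ambient M H) {l : Fin 2}
    (hl : IsConj (el e (inv' l)) (el e zb)) : False := by
  haveI : Fact (Nat.Prime 2) := ⟨Nat.prime_two⟩
  set k := oth l with hkdef
  have hkl : k ≠ l := by
    have : ∀ l : Fin 2, oth l ≠ l := by decide
    exact this l
  have hk : ¬ IsConj (el e (inv' k)) (el e zb) := fun h =>
    hkl (isConj_inv_ne e A (h.trans hl.symm))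
  obtain ⟨π, hπ⟩ := exists_proj e A k hk
  set z := el e (inv' k) with hz
  set s := el e (inv' l) with hs
  obtain ⟨hk2, -, -, hkk⟩ := inv_facts k
  obtain ⟨hl2, hl1, -, -⟩ := inv_facts l
  have hzz : z * z = 1 := by rw [hz, ← el_mul, hk2, el_one]
  have hss : s * s = 1 := by rw [hs, ← el_mul, hl2, el_one]
  have hπz : π z = 1 := by
    rw [hz, hπ]
    exact show (inv' k) k = 1 from if_pos rfl
  have hπs : π s = tr := by
    rw [hs, hπ]
    exact show (inv' l) k = tr from if_neg hkl
  have htr : tr * tr = 1 ∧ tr ≠ 1 := by decide +kernel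
  -- the outer involutions form one class
  have hclass : ∀ u : G, u * u = 1 → π u ≠ 1 → IsConj s u := by
    intro u hu hu1
    rcases exists_conj e A hu (fun h => hu1 (by rw [h, map_one])) with ⟨j, hj⟩ | hj
    · by_cases hjk : j = k
      · subst hjk
        obtain ⟨c, hc⟩ := isConj_iff.mp hj
        refine absurd ?_ hu1
        rw [← hc, map_mul, map_mul, map_inv, ← hz, hπz, mul_one, mul_inv_cancel]
      · obtain rfl : j = l := by omega
        exact hj
    · exact hl.trans hj
  have hinner : ∀ u : G, IsConj s u → u * u = 1 ∧ π u ≠ 1 := by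
    intro u hu
    obtain ⟨c, rfl⟩ := isConj_iff.mp hu
    refine ⟨?_, fun h => ?_⟩
    · calc c * s * c⁻¹ * (c * s * c⁻¹) = c * (s * s) * c⁻¹ := by group
        _ = 1 := by rw [hss, mul_one, mul_inv_cancel]
    · rw [map_mul, map_mul, map_inv, hπs, conj_eq_one_iff] at h
      exact htr.2 h
  -- the whole group
  have hsurj : ∀ p : S3, ∃ d ∈ (⊤ : Subgroup G), π d = p := fun p =>
    ⟨el e (fun _ => p), Subgroup.mem_top _, hπ _⟩
  obtain ⟨hsum, hcycconj⟩ := pairs_whole e A k π hπ
  have h0 := pairs_eq π ⊤ hsurj htr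
  rw [hsum] at h0
  set iG := (Finset.univ.filter fun u : G => u ∈ (⊤ : Subgroup G) ∧ u * u = 1 ∧ π u = tr).card with hiG
  have hclcard : (clOf s).card = 3 * iG := by
    have heq : clOf s = Finset.univ.filter fun u : G => u ∈ (⊤ : Subgroup G) ∧ u * u = 1 ∧ π u ≠ 1 := by
      ext u
      simp only [mem_clOf, Finset.mem_filter, Finset.mem_univ, true_and, Subgroup.mem_top]
      exact ⟨hinner u, fun h => hclass u h.1 h.2⟩
    rw [heq, Finset.card_eq_sum_card_fiberwise (f := π)
      (t := Finset.univ.filter fun p : S3 => p * p = 1 ∧ p ≠ 1) (fun u hu => by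
        obtain ⟨-, -, h1, h2⟩ := Finset.mem_filter.mp hu
        exact Finset.mem_filter.mpr ⟨Finset.mem_univ _, by rw [← map_mul, h1, map_one], h2⟩),
      Finset.sum_congr rfl (g := fun _ => iG) fun p hp => ?_, Finset.sum_const, card_trans, smul_eq_mul]
    obtain ⟨-, hp2, hp1⟩ := Finset.mem_filter.mp hp
    obtain ⟨c, -, hcp⟩ := trans_conj tr p htr.1 htr.2 hp2 hp1
    set d := el e (fun _ => c)
    have hd : π d = c := hπ _
    refine Finset.card_bij' (fun u _ => d⁻¹ * u * d) (fun u _ => d * u * d⁻¹) ?_ ?_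
      (fun u _ => by group) (fun u _ => by group)
    · intro u hu
      simp only [Finset.mem_filter, Finset.mem_univ, true_and, Subgroup.mem_top] at hu ⊢
      refine ⟨?_, ?_⟩
      · calc d⁻¹ * u * d * (d⁻¹ * u * d) = d⁻¹ * (u * u) * d := by group
          _ = 1 := by rw [hu.1.1, mul_one, inv_mul_cancel]
      · rw [map_mul, map_mul, map_inv, hu.2, hd, ← hcp]; group
    · intro u hu
      simp only [Finset.mem_filter, Finset.mem_univ, true_and, Subgroup.mem_top] at hu ⊢
      have h2 : π (d * u * d⁻¹) = p := by rw [map_mul, map_mul, map_inv, hu.2, hd, hcp]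
      refine ⟨⟨?_, h2 ▸ hp1⟩, h2⟩
      calc d * u * d⁻¹ * (d * u * d⁻¹) = d * (u * u) * d⁻¹ := by group
        _ = 1 := by rw [hu.1, mul_one, mul_inv_cancel]
  set C₁ := Nat.card (Subgroup.centralizer ({s} : Set G)) with hC1
  have hC10 : C₁ ≠ 0 := Nat.card_pos.ne'
  set g := Nat.card G with hgdef
  have hg36 : 36 * H.index = g := by rw [← card_H e, H.card_mul_index]
  have hgs : 3 * iG * C₁ = g := by rw [← hclcard, card_clOf, hC1, Subgroup.index_mul_card]
  have hg : g = 4 * C₁ ^ 2 := by
    refine Nat.eq_of_mul_eq_mul_left (show 0 < g from Nat.card_pos) ?_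
    calc g * g = (3 * iG * C₁) * (3 * iG * C₁) := by rw [hgs]
      _ = (9 * iG ^ 2) * C₁ ^ 2 := by ring
      _ = (4 * g) * C₁ ^ 2 := by
        congr 1
        omega
      _ = g * (4 * C₁ ^ 2) := by ring
  -- the class of the third involution has odd length
  have hZodd : Odd (clOf z).card := by
    obtain ⟨P⟩ : Nonempty (Sylow 2 G) := inferInstance
    haveI : Nontrivial (P : Subgroup G) := by
      rw [← Finite.one_lt_card_iff_nontrivial]
      refine lt_of_lt_of_le one_lt_two (Nat.le_of_dvd Nat.card_pos (P.dvd_card_of_dvd_card ?_))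
      exact ⟨18 * H.index, by rw [← hgdef, ← hg36]; ring⟩
    obtain ⟨c, hc⟩ := exists_prime_orderOf_dvd_card' 2
      (show 2 ∣ Nat.card (Subgroup.center (P : Subgroup G)) from by
        haveI := P.isPGroup'.center_nontrivial
        obtain ⟨n, hn0, hn⟩ := (P.isPGroup'.to_subgroup
          (Subgroup.center (P : Subgroup G))).nontrivial_iff_card.mp inferInstance
        rw [hn]
        exact dvd_pow_self 2 hn0.ne')
    set t : G := ((c : (P : Subgroup G)) : G) with ht
    have hto : orderOf t = 2 := by rw [ht, Subgroup.orderOf_coe, Subgroup.orderOf_coe, hc]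
    have hodd : Odd (clOf t).card := by
      rw [card_clOf, Nat.odd_iff, ← Nat.not_even_iff, even_iff_two_dvd]
      intro h
      refine P.not_dvd_index (h.trans (Subgroup.index_dvd_of_le fun s hs => ?_))
      rw [Subgroup.mem_centralizer_singleton_iff]
      exact congrArg Subtype.val (Subgroup.mem_center_iff.mp c.2 ⟨s, hs⟩)
    have ht2 : t * t = 1 := by rw [← sq, ← hto]; exact pow_orderOf_eq_one t
    have ht1 : t ≠ 1 := fun h => by rw [h, orderOf_one] at hto; norm_num at hto
    have hnot : ¬ IsConj s t := by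
      intro h
      rw [← clOf_eq h, hclcard] at hodd
      have h4 : 3 * iG = 4 * C₁ := Nat.eq_of_mul_eq_mul_right (Nat.pos_of_ne_zero hC10) (by
        rw [hgs, hg]; ring)
      rw [h4] at hodd
      exact (Nat.not_odd_iff_even.mpr ⟨2 * C₁, by ring⟩) hodd
    rcases exists_conj e A ht2 ht1 with ⟨j, hj⟩ | hj
    · by_cases hjk : j = k
      · rw [hjk] at hj
        rwa [← clOf_eq hj] at hodd
      · obtain rfl : j = l := by omega
        exact absurd hj hnot
    · exact absurd (hl.trans hj) hnot
  -- the centraliser of the third involution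
  set D := Subgroup.centralizer ({z} : Set G) with hD
  have hDmem : ∀ f : K, f * inv' k = inv' k * f → el e f ∈ D := fun f hf => by
    rw [hD, Subgroup.mem_centralizer_singleton_iff, hz, ← el_mul, ← el_mul, hf]
  have hDsurj : ∀ p : S3, ∃ d ∈ D, π d = p := fun p => by
    refine ⟨el e (fun j => if j = k then p else 1), hDmem _ ?_, by rw [hπ]; exact if_pos rfl⟩
    funext j
    simp only [Pi.mul_apply, inv']
    split_ifs <;> simp
  set L₂ := Finset.univ.filter fun g : G => g ∈ D ∧ π g = 1 with hL₂
  set i := (Finset.univ.filter fun u : G => u ∈ D ∧ u * u = 1 ∧ π u = tr).card with hi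
  have hfib := card_range_fibre π D hDsurj
  have hDcard : Nat.card D = 6 * L₂.card := by
    rw [Nat.card_eq_fintype_card, Fintype.card_subtype,
      Finset.card_eq_sum_card_fiberwise (f := π) (t := (Finset.univ : Finset S3))
        (fun g _ => Finset.mem_univ _),
      Finset.sum_congr rfl (g := fun _ => L₂.card) fun q _ => ?_, Finset.sum_const, Finset.card_univ,
      show Fintype.card S3 = 6 by simp [Fintype.card_perm, Nat.factorial], smul_eq_mul]
    rw [hL₂, ← hfib q, Finset.filter_filter]
  have hi2 : i ^ 2 = 2 * L₂.card := by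
    have h := pairs_eq π D hDsurj htr
    rw [Finset.sum_congr rfl (g := fun _ => 6) fun g hg => ?_, Finset.sum_const, smul_eq_mul] at h
    · have hcard : (Finset.univ.filter fun g : G => g ∈ D ∧ IsCyc (π g)).card = 2 * L₂.card := by
        rw [Finset.card_eq_sum_card_fiberwise (f := π)
            (t := Finset.univ.filter fun p : S3 => IsCyc p)
            (fun g hg => Finset.mem_filter.mpr ⟨Finset.mem_univ _, (Finset.mem_filter.mp hg).2.2⟩),
          Finset.sum_congr rfl (g := fun _ => L₂.card) fun p hp => ?_, Finset.sum_const, card_cyc,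
          smul_eq_mul]
        rw [hL₂, ← hfib p]
        congr 1
        ext g
        simp only [Finset.mem_filter, Finset.mem_univ, true_and]
        exact ⟨fun h => ⟨h.1.1, h.2⟩, fun h => ⟨⟨h.1, h.2 ▸ (Finset.mem_filter.mp hp).2⟩, h.2⟩⟩
      rw [hcard, ← hi] at h
      omega
    obtain ⟨-, hgD, hgc⟩ := Finset.mem_filter.mp hg
    obtain ⟨c, f, hfc, rfl⟩ := hcycconj g hgc
    have hfA : el e f ∈ setA H := cyc_setA e (h := e.symm f) (k := k) (by simpa using hfc)
    have hzf : c⁻¹ * z * c * el e f = el e f * (c⁻¹ * z * c) := by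
      have h := Subgroup.mem_centralizer_singleton_iff.mp hgD
      calc c⁻¹ * z * c * el e f = c⁻¹ * (z * (c * el e f * c⁻¹)) * c := by group
        _ = c⁻¹ * (c * el e f * c⁻¹ * z) * c := by rw [h]
        _ = el e f * (c⁻¹ * z * c) := by group
    have hzH : c⁻¹ * z * c ∈ H := (isTI e A).fuse _ _ hfA (by
      rw [hzf, mul_inv_cancel_right]; exact hfA)
    set z' := e ⟨_, hzH⟩ with hz'
    have hz'el : el e z' = c⁻¹ * z * c := el_apply e _
    have hz'k : z' k = 1 := by
      refine (hπ z').symm.trans ?_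
      rw [hz'el, map_mul, map_mul, hπz, mul_one, ← map_mul, inv_mul_cancel, map_one]
    have hz'1 : z' ≠ 1 := fun h => by
      rw [h, el_one] at hz'el
      have h1 : z = 1 := by
        calc z = c * (c⁻¹ * z * c) * c⁻¹ := by group
          _ = 1 := by rw [← hz'el, mul_one, mul_inv_cancel]
      exact (inv_facts k).2.1 (el_inj e (h1.trans (el_one e).symm))
    have hz'2 : z' * z' = 1 := el_inj e (by
      rw [el_mul, hz'el, el_one]
      calc c⁻¹ * z * c * (c⁻¹ * z * c) = c⁻¹ * (z * z) * c := by group
        _ = 1 := by rw [hzz, mul_one, inv_mul_cancel])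
    refine Eq.trans ?_ (cnt_central k f z' hfc hz'2 hz'1 hz'k
      (el_inj e (by rw [el_mul, el_mul, hz'el, hzf])))
    refine Finset.card_bij (fun u hu => e ⟨c⁻¹ * u * c, ?_⟩) ?_ ?_ ?_
    · obtain ⟨-, -, -, -, hinv⟩ := Finset.mem_filter.mp hu
      refine (isTI e A).invert _ _ hfA ?_
      calc c⁻¹ * u * c * el e f * (c⁻¹ * u * c)⁻¹
          = c⁻¹ * (u * (c * el e f * c⁻¹) * u⁻¹) * c := by group
        _ = (el e f)⁻¹ := by rw [hinv]; group
    · intro u hu
      obtain ⟨-, huD, hu2, hu1, hinv⟩ := Finset.mem_filter.mp hu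
      refine Finset.mem_filter.mpr ⟨Finset.mem_univ _, ?_, ?_, ?_, ?_⟩
      · apply el_inj e
        rw [el_mul, el_one, el_apply]
        calc c⁻¹ * u * c * (c⁻¹ * u * c) = c⁻¹ * (u * u) * c := by group
          _ = 1 := by rw [hu2]; group
      · intro h
        replace h := (hπ _).trans h
        rw [el_apply, map_mul, map_mul, map_inv] at h
        refine hu1 ?_
        calc π u = π c * ((π c)⁻¹ * π u * π c) * (π c)⁻¹ := by group
          _ = 1 := by rw [h, mul_one, mul_inv_cancel]
      · apply el_inj e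
        rw [el_mul, el_mul, el_inv, el_inv, el_apply]
        calc c⁻¹ * u * c * el e f * (c⁻¹ * u * c)⁻¹
            = c⁻¹ * (u * (c * el e f * c⁻¹) * u⁻¹) * c := by group
          _ = (el e f)⁻¹ := by rw [hinv]; group
      · apply el_inj e
        rw [el_mul, el_mul, el_apply, hz'el]
        have h := Subgroup.mem_centralizer_singleton_iff.mp huD
        calc c⁻¹ * u * c * (c⁻¹ * z * c) = c⁻¹ * (u * z) * c := by group
          _ = c⁻¹ * (z * u) * c := by rw [h]
          _ = c⁻¹ * z * c * (c⁻¹ * u * c) := by group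
    · intro u _ v _ huv
      exact mul_left_cancel (mul_right_cancel (congrArg Subtype.val (e.injective huv)))
    · intro w hw
      obtain ⟨-, hw2, hw1, hwinv, hwz⟩ := Finset.mem_filter.mp hw
      refine ⟨c * el e w * c⁻¹, Finset.mem_filter.mpr ⟨Finset.mem_univ _, ?_, ?_, ?_, ?_⟩, ?_⟩
      · rw [hD, Subgroup.mem_centralizer_singleton_iff]
        have h := congrArg (el e) hwz
        rw [el_mul, el_mul, hz'el] at h
        calc c * el e w * c⁻¹ * z = c * (el e w * (c⁻¹ * z * c)) * c⁻¹ := by group
          _ = c * (c⁻¹ * z * c * el e w) * c⁻¹ := by rw [h]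
          _ = z * (c * el e w * c⁻¹) := by group
      · calc c * el e w * c⁻¹ * (c * el e w * c⁻¹) = c * (el e w * el e w) * c⁻¹ := by group
          _ = 1 := by rw [← el_mul, hw2, el_one, mul_one, mul_inv_cancel]
      · intro h
        rw [map_mul, map_mul, map_inv, hπ, conj_eq_one_iff] at h
        exact hw1 h
      · calc c * el e w * c⁻¹ * (c * el e f * c⁻¹) * (c * el e w * c⁻¹)⁻¹
            = c * (el e w * el e f * (el e w)⁻¹) * c⁻¹ := by group
          _ = (c * el e f * c⁻¹)⁻¹ := by
            rw [← el_inv, ← el_mul, ← el_mul, hwinv, el_inv]; group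
      · apply el_inj e
        rw [el_apply]
        group
  -- orbits of a Sylow subgroup of the kernel on the involutions of one coset
  set L : Subgroup G := D ⊓ π.ker with hL
  have hLcard : Nat.card L = L₂.card := by
    rw [Nat.card_eq_fintype_card, Fintype.card_subtype]
    congr 1
    ext g
    simp [hL, hL₂, MonoidHom.mem_ker]
  obtain ⟨P⟩ : Nonempty (Sylow 2 L) := inferInstance
  let Y := {u : G // u ∈ D ∧ u * u = 1 ∧ π u = tr}
  have hY : Nat.card Y = i := by rw [Nat.card_eq_fintype_card, Fintype.card_subtype]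
  letI act : MulAction (P : Subgroup L) Y :=
    { smul := fun p u => ⟨((p : L) : G) * u.1 * ((p : L) : G)⁻¹,
        D.mul_mem (D.mul_mem (p : L).2.1 u.2.1) (D.inv_mem (p : L).2.1),
        by
          calc ((p : L) : G) * u.1 * ((p : L) : G)⁻¹ * (((p : L) : G) * u.1 * ((p : L) : G)⁻¹)
              = ((p : L) : G) * (u.1 * u.1) * ((p : L) : G)⁻¹ := by group
            _ = 1 := by rw [u.2.2.1, mul_one, mul_inv_cancel],
        by
          have hp : π ((p : L) : G) = 1 := (p : L).2.2
          rw [map_mul, map_mul, map_inv, hp, u.2.2.2]; simp⟩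
      one_smul := fun u => Subtype.ext (by show (1 : G) * u.1 * (1 : G)⁻¹ = u.1; simp)
      mul_smul := fun p q u => Subtype.ext (by
        show ((p : L) : G) * ((q : L) : G) * u.1 * (((p : L) : G) * ((q : L) : G))⁻¹ = _
        show _ = ((p : L) : G) * (((q : L) : G) * u.1 * ((q : L) : G)⁻¹) * ((p : L) : G)⁻¹
        group) }
  haveI : Finite Y := Subtype.finite
  obtain ⟨β, hβ1, hβ⟩ : ∃ β, β + 1 ≤ C₁.factorization 2 ∧
      ∀ u : Y, Nat.card (MulAction.stabilizer (P : Subgroup L) u) ∣ 2 ^ β := by
    refine ⟨C₁.factorization 2 - 1, ?_, fun u => ?_⟩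
    · have h2 : (2 : ℕ) ^ 1 ∣ C₁ := by
        rw [pow_one, hC1]
        refine (dvd_of_eq ?_).trans (Subgroup.orderOf_dvd_natCard _
          (Subgroup.mem_centralizer_singleton_iff.mpr rfl : s ∈ Subgroup.centralizer ({s} : Set G)))
        exact (orderOf_eq_prime (by rw [sq, hss]) fun h => hl1 (el_inj e (h.trans (el_one e).symm))).symm
      have := (Nat.prime_two.pow_dvd_iff_le_factorization hC10).mp h2
      omega
    obtain ⟨n, hn⟩ := IsPGroup.iff_card.mp
      (P.isPGroup'.to_subgroup (MulAction.stabilizer (P : Subgroup L) u))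
    rw [hn]
    refine pow_dvd_pow 2 ?_
    -- the stabiliser has index at least two in the centraliser
    set C := Subgroup.centralizer ({u.1} : Set G) with hC
    let f : (MulAction.stabilizer (P : Subgroup L) u) → (π.ker.subgroupOf C) := fun p =>
      ⟨⟨((p.1 : L) : G), Subgroup.mem_centralizer_singleton_iff.mpr
        (mul_inv_eq_iff_eq_mul.mp (congrArg Subtype.val p.2))⟩, (p.1 : L).2.2⟩
    let fh : (MulAction.stabilizer (P : Subgroup L) u) →* (π.ker.subgroupOf C) :=
      MonoidHom.mk' f fun a b => rfl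
    have hfinj : Function.Injective fh := fun a b h =>
      Subtype.ext (Subtype.ext (Subtype.ext (congrArg (fun w : π.ker.subgroupOf C => ((w : C) : G)) h)))
    have hd := Subgroup.card_dvd_of_injective fh hfinj
    have hidx : (π.ker.subgroupOf C).index = 2 := by
      rw [Subgroup.index_eq_two_iff]
      refine ⟨⟨u.1, Subgroup.mem_centralizer_singleton_iff.mpr rfl⟩, fun b => ?_⟩
      have hb : π b.1 = 1 ∨ π b.1 = tr := by
        refine trans_centralizer tr (π b.1) htr.1 htr.2 ?_
        rw [← u.2.2.2, ← map_mul, ← map_mul, Subgroup.mem_centralizer_singleton_iff.mp b.2]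
      simp only [Subgroup.mem_subgroupOf, MonoidHom.mem_ker, Subgroup.coe_mul, map_mul, u.2.2.2]
      rcases hb with h | h <;> rw [h] <;> simp [Xor', htr.1, htr.2]
    have hCcard : Nat.card C = C₁ := by
      have h1 : (clOf u.1).card = (clOf s).card :=
        congrArg Finset.card (clOf_eq (hclass u.1 u.2.2.1 (by rw [u.2.2.2]; exact htr.2))).symm
      rw [card_clOf, card_clOf] at h1
      have h2 := (Subgroup.index_mul_card C).trans
        (Subgroup.index_mul_card (Subgroup.centralizer ({s} : Set G))).symm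
      rw [← hC] at h1
      rw [h1] at h2
      exact Nat.eq_of_mul_eq_mul_left (Nat.pos_of_ne_zero Subgroup.FiniteIndex.index_ne_zero) h2
    have hmul := (π.ker.subgroupOf C).card_mul_index
    rw [hidx, hCcard] at hmul
    rw [hn] at hd
    have h := (Nat.prime_two.pow_dvd_iff_le_factorization Nat.card_pos.ne').mp hd
    rw [← hmul, mul_comm, factor_two_mul Nat.card_pos.ne']
    omega
  have hdvd : 2 ^ (L₂.card.factorization 2 - β) ∣ i := by
    rw [← hY, Nat.card_congr (MulAction.selfEquivSigmaOrbits (P : Subgroup L) Y), Nat.card_sigma]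
    refine Finset.dvd_sum fun w _ => ?_
    set u := w.out
    have horb := Nat.card_congr (MulAction.orbitEquivQuotientStabilizer (P : Subgroup L) u)
    rw [horb, ← Subgroup.index_eq_card]
    have hmul := (MulAction.stabilizer (P : Subgroup L) u).card_mul_index
    obtain ⟨j, hj, hjc⟩ := (Nat.dvd_prime_pow Nat.prime_two).mp (hβ u)
    rw [hjc, P.card_eq_multiplicity, hLcard] at hmul
    obtain ⟨a, -, hac⟩ := (Nat.dvd_prime_pow Nat.prime_two).mp (Dvd.intro_left _ hmul)
    rw [hac] at hmul ⊢
    rw [← pow_add] at hmul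
    exact pow_dvd_pow 2 (by have := Nat.pow_right_injective le_rfl hmul; omega)
  have hg6 : g = (clOf z).card * (6 * L₂.card) := by
    rw [card_clOf, ← hD, ← hDcard, Subgroup.index_mul_card]
  have hC0 : L₂.card ≠ 0 := by rw [← hLcard]; exact Nat.card_pos.ne'
  exact parity_false hg hg6 hZodd hi2 hC0 hC10 hβ1 hdvd

end

end Cfsg.Agent.OddChar.S3Squared
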