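import Cfsg.Agent.OddChar.S3SquaredModel
import Cfsg.Agent.OddChar.Wreath72Iso

/-!
A self-centralising normal elementary subgroup of order nine with a four-group as complement: the
group is the product of two symmetric groups of degree three.
-/

set_option autoImplicit false

open scoped Classical

namespace Cfsg.Agent.OddChar.S3Squared

open Wreath72 (fixIn mem_fixIn eq_one_of_sq four_eq)

variable {N : Type*} [Group N] [Fintype N]

/-- The isomorphism with the product. -/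
theorem exists_iso (M S : Subgroup N) [M.Normal] (hM9 : Nat.card M = 9)
    (hM3 : ∀ m ∈ M, m ^ 3 = 1) (hself : Subgroup.centralizer (M : Set N) = M)
    (hS4 : Nat.card S = 4) (hS2 : ∀ s ∈ S, s * s = 1) (hN : Nat.card N = 36) :
    Nonempty (N ≃* K) := by
  haveI : Fact (Nat.Prime 3) := ⟨by norm_num⟩
  have hcomp : Subgroup.IsComplement' M S :=
    Subgroup.isComplement'_of_coprime (by rw [hM9, hS4, hN]) (by rw [hM9, hS4]; norm_num)
  have hdec : ∀ n : N, ∃ m ∈ M, ∃ s ∈ S, m * s = n := fun n => by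
    obtain ⟨⟨a, b⟩, h⟩ := hcomp.2 n
    exact ⟨a, a.2, b, b.2, h⟩
  have hMS : ∀ x, x ∈ M → x ∈ S → x = 1 := fun x hx hx' => by
    have := hcomp.disjoint.le_bot ⟨hx, hx'⟩
    simpa using this
  have hab : ∀ a ∈ M, ∀ b ∈ M, a * b = b * a := by
    intro a ha b hb
    rw [← SetLike.mem_coe] at ha
    have hb' : b ∈ Subgroup.centralizer (M : Set N) := by rw [hself]; exact hb
    exact Subgroup.mem_centralizer_iff.mp hb' a ha
  have hfaith : ∀ s ∈ S, (∀ m ∈ M, s * m * s⁻¹ = m) → s = 1 := fun s hs h => by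
    refine hMS s ?_ hs
    rw [← hself, Subgroup.mem_centralizer_iff]
    exact fun m hm => (mul_inv_eq_iff_eq_mul.mp (h m hm)).symm
  have hMc : ∀ g : N, ∀ m ∈ M, g * m * g⁻¹ ∈ M := fun g m hm => ‹M.Normal›.conj_mem m hm g
  have hScomm : ∀ a ∈ S, ∀ b ∈ S, a * b = b * a := fun a ha b hb => by
    have h := inv_eq_of_mul_eq_one_right (hS2 _ (S.mul_mem ha hb))
    rw [mul_inv_rev, inv_eq_of_mul_eq_one_right (hS2 a ha), inv_eq_of_mul_eq_one_right (hS2 b hb)] at h
    exact h.symm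
  have hsplit : ∀ x : N, x * x = 1 → ∀ m ∈ M, ∃ a b, a ∈ fixIn M x ∧
      (b ∈ M ∧ x * b * x⁻¹ = b⁻¹) ∧ a * b = m := by
    intro x hx m hm
    have hxi : x⁻¹ = x := inv_eq_of_mul_eq_one_left hx
    set m' := x * m * x⁻¹ with hm'
    have hm'M : m' ∈ M := hMc x m hm
    have hback : x * m' * x⁻¹ = m := by
      rw [hm', hxi]
      calc x * (x * m * x) * x = x * x * m * (x * x) := by group
        _ = m := by rw [hx, one_mul, mul_one]
    have hc : m * m' = m' * m := hab m hm m' hm'M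
    refine ⟨(m * m') ^ 2, (m * m'⁻¹) ^ 2, mem_fixIn.mpr ⟨pow_mem (mul_mem hm hm'M) 2, ?_⟩,
      ⟨pow_mem (mul_mem hm (inv_mem hm'M)) 2, ?_⟩, ?_⟩
    · rw [← conj_pow, show x * (m * m') * x⁻¹ = (x * m * x⁻¹) * (x * m' * x⁻¹) by group, hback,
        ← hm', ← hc]
    · rw [← conj_pow, show x * (m * m'⁻¹) * x⁻¹ = (x * m * x⁻¹) * (x * m' * x⁻¹)⁻¹ by group, hback,
        ← hm', ← inv_pow, mul_inv_rev, inv_inv]
    · rw [← (show Commute (m * m') (m * m'⁻¹) from hab _ (mul_mem hm hm'M) _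
        (mul_mem hm (inv_mem hm'M))).mul_pow, show m * m' * (m * m'⁻¹) = m * (m' * m) * m'⁻¹ by group,
        ← hc, show m * (m * m') * m'⁻¹ = m ^ 2 by rw [sq]; group, ← pow_mul, pow_mul, sq (m ^ 2)]
      exact four_eq (hM3 m hm)
  have hfix_card : ∀ x : N, Nat.card (fixIn M x) = 1 ∨ Nat.card (fixIn M x) = 3 ∨
      Nat.card (fixIn M x) = 9 := by
    intro x
    have h : Nat.card (fixIn M x) ∣ 3 ^ 2 := by
      rw [show (3 : ℕ) ^ 2 = Nat.card M by rw [hM9]; norm_num]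
      exact Subgroup.card_dvd_of_le inf_le_left
    obtain ⟨k, hk, hk'⟩ := (Nat.dvd_prime_pow (by norm_num)).mp h
    interval_cases k <;> simp_all
  have hfix_top : ∀ x ∈ S, Nat.card (fixIn M x) = 9 → x = 1 := fun x hx h => by
    refine hfaith x hx fun m hm => ((mem_fixIn (M := M) (x := x) (m := m)).mp ?_).2
    have he : fixIn M x = M := Subgroup.eq_of_le_of_card_ge inf_le_left (by rw [h, hM9])
    rw [he]; exact hm
  have hinvall : ∀ x ∈ S, Nat.card (fixIn M x) = 1 → ∀ m ∈ M, x * m * x⁻¹ = m⁻¹ := by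
    intro x hx h m hm
    obtain ⟨p, q, hp, hq, rfl⟩ := hsplit x (hS2 x hx) m hm
    rw [Subgroup.card_eq_one.mp h, Subgroup.mem_bot] at hp
    subst hp
    rw [one_mul]
    exact hq.2
  -- an involution with a fixed subgroup of order three
  obtain ⟨b, hb, hb3⟩ : ∃ b ∈ S, Nat.card (fixIn M b) = 3 := by
    haveI : Nontrivial S := Finite.one_lt_card_iff_nontrivial.mp (by rw [hS4]; norm_num)
    obtain ⟨a, ha⟩ := exists_ne (1 : S)
    have ha1 : (a : N) ≠ 1 := fun h => ha (Subtype.ext h)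
    rcases hfix_card a with h | h | h
    · obtain ⟨c, hc1, hca⟩ : ∃ c : S, c ≠ 1 ∧ c ≠ a := by
        haveI := Fintype.ofFinite S
        by_contra! hall
        have : Finset.univ ⊆ ({1, a} : Finset S) := fun c _ => by
          by_cases h1 : c = 1
          · simp [h1]
          · simp [hall c h1]
        have := (Finset.card_le_card this).trans Finset.card_le_two
        rw [Finset.card_univ, ← Nat.card_eq_fintype_card, hS4] at this
        omega
      have hc1' : (c : N) ≠ 1 := fun h => hc1 (Subtype.ext h)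
      rcases hfix_card c with h' | h' | h'
      · exfalso
        have hac : (a : N) * c = 1 := hfaith _ (S.mul_mem a.2 c.2) fun m hm => by
          calc (a : N) * c * m * ((a : N) * c)⁻¹ = a * (c * m * (c : N)⁻¹) * (a : N)⁻¹ := by group
            _ = m := by
              rw [hinvall c c.2 h' m hm, ← conj_inv, hinvall a a.2 h m hm, inv_inv]
        refine hca (Subtype.ext ?_)
        rw [← mul_left_cancel_iff (a := (a : N)), hac, hS2 a a.2]
      · exact ⟨c, c.2, h'⟩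
      · exact absurd (hfix_top c c.2 h') hc1'
    · exact ⟨a, a.2, h⟩
    · exact absurd (hfix_top a a.2 h) ha1
  let T₁ : Subgroup N := fixIn M b
  let T₂ : Subgroup N :=
    { carrier := {m | m ∈ M ∧ b * m * b⁻¹ = m⁻¹}
      one_mem' := ⟨M.one_mem, by group⟩
      mul_mem' := fun {p q} hp hq => ⟨M.mul_mem hp.1 hq.1, by
        rw [mul_inv_rev, ← hab _ (inv_mem hp.1) _ (inv_mem hq.1), ← hp.2, ← hq.2]; group⟩
      inv_mem' := fun {p} hp => ⟨M.inv_mem hp.1, by rw [← conj_inv, hp.2]⟩ }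
  have hdisj : ∀ p, p ∈ T₁ → p ∈ T₂ → p = 1 := fun p h1 h2 =>
    eq_one_of_sq (hM3 p h2.1) ((mem_fixIn.mp h1).2.symm.trans h2.2)
  have hT2 : Nat.card T₂ = 3 := by
    have hbij : Function.Bijective
        (fun p : T₁ × T₂ => (⟨p.1.1 * p.2.1, M.mul_mem p.1.2.1 p.2.2.1⟩ : M)) := by
      refine ⟨fun p q hpq => ?_, fun m => ?_⟩
      · have h' : p.1.1 * p.2.1 = q.1.1 * q.2.1 := congrArg Subtype.val hpq
        have h0 : q.1.1⁻¹ * p.1.1 = q.2.1 * p.2.1⁻¹ := by
          calc q.1.1⁻¹ * p.1.1 = q.1.1⁻¹ * (p.1.1 * p.2.1) * p.2.1⁻¹ := by group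
            _ = _ := by rw [h']; group
        have h3 := hdisj _ (T₁.mul_mem (T₁.inv_mem q.1.2) p.1.2)
          (h0 ▸ T₂.mul_mem q.2.2 (T₂.inv_mem p.2.2))
        have hp1 : p.1 = q.1 := Subtype.ext (inv_mul_eq_one.mp h3).symm
        refine Prod.ext hp1 (Subtype.ext ?_)
        rw [h0, mul_inv_eq_one] at h3
        exact h3.symm
      · obtain ⟨p, q, hp, hq, hpq⟩ := hsplit b (hS2 b hb) m m.2
        exact ⟨(⟨p, hp⟩, ⟨q, hq⟩), Subtype.ext hpq⟩
    have := Nat.card_congr (Equiv.ofBijective _ hbij)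
    rw [Nat.card_prod, hM9, show Nat.card T₁ = 3 from hb3] at this
    omega
  have hnorm : ∀ T : Subgroup N, T ≤ M → (∀ s ∈ S, ∀ m ∈ T, s * m * s⁻¹ ∈ T) → T.Normal := by
    intro T hTM hTS
    refine ⟨fun m hm g => ?_⟩
    obtain ⟨u, hu, s, hs, rfl⟩ := hdec g
    rw [show u * s * m * (u * s)⁻¹ = u * (s * m * s⁻¹) * u⁻¹ by group,
      hab u hu _ (hTM (hTS s hs m hm)), mul_inv_cancel_right]
    exact hTS s hs m hm
  have hcb : ∀ s ∈ S, ∀ m : N, b * (s * m * s⁻¹) * b⁻¹ = s * (b * m * b⁻¹) * s⁻¹ := fun s hs m => by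
    calc b * (s * m * s⁻¹) * b⁻¹ = (b * s) * m * (b * s)⁻¹ := by group
      _ = (s * b) * m * (s * b)⁻¹ := by rw [hScomm b hb s hs]
      _ = _ := by group
  have hn1 : T₁.Normal := hnorm T₁ inf_le_left fun s hs m hm => by
    obtain ⟨h1, h2⟩ := mem_fixIn.mp hm
    exact mem_fixIn.mpr ⟨hMc s m h1, by rw [hcb s hs, h2]⟩
  have hn2 : T₂.Normal := hnorm T₂ (fun m hm => hm.1) fun s hs m hm =>
    ⟨hMc s m hm.1, by rw [hcb s hs, hm.2, conj_inv]⟩
  have hindex : ∀ T : Subgroup N, T.Normal → T ≤ M → Nat.card T = 3 → (T ⊔ S).index = 3 := by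
    intro T hT hTM hT3
    haveI := hT
    have hrel : T.relIndex (S ⊔ T) = 4 := by
      rw [Subgroup.relIndex_sup_right, ← Subgroup.inf_relIndex_right,
        show T ⊓ S = ⊥ from eq_bot_iff.mpr fun x hx => Subgroup.mem_bot.mpr (hMS x (hTM hx.1) hx.2),
        Subgroup.relIndex_bot_left, hS4]
    have h1 := Subgroup.relIndex_mul_index (le_sup_right : T ≤ S ⊔ T)
    have h2 := T.card_mul_index
    rw [hrel] at h1
    rw [hT3, hN, ← h1] at h2
    rw [sup_comm]
    omega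
  set P₁ := T₁ ⊔ S with hP1
  set P₂ := T₂ ⊔ S with hP2
  have hperm : ∀ P : Subgroup N, P.index = 3 →
      ∃ f : N →* S3Cubed.S3, ∀ x, f x = 1 → x ∈ P := by
    intro P hP
    obtain ⟨q⟩ : Nonempty (N ⧸ P ≃ Fin 3) :=
      ⟨(Finite.equivFinOfCardEq (by rw [← Subgroup.index_eq_card, hP]))⟩
    refine ⟨(q.permCongrHom : Equiv.Perm (N ⧸ P) ≃* _).toMonoidHom.comp
      (MulAction.toPermHom N (N ⧸ P)), fun x hx => ?_⟩
    have h : MulAction.toPermHom N (N ⧸ P) x = 1 :=
      q.permCongrHom.injective (by rw [map_one]; exact hx)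
    have h1 := congrArg (fun p : Equiv.Perm (N ⧸ P) => p ((1 : N) : N ⧸ P)) h
    simp only [MulAction.toPermHom_apply, MulAction.toPerm_apply, Equiv.Perm.one_apply,
      MulAction.Quotient.smul_coe, smul_eq_mul, mul_one] at h1
    simpa using QuotientGroup.eq.mp h1.symm
  obtain ⟨f₁, hf₁⟩ := hperm P₁ (hindex T₁ hn1 inf_le_left hb3)
  obtain ⟨f₂, hf₂⟩ := hperm P₂ (hindex T₂ hn2 (fun m hm => hm.1) hT2)
  let Φ : N →* K := Pi.monoidHom fun j => if j = 0 then f₁ else f₂
  have hΦ : Function.Injective Φ := by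
    rw [injective_iff_map_eq_one]
    intro x hx
    have hxP : ∀ y, Φ y = 1 → y ∈ S := by
      intro y hy
      have h1 := hf₁ y (congrFun hy 0)
      have h2 := hf₂ y (congrFun hy 1)
      haveI := hn1
      haveI := hn2
      obtain ⟨t, ht, s, hs, hts⟩ := Subgroup.mem_sup_of_normal_left.mp h1
      obtain ⟨t', ht', s', hs', hts'⟩ := Subgroup.mem_sup_of_normal_left.mp h2
      have hst : t'⁻¹ * t = s' * s⁻¹ := by
        calc t'⁻¹ * t = t'⁻¹ * (t * s) * s⁻¹ := by group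
          _ = _ := by rw [hts, ← hts']; group
      have hone := hMS _ (M.mul_mem (M.inv_mem ht'.1) ht.1) (hst ▸ S.mul_mem hs' (S.inv_mem hs))
      have htt : t' = t := inv_mul_eq_one.mp hone
      rw [hdisj t ht (htt ▸ ht'), one_mul] at hts
      exact hts ▸ hs
    refine hfaith x (hxP x hx) fun m hm => mul_inv_eq_one.mp ?_
    refine hMS _ (M.mul_mem (hMc x m hm) (M.inv_mem hm)) (hxP _ ?_)
    simp [hx]
  exact ⟨MulEquiv.ofBijective Φ ((Nat.bijective_iff_injective_and_card Φ).mpr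
    ⟨hΦ, by rw [hN, Nat.card_eq_fintype_card, card_K]⟩)⟩

end Cfsg.Agent.OddChar.S3Squared
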