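import Cfsg.Agent.OddChar.S3Cubed

/-!
The product of two symmetric groups of degree three.
-/

set_option autoImplicit false

namespace Cfsg.Agent.OddChar.S3Squared

open S3Cubed (S3 cyc tr)

set_option synthInstance.maxSize 2000
set_option synthInstance.maxHeartbeats 200000

/-- The product of two copies of the symmetric group. -/
abbrev K : Type := Fin 2 → S3

/-- The projection on a factor. -/
def proj (k : Fin 2) : K →* S3 := Pi.evalMonoidHom (fun _ : Fin 2 => S3) k

/-- The other index. -/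
def oth (k : Fin 2) : Fin 2 := k + 1

/-- An element of order six. -/
def six (k : Fin 2) : K := fun j => if j = k then cyc else tr

/-- The involution trivial at `k`. -/
def inv' (k : Fin 2) : K := fun j => if j = k then 1 else tr

/-- The involution in both factors. -/
def zb : K := fun _ => tr

/-- A three-cycle. -/
abbrev IsCyc (p : S3) : Prop := p * p * p = 1 ∧ p ≠ 1

/-- The support of the twisted character. -/
abbrev EtaCond (k : Fin 2) (f : K) : Prop := IsCyc (f k) ∧ Equiv.Perm.sign (f (oth k)) = -1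

theorem six_cube : ∀ k, six k ^ 3 = inv' k := by decide +kernel
theorem six_pow : ∀ k, six k ^ 6 = 1 := by decide +kernel
theorem pow_six : ∀ f : K, f ^ 6 = 1 := by decide +kernel
theorem pow_four_eq_one : ∀ f : K, f ^ 4 = 1 → ∀ k, ¬ IsCyc (f k) := by decide +kernel
theorem four_ne_one : ∀ f : K, ∀ k, IsCyc (f k) → f ^ 4 ≠ 1 := by decide +kernel
theorem card_theta : ∀ k, (Finset.univ.filter fun f : K => IsCyc (f k)).card = 12 := by
  decide +kernel
theorem card_eta : ∀ k, (Finset.univ.filter fun f : K => EtaCond k f).card = 6 := by decide +kernel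
theorem eta_conj : ∀ k, ∀ f : K, EtaCond k f → ∃ c : K, c * six k * c⁻¹ = f := by decide +kernel
theorem eta_disjoint : ∀ k l : Fin 2, k ≠ l → ∀ f : K, EtaCond k f → ¬ EtaCond l f := by
  decide +kernel
theorem card_K : Fintype.card K = 36 := by decide +kernel
theorem card_cube : (Finset.univ.filter fun f : K => f ^ 3 = 1).card = 9 := by decide +kernel
theorem involution_cases : ∀ u : K, u * u = 1 → u ≠ 1 →
    (∃ k, ∃ c : K, c * inv' k * c⁻¹ = u) ∨ ∃ c : K, c * zb * c⁻¹ = u := by decide +kernel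
theorem inv_facts : ∀ k, inv' k * inv' k = 1 ∧ inv' k ≠ 1 ∧ inv' k ^ 4 = 1 ∧
    (∀ c : K, (c * inv' k * c⁻¹) k = 1) := by decide +kernel
theorem comm_of_cube : ∀ f y : K, f ^ 3 = 1 → y ^ 3 = 1 → f * y = y * f := by decide +kernel
theorem eq_one_of_cube : ∀ f : K, f ^ 3 = 1 → (∀ k, ¬ IsCyc (f k)) → f = 1 := by decide +kernel

theorem cube_coord : ∀ f : K, ∀ k, f ^ 3 = 1 → ¬ IsCyc (f k) → f k = 1 := by decide +kernel
theorem commutator_at : ∀ k, ∀ f : K, f ^ 3 = 1 → f k = 1 →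
    ∃ y : K, inv' k * y * (inv' k)⁻¹ * y⁻¹ = f := by decide +kernel
theorem split_cube : ∀ f : K, f ^ 3 = 1 → ∃ a b : K, a ^ 3 = 1 ∧ b ^ 3 = 1 ∧ a 0 = 1 ∧ b 1 = 1 ∧
    a * b = f := by decide +kernel
theorem exists_trivial_at : ∀ k, ∃ f : K, f ^ 3 = 1 ∧ f ≠ 1 ∧ f k = 1 := by decide +kernel
theorem trans_commutator : ∀ k, ∀ f : K, f k ≠ 1 → ¬ IsCyc (f k) →
    ∃ y : K, IsCyc ((f * y * f⁻¹ * y⁻¹) k) := by decide +kernel
theorem coord_one_cases : ∀ k, ∀ f : K, f k = 1 →
    (∃ y : K, inv' k * y * (inv' k)⁻¹ * y⁻¹ = f) ∨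
      ∃ y : K, inv' k * y * (inv' k)⁻¹ * y⁻¹ = inv' k * f := by decide +kernel
theorem cyc_cases : ∀ p q : S3, p * p = 1 → q * q = 1 → p ≠ 1 → q ≠ 1 →
    (IsCyc (p * q) ↔ p ≠ q) := by decide +kernel
theorem trans_mul_cyc : ∀ p r : S3, p * p = 1 → p ≠ 1 → IsCyc r → p * r ≠ 1 := by decide +kernel
theorem trans_conj : ∀ p q : S3, p * p = 1 → p ≠ 1 → q * q = 1 → q ≠ 1 →
    ∃ c : S3, c * c * c = 1 ∧ c * p * c⁻¹ = q := by decide +kernel
theorem card_trans : (Finset.univ.filter fun p : S3 => p * p = 1 ∧ p ≠ 1).card = 3 := by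
  decide +kernel
theorem card_cyc : (Finset.univ.filter fun p : S3 => IsCyc p).card = 2 := by decide +kernel
theorem trans_centralizer : ∀ p q : S3, p * p = 1 → p ≠ 1 → q * p = p * q → q = 1 ∨ q = p := by
  decide +kernel

/-- Involutions of the model outside the kernel which invert an element. -/
def cnt (k : Fin 2) (h : K) : ℕ :=
  (Finset.univ.filter fun u : K => u * u = 1 ∧ u k ≠ 1 ∧ u * h * u⁻¹ = h⁻¹).card

theorem sum_cnt : ∀ k, ∑ h ∈ Finset.univ.filter (fun h : K => IsCyc (h k)), cnt k h = 96 := by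
  decide +kernel

theorem cnt_central : ∀ k, ∀ h z' : K, IsCyc (h k) → z' * z' = 1 → z' ≠ 1 → z' k = 1 →
    z' * h = h * z' →
    (Finset.univ.filter fun u : K => u * u = 1 ∧ u k ≠ 1 ∧ u * h * u⁻¹ = h⁻¹ ∧ u * z' = z' * u).card
      = 6 := by decide +kernel

end Cfsg.Agent.OddChar.S3Squared
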