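import Cfsg.Agent.OddChar.S3SquaredModel
import Cfsg.Agent.OddChar.S3CubedTI

/-!
A subgroup isomorphic to the product of two symmetric groups of degree three, controlling the
centralisers of its elements of order three.
-/

set_option autoImplicit false

open Cfsg
open scoped ComplexConjugate

namespace Cfsg.Agent.OddChar.S3Squared

open S3Cubed (S3 cyc tr phi phi_virt virt_comp virt_mul_char virt_indFun setA)

variable {G : Type*} [Group G] {H : Subgroup G} (e : H ≃* K)

/-- The homomorphism onto the factor `k`. -/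
def comp (k : Fin 2) : H →* S3 := (proj k).comp e.toMonoidHom

theorem comp_apply (k : Fin 2) (h : H) : comp e k h = (e h) k := rfl

/-- The basic generalised character. -/
noncomputable def theta (k : Fin 2) (h : H) : ℂ := phi (comp e k h)

theorem theta_virt (k : Fin 2) : IsGeneralizedCharacter H (theta e k) :=
  virt_comp phi_virt (comp e k)

theorem theta_ne_zero {k : Fin 2} {h : H} (hne : theta e k h ≠ 0) :
    (comp e k h * comp e k h * comp e k h = 1 ∧ comp e k h ≠ 1) ∧ theta e k h = 3 := by
  unfold theta phi at *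
  split_ifs at hne ⊢ with hc
  · exact ⟨hc, rfl⟩
  · exact absurd rfl hne

/-- The sign of the factor `oth k` as a linear character. -/
noncomputable def twist (k : Fin 2) : H →* ℂˣ :=
  (Units.map (Int.castRingHom ℂ).toMonoidHom).comp (Equiv.Perm.sign.comp (comp e (oth k)))

theorem twist_apply (k : Fin 2) (h : H) :
    (twist e k h : ℂ) = ((Equiv.Perm.sign (comp e (oth k) h) : ℤ) : ℂ) := rfl

/-- The twisted generalised character. -/
noncomputable def eta (k : Fin 2) : H → ℂ := theta e k - theta e k * fun h => (twist e k h : ℂ)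

theorem eta_virt (k : Fin 2) : IsGeneralizedCharacter H (eta e k) :=
  virt_sub (theta_virt e k) (virt_mul_char (theta_virt e k) (Chars.isCharacter_hom _))

theorem eta_apply (k : Fin 2) (h : H) : eta e k h = if EtaCond k (e h) then 6 else 0 := by
  unfold eta
  simp only [Pi.sub_apply, Pi.mul_apply, twist_apply, comp_apply, theta, phi]
  rcases Int.units_eq_one_or (Equiv.Perm.sign ((e h) (oth k))) with hs | hs <;>
  by_cases hc : (e h) k * (e h) k * (e h) k = 1 ∧
      (e h) k ≠ 1
  · simp [EtaCond, hs]
  · simp [EtaCond, hs]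
  · simp only [EtaCond, IsCyc, hs, hc, and_self, if_true, ne_eq, not_false_eq_true]
    norm_num
  · simp only [EtaCond, IsCyc, hs, hc, and_true, if_false]
    simp

/-- The element of order six. -/
def sixG (k : Fin 2) : G := (e.symm (six k) : G)

/-- The involution. -/
def invG (k : Fin 2) : G := (e.symm (inv' k) : G)

theorem invG_eq (k : Fin 2) : invG e k = sixG e k ^ 3 := by
  simp [invG, sixG, ← six_cube]

theorem invG_mem (k : Fin 2) : invG e k ∈ H := (e.symm (inv' k)).2

theorem theta_supp (k : Fin 2) (h : H) (hne : theta e k h ≠ 0) : (h : G) ∈ setA H := by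
  refine ⟨h.2, fun h4 => ?_⟩
  have h4' : (e h) ^ 4 = 1 := by
    rw [← map_pow, show h ^ 4 = 1 from Subtype.ext (by simpa using h4), map_one]
  exact pow_four_eq_one _ h4' k (theta_ne_zero e hne).1

theorem eta_supp (k : Fin 2) (h : H) (hne : eta e k h ≠ 0) : (h : G) ∈ setA H := by
  refine theta_supp e k h fun h0 => hne ?_
  simp [eta, h0]

variable [Fintype G]

omit [Fintype G] in
/-- The sum over `H` as a sum over the even triples. -/
theorem sum_eq_sum_K [Fintype H] (F : K → ℂ) : ∑ h : H, F (e h) = ∑ f : K, F f :=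
  Fintype.sum_equiv e.toEquiv _ _ fun _ => rfl

omit [Fintype G] in
include e in
theorem card_H : Nat.card H = 36 := by
  rw [Nat.card_congr e.toEquiv, Nat.card_eq_fintype_card, card_K]

variable [Fintype H]

theorem theta_norm (k : Fin 2) : classInner (theta e k) (theta e k) = 3 := by
  rw [Chars.classInner_def, card_H e]
  have h := sum_eq_sum_K e (fun f => phi (proj k f) * conj (phi (proj k f)))
  change (_ : ℂ) * ∑ h : H, phi (proj k (e h)) * conj (phi (proj k (e h))) = _
  rw [h]
  have h2 : ∀ f : K, phi (proj k f) * conj (phi (proj k f)) =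
      if f k * f k * f k = 1 ∧
        f k ≠ 1 then (9 : ℂ) else 0 := by
    intro f
    by_cases hc : f k * f k * f k = 1 ∧
        f k ≠ 1
    · rw [if_pos hc, show phi (proj k f) = 3 from if_pos hc]
      norm_num [map_ofNat]
    · rw [if_neg hc, show phi (proj k f) = 0 from if_neg hc]
      simp
  rw [Finset.sum_congr rfl fun f _ => h2 f, ← Finset.sum_filter, Finset.sum_const, card_theta k]
  norm_num

theorem theta_inner_one (k : Fin 2) : classInner (theta e k) (fun _ => 1) = 1 := by
  rw [Chars.classInner_def, card_H e]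
  have h := sum_eq_sum_K e (fun f => phi (proj k f) * conj (1 : ℂ))
  change (_ : ℂ) * ∑ h : H, phi (proj k (e h)) * conj (1 : ℂ) = _
  rw [h]
  have h2 : ∀ f : K, phi (proj k f) * conj (1 : ℂ) =
      if f k * f k * f k = 1 ∧
        f k ≠ 1 then (3 : ℂ) else 0 := by
    intro f
    by_cases hc : f k * f k * f k = 1 ∧
        f k ≠ 1
    · rw [if_pos hc, show phi (proj k f) = 3 from if_pos hc]
      simp
    · rw [if_neg hc, show phi (proj k f) = 0 from if_neg hc]
      simp
  rw [Finset.sum_congr rfl fun f _ => h2 f, ← Finset.sum_filter, Finset.sum_const, card_theta k]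
  norm_num

theorem eta_sub_norm {k l : Fin 2} (hkl : k ≠ l) :
    classInner (eta e k - eta e l) (eta e k - eta e l) = 12 := by
  classical
  rw [Chars.classInner_def, card_H e]
  have h2 : ∀ h : H, (eta e k - eta e l) h * conj ((eta e k - eta e l) h) =
      (fun f : K => (if EtaCond k f then (36 : ℂ) else 0) + (if EtaCond l f then 36 else 0)) (e h) := by
    intro h
    simp only [Pi.sub_apply, eta_apply]
    by_cases hk : EtaCond k (e h)
    · rw [if_pos hk, if_pos hk, if_neg (eta_disjoint k l hkl _ hk),
        if_neg (eta_disjoint k l hkl _ hk)]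
      norm_num [map_ofNat]
    · rw [if_neg hk, if_neg hk]
      split_ifs <;> norm_num [map_ofNat]
  rw [Finset.sum_congr rfl fun h _ => h2 h, sum_eq_sum_K e
    (fun f : K => (if EtaCond k f then (36 : ℂ) else 0) + (if EtaCond l f then 36 else 0)),
    Finset.sum_add_distrib,
    ← Finset.sum_filter, ← Finset.sum_filter, Finset.sum_const, Finset.sum_const]
  rw [card_eta k, card_eta l]
  norm_num

/-- The multiplicity in the induced twisted character is a character value. -/
theorem eta_inner {ψ : G → ℂ} (hψ : IsCharacter G ψ) (k : Fin 2) :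
    classInner (eta e k) (fun h : H => ψ h) = conj (ψ (sixG e k)) := by
  classical
  rw [Chars.classInner_def, card_H e]
  have h2 : ∀ h : H, eta e k h * conj (ψ h) =
      (fun f : K => if EtaCond k f then 6 * conj (ψ (sixG e k)) else 0) (e h) := by
    intro h
    simp only [eta_apply]
    split_ifs with hs
    · obtain ⟨c, hc⟩ := eta_conj k _ hs
      congr 2
      have hh : (h : G) = (e.symm c : G) * sixG e k * (e.symm c : G)⁻¹ := by
        have : h = e.symm c * e.symm (six k) * (e.symm c)⁻¹ := by
          apply e.injective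
          simp [hc]
        rw [this]; simp [sixG]
      rw [hh, Chars.isCharacter_conj_apply hψ]
    · simp
  rw [Finset.sum_congr rfl fun h _ => h2 h,
    sum_eq_sum_K e (fun f : K => if EtaCond k f then 6 * conj (ψ (sixG e k)) else 0),
    ← Finset.sum_filter, Finset.sum_const]
  rw [card_eta k]
  simp only [nsmul_eq_mul]
  push_cast
  ring

/-- The three classes of involutions do not fuse. -/
theorem eq_of_isConj (hA : IsTISection H (setA H)) {k l : Fin 2}
    (hconj : IsConj (invG e k) (invG e l)) : k = l := by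
  by_contra hkl
  have hv : ∀ j, IsGeneralizedCharacter G (indFun H (eta e j)) :=
    fun j => virt_indFun H (eta_virt e j)
  have hD := virt_sub (hv k) (hv l)
  have hnorm : classInner (indFun H (eta e k) - indFun H (eta e l))
      (indFun H (eta e k) - indFun H (eta e l)) = 12 := by
    rw [← Chars.indFun_sub]
    have hs : ∀ h : H, (eta e k - eta e l) h ≠ 0 → (h : G) ∈ setA H := by
      intro h hne
      by_contra hc
      apply hne
      have h1 : eta e k h = 0 := not_not.mp fun h' => hc (eta_supp e k h h')
      have h2 : eta e l h = 0 := not_not.mp fun h' => hc (eta_supp e l h h')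
      simp [h1, h2]
    have hcf : IsClassFunction H (eta e k - eta e l) :=
      virt_isClassFunction (virt_sub (eta_virt e k) (eta_virt e l))
    rw [hA.classInner_indFun_indFun hcf hcf hs hs, eta_sub_norm e hkl]
  obtain ⟨m, hm, -, hsq⟩ := exists_eq_sum_zsmul hD
  obtain ⟨ε, hε⟩ : ∃ ε : ℂ, IsPrimitiveRoot ε 3 :=
    ⟨_, Complex.isPrimitiveRoot_exp 3 (by norm_num)⟩
  have hdvd : ∀ ψ : IrrCharacter G, (3 : ℤ) ∣ m ψ := by
    intro ψ
    have hψc := Chars.irr_isCharacter ψ
    have hint : ∀ j, ∃ n : ℤ, classInner (indFun H (eta e j)) (ψ : G → ℂ) = n ∧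
        (ψ : G → ℂ) (sixG e j) = n := by
      intro j
      obtain ⟨n, hn⟩ := exists_classInner_eq_int (hv j) (virt_of_irr ψ.2)
      refine ⟨n, hn, ?_⟩
      rw [Chars.classInner_indFun H (eta e j) (Chars.isClassFunction_of_isCharacter hψc),
        eta_inner e hψc j] at hn
      rw [← Complex.conj_conj ((ψ : G → ℂ) (sixG e j)), hn, map_intCast]
    obtain ⟨a, ha, ha'⟩ := hint k
    obtain ⟨b, hb, hb'⟩ := hint l
    have hab : m ψ = a - b := by
      have h := hm ψ
      rw [Chars.classInner_sub_left, ha, hb] at h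
      exact_mod_cast h.symm
    have h6 : ∀ j, sixG e j ^ 6 = 1 := fun j => by
      rw [sixG, ← Subgroup.coe_pow, ← map_pow, six_pow, map_one, Subgroup.coe_one]
    obtain ⟨w, hw, hwe⟩ := char_sub_cube hψc (h6 k) hε
    obtain ⟨w', hw', hwe'⟩ := char_sub_cube hψc (h6 l) hε
    obtain ⟨c, hc⟩ := isConj_iff.mp hconj
    have heq : (ψ : G → ℂ) (sixG e k ^ 3) = (ψ : G → ℂ) (sixG e l ^ 3) := by
      rw [← invG_eq, ← invG_eq, ← hc, Chars.isCharacter_conj_apply hψc]
    rw [hab]
    refine prime_dvd_of_primitive_root Nat.prime_three hε (hw.sub hw') ?_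
    push_cast
    linear_combination hwe - hwe' - ha' + hb' + heq
  have h9 : (9 : ℤ) ∣ ∑ ψ : IrrCharacter G, m ψ ^ 2 :=
    Finset.dvd_sum fun ψ _ => by
      obtain ⟨d, hd⟩ := hdvd ψ
      exact ⟨d ^ 2, by rw [hd]; ring⟩
  have h12 : ∑ ψ : IrrCharacter G, m ψ ^ 2 = 12 := by
    rw [hnorm] at hsq
    exact_mod_cast hsq.symm
  rw [h12] at h9
  norm_num at h9


end Cfsg.Agent.OddChar.S3Squared
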