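import Cfsg.Agent.OddChar.S3SquaredTI
import Cfsg.Agent.OddChar.Wreath72Count

/-!
A group with a subgroup isomorphic to the product of two symmetric groups of degree three which is
the normaliser of a Sylow subgroup and contains the centralisers of its elements of order three is
that subgroup. When two classes of involutions fuse, a double counting of pairs of involutions in
the whole group and in the centraliser of the third involution gives a parity contradiction.
-/

set_option autoImplicit false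

open Cfsg
open scoped Classical ComplexConjugate

namespace Cfsg.Agent.OddChar.S3Squared

open S3Cubed (S3 cyc tr setA virt_indFun)

variable {G : Type*} [Group G] [Fintype G] {H : Subgroup G} [Fintype H]

/-- The element of the group belonging to a triple. -/
def el (e : H ≃* K) (f : K) : G := (e.symm f : G)

section

variable (e : H ≃* K) {M : Sylow 3 G}

theorem el_mul (a b : K) : el e (a * b) = el e a * el e b := by simp [el]
theorem el_inv (a : K) : el e a⁻¹ = (el e a)⁻¹ := by simp [el]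
theorem el_one : el e 1 = 1 := by simp [el]
theorem el_apply (h : H) : el e (e h) = h := by simp [el]
theorem el_mem (f : K) : el e f ∈ H := (e.symm f).2
theorem el_inj {a b : K} (h : el e a = el e b) : a = b := e.symm.injective (Subtype.ext h)
theorem el_isConj {a b : K} (h : ∃ c, c * a * c⁻¹ = b) : IsConj (el e a) (el e b) := by
  obtain ⟨c, rfl⟩ := h
  exact isConj_iff.mpr ⟨el e c, by rw [el_mul, el_mul, el_inv]⟩

theorem mem_sylow (A : Wreath72.Ambient M H) {x : G} (hx : x ∈ H) (h3 : x ^ 3 = 1) :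
    x ∈ (M : Subgroup G) := by
  haveI : Fact (Nat.Prime 3) := ⟨Nat.prime_three⟩
  have hK : IsPGroup 3 (Subgroup.zpowers x) := by
    rintro ⟨y, hy⟩
    obtain ⟨k, rfl⟩ := Subgroup.mem_zpowers_iff.mp hy
    refine ⟨1, Subtype.ext ?_⟩
    show (x ^ k) ^ 3 ^ 1 = 1
    rw [pow_one, ← zpow_natCast, ← zpow_mul, mul_comm, zpow_mul, zpow_natCast, h3, one_zpow]
  have hle : Subgroup.zpowers x ≤ Subgroup.normalizer ((M : Subgroup G) : Set G) := by
    rw [← A.norm]; exact Subgroup.zpowers_le.mpr hx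
  have hsup : IsPGroup 3 ((M : Subgroup G) ⊔ Subgroup.zpowers x : Subgroup G) :=
    M.isPGroup'.to_sup_of_normal_left' hK hle
  rw [← M.is_maximal' hsup le_sup_left]
  exact Subgroup.mem_sup_right (Subgroup.mem_zpowers x)

theorem el_cube (A : Wreath72.Ambient M H) {f : K} (hf : f ^ 3 = 1) : el e f ∈ (M : Subgroup G) := by
  refine mem_sylow A (el_mem e f) ?_
  rw [el, ← Subgroup.coe_pow, ← map_pow, hf, map_one, Subgroup.coe_one]

theorem sylow_cube (A : Wreath72.Ambient M H) {x : G} (hx : x ∈ (M : Subgroup G)) :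
    ∃ f : K, f ^ 3 = 1 ∧ el e f = x := by
  refine ⟨e ⟨x, A.le hx⟩, ?_, el_apply e _⟩
  rw [← map_pow, show (⟨x, A.le hx⟩ : H) ^ 3 = 1 from Subtype.ext (A.exp x hx), map_one]

include e in
theorem isTI (A : Wreath72.Ambient M H) : IsTISection H (setA H) := by
  have hfuse : ∀ g : G, ∀ a ∈ setA H, g * a * g⁻¹ ∈ setA H → g ∈ H := by
    intro g a ha hga
    have h4 : ∀ b ∈ setA H, b ^ 4 ∈ (M : Subgroup G) ∧ b ^ 4 ≠ 1 := by
      rintro b ⟨hb, hb4⟩
      refine ⟨mem_sylow A (H.pow_mem hb 4) ?_, hb4⟩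
      have h : (⟨b, hb⟩ : H) ^ 6 = 1 := e.injective (by rw [map_pow, pow_six, map_one])
      have h' : b ^ 6 = 1 := congrArg Subtype.val h
      rw [← pow_mul, show 4 * 3 = 6 * 2 from rfl, pow_mul, h', one_pow]
    obtain ⟨hm, hm1⟩ := h4 a ha
    obtain ⟨hm', hm1'⟩ := h4 _ hga
    rw [conj_pow] at hm' hm1'
    rw [A.norm]
    refine Subgroup.mem_normalizer_fintype (S := ((M : Subgroup G) : Set G)) fun x hx => ?_
    refine mem_sylow A (A.loc _ hm' hm1' (Subgroup.mem_centralizer_singleton_iff.mpr ?_)) ?_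
    · have hm'' : a ^ 4 ∈ Subgroup.centralizer ((M : Subgroup G) : Set G) := by rw [A.self]; exact hm
      have hc := Subgroup.mem_centralizer_iff.mp hm'' x hx
      calc g * x * g⁻¹ * (g * a ^ 4 * g⁻¹) = g * (x * a ^ 4) * g⁻¹ := by group
        _ = g * (a ^ 4 * x) * g⁻¹ := by rw [hc]
        _ = g * a ^ 4 * g⁻¹ * (g * x * g⁻¹) := by group
    · rw [conj_pow, A.exp x hx, mul_one, mul_inv_cancel]
  refine ⟨fun a ha => ha.1, hfuse, fun g a ha hga => hfuse g a ha ?_⟩
  rw [hga]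
  exact ⟨inv_mem ha.1, by rw [inv_pow]; exact fun h => ha.2 (inv_eq_one.mp h)⟩

theorem cyc_setA {h : H} {k : Fin 2} (hc : IsCyc (e h k)) : (h : G) ∈ setA H := by
  refine ⟨h.2, fun h4 => four_ne_one _ k hc ?_⟩
  rw [← map_pow, show h ^ 4 = 1 from Subtype.ext (by simpa using h4), map_one]

/-- An involution whose conjugates in the subgroup are trivial at `k` lies in a normal subgroup. -/
theorem exists_normal (hA : IsTISection H (setA H)) (k : Fin 2) {t : G} (ht : t * t = 1)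
    (hu : ∀ u : H, IsConj t (u : G) → e u k = 1) :
    ∃ L : Subgroup G, L.Normal ∧ t ∈ L ∧ ∀ h : H, (h : G) ∈ L → ¬ IsCyc (e h k) := by
  have hcf : IsClassFunction H (theta e k) := virt_isClassFunction (theta_virt e k)
  have hθ1 : theta e k 1 = 0 := by simp [theta, S3Cubed.phi]
  have hsupp := theta_supp e k
  obtain ⟨L, hL, htL, hL0⟩ := exists_normal_of_vanish (z := t)
    (virt_indFun H (theta_virt e k))
    (by rw [hA.classInner_indFun_indFun hcf hcf hsupp hsupp, theta_norm e k])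
    (by
      rw [Chars.classInner_indFun H _ (fun _ _ => rfl)]
      exact theta_inner_one e k)
    (by rw [Chars.indFun_apply_one, hθ1, mul_zero])
    (indFun_eq_zero_of_forall hsupp fun x hx => hx.2 (by
      rw [conj_pow, show (4 : ℕ) = 2 * 2 from rfl, pow_mul, sq t, ht, one_pow, mul_one,
        mul_inv_cancel]))
    (fun y hy => hA.indFun_mul_eq_zero hsupp ht hy fun u v hu' hv' => by
      simp [theta, S3Cubed.phi, map_mul, comp_apply, hu u hu', hu v hv'])
  refine ⟨L, hL, htL, fun h hm hc => ?_⟩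
  have h0 := hL0 _ hm
  rw [hA.indFun_eq hcf hsupp (cyc_setA e hc)] at h0
  have h3 : theta e k h = 3 := if_pos hc
  rw [h3] at h0
  norm_num at h0

theorem coord_of_mem (A : Wreath72.Ambient M H) {L : Subgroup G} {k : Fin 2}
    (hL : ∀ h : H, (h : G) ∈ L → ¬ IsCyc (e h k)) {x : G} (hx : x ∈ (M : Subgroup G)) (hxL : x ∈ L) :
    ∃ f : K, f ^ 3 = 1 ∧ f k = 1 ∧ el e f = x := by
  obtain ⟨f, hf, rfl⟩ := sylow_cube e A hx
  refine ⟨f, hf, cube_coord f k hf ?_, rfl⟩
  have := hL (e.symm f) hxL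
  rwa [MulEquiv.apply_symm_apply] at this

/-- Every involution is conjugate into the subgroup. -/
theorem exists_conj (A : Wreath72.Ambient M H) {t : G} (ht : t * t = 1) (ht1 : t ≠ 1) :
    (∃ k, IsConj (el e (inv' k)) t) ∨ IsConj (el e zb) t := by
  by_contra hno
  push Not at hno
  have hnone : ∀ u : H, ¬ IsConj t (u : G) := by
    intro u hu
    obtain ⟨c, hc⟩ := isConj_iff.mp hu
    have h2 : e u * e u = 1 := by
      rw [← map_mul, show u * u = 1 from Subtype.ext ?_, map_one]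
      rw [Subgroup.coe_mul, ← hc]
      calc c * t * c⁻¹ * (c * t * c⁻¹) = c * (t * t) * c⁻¹ := by group
        _ = 1 := by rw [ht, mul_one, mul_inv_cancel]
    have h1 : e u ≠ 1 := by
      intro h
      rw [← el_apply e u, h, el_one] at hc
      exact ht1 (conj_eq_one_iff.mp hc)
    rcases involution_cases _ h2 h1 with ⟨k, h⟩ | h <;>
      have := el_isConj e h <;> rw [el_apply] at this
    · exact hno.1 k (this.trans hu.symm)
    · exact hno.2 (this.trans hu.symm)
  obtain ⟨L0, hn0, ht0, h0⟩ := exists_normal e (isTI e A) 0 ht fun u hu => absurd hu (hnone u)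
  obtain ⟨L1, hn1, ht1', h1⟩ := exists_normal e (isTI e A) 1 ht fun u hu => absurd hu (hnone u)
  haveI := hn0
  haveI := hn1
  have hbot := A.normal_bot (K := L0 ⊓ L1) (by
    rw [eq_bot_iff]
    rintro x ⟨⟨hx0, hx1⟩, hxM⟩
    obtain ⟨f, -, hf0, rfl⟩ := coord_of_mem e A h0 hxM hx0
    obtain ⟨f', -, hf1, hff⟩ := coord_of_mem e A h1 hxM hx1
    obtain rfl := el_inj e hff
    rw [Subgroup.mem_bot, show f' = 1 from funext fun j => by fin_cases j <;> assumption, el_one])
  exact ht1 (Subgroup.mem_bot.mp (hbot ▸ (⟨ht0, ht1'⟩ : t ∈ L0 ⊓ L1)))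

theorem isConj_inv_ne (A : Wreath72.Ambient M H) {k l : Fin 2}
    (h : IsConj (el e (inv' k)) (el e (inv' l))) : k = l :=
  eq_of_isConj e (isTI e A) h

/-- The normal subgroup through an involution not fused with the double one. -/
theorem exists_normal_inv (A : Wreath72.Ambient M H) (k : Fin 2)
    (hk : ¬ IsConj (el e (inv' k)) (el e zb)) :
    ∃ L : Subgroup G, L.Normal ∧ el e (inv' k) ∈ L ∧ (∀ h : H, (h : G) ∈ L → ¬ IsCyc (e h k)) ∧
      ∀ f : K, f ^ 3 = 1 → f k = 1 → el e f ∈ L := by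
  obtain ⟨hz, hz1, -, hzk⟩ := inv_facts k
  have ht : el e (inv' k) * el e (inv' k) = 1 := by rw [← el_mul, hz, el_one]
  obtain ⟨L, hn, htL, hL⟩ := exists_normal e (isTI e A) k ht fun u hu => by
    obtain ⟨c, hc⟩ := isConj_iff.mp hu
    have h2 : e u * e u = 1 := by
      rw [← map_mul, show u * u = 1 from Subtype.ext ?_, map_one]
      rw [Subgroup.coe_mul, ← hc]
      calc c * el e (inv' k) * c⁻¹ * (c * el e (inv' k) * c⁻¹) =
            c * (el e (inv' k) * el e (inv' k)) * c⁻¹ := by group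
        _ = 1 := by rw [ht, mul_one, mul_inv_cancel]
    have h1 : e u ≠ 1 := by
      intro h
      rw [← el_apply e u, h, el_one] at hc
      exact hz1 (el_inj e ((conj_eq_one_iff.mp hc).trans (el_one e).symm))
    rcases involution_cases _ h2 h1 with ⟨l, d, hd⟩ | hd
    · have := el_isConj e ⟨d, hd⟩
      rw [el_apply] at this
      obtain rfl := isConj_inv_ne e A (hu.trans this.symm)
      rw [← hd, hzk]
    · have := el_isConj e hd
      rw [el_apply] at this
      exact absurd (hu.trans this.symm) hk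
  refine ⟨L, hn, htL, hL, fun f hf hfk => ?_⟩
  obtain ⟨y, hy⟩ := commutator_at k f hf hfk
  rw [← hy, show inv' k * y * (inv' k)⁻¹ * y⁻¹ = inv' k * (y * (inv' k)⁻¹ * y⁻¹) by group, el_mul,
    el_mul, el_mul, el_inv, el_inv]
  exact L.mul_mem htL (hn.conj_mem _ (L.inv_mem htL) _)

/-- Without fusion the Sylow subgroup is normal. -/
theorem normal_of_not_fused (A : Wreath72.Ambient M H)
    (h : ∀ k, ¬ IsConj (el e (inv' k)) (el e zb)) : H = ⊤ := by
  choose L hn htL hL hmem using fun k => exists_normal_inv e A k (h k)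
  haveI : (L 0).Normal := hn 0
  haveI : (L 1).Normal := hn 1
  have hbot := A.normal_bot (K := L 0 ⊓ L 1) (by
    rw [eq_bot_iff]
    rintro x ⟨⟨hx0, hx1⟩, hxM⟩
    obtain ⟨f, -, hf0, rfl⟩ := coord_of_mem e A (hL 0) hxM hx0
    obtain ⟨f', -, hf1, hff⟩ := coord_of_mem e A (hL 1) hxM hx1
    obtain rfl := el_inj e hff
    rw [Subgroup.mem_bot, show f' = 1 from funext fun j => by fin_cases j <;> assumption, el_one])
  have hcomm : ∀ a ∈ L 0, ∀ b ∈ L 1, a * b = b * a := by
    intro a ha b hb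
    have hm : a * b * a⁻¹ * b⁻¹ ∈ L 0 ⊓ L 1 := ⟨by
      rw [show a * b * a⁻¹ * b⁻¹ = a * (b * a⁻¹ * b⁻¹) by group]
      exact (L 0).mul_mem ha ((hn 0).conj_mem _ (inv_mem ha) _),
      (L 1).mul_mem ((hn 1).conj_mem _ hb a) (inv_mem hb)⟩
    rw [hbot, Subgroup.mem_bot, mul_inv_eq_one, mul_inv_eq_iff_eq_mul] at hm
    exact hm
  have hle : ∀ k, L k ≤ H := by
    intro k u hu
    obtain ⟨f, hf3, hf1, hfk⟩ := exists_trivial_at (oth k)
    refine A.loc _ (el_cube e A hf3) (fun h => hf1 (el_inj e (h.trans (el_one e).symm)))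
      (Subgroup.mem_centralizer_singleton_iff.mpr ?_)
    have hfm := hmem (oth k) f hf3 hfk
    fin_cases k
    · exact hcomm _ hu _ hfm
    · exact (hcomm _ hfm _ hu).symm
  rw [eq_top_iff]
  intro g _
  rw [A.norm]
  refine Subgroup.mem_normalizer_fintype (S := ((M : Subgroup G) : Set G)) fun x hx => ?_
  obtain ⟨f, hf, rfl⟩ := sylow_cube e A hx
  obtain ⟨a, b, ha, hb, ha0, hb1, rfl⟩ := split_cube f hf
  rw [el_mul, show g * (el e a * el e b) * g⁻¹ = g * el e a * g⁻¹ * (g * el e b * g⁻¹) by group]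
  have hk : ∀ (k : Fin 2) (a : K), a ^ 3 = 1 → a k = 1 → g * el e a * g⁻¹ ∈ (M : Subgroup G) := by
    intro k a ha hak
    refine mem_sylow A (hle k ((hn k).conj_mem _ (hmem k a ha hak) g)) ?_
    rw [conj_pow, A.exp _ (el_cube e A ha), mul_one, mul_inv_cancel]
  exact Subgroup.mul_mem _ (hk 0 a ha ha0) (hk 1 b hb hb1)

/-- The projection of the whole group, when one involution is not fused. -/
theorem exists_proj (A : Wreath72.Ambient M H) (k : Fin 2)
    (hk : ¬ IsConj (el e (inv' k)) (el e zb)) :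
    ∃ π : G →* S3, ∀ f : K, π (el e f) = f k := by
  haveI : Fact (Nat.Prime 3) := ⟨Nat.prime_three⟩
  obtain ⟨L, hn, htL, hL, hmem⟩ := exists_normal_inv e A k hk
  haveI := hn
  have hin : ∀ f : K, el e f ∈ L ↔ f k = 1 := by
    intro f
    constructor
    · intro hf
      by_contra hfk
      have hnc : ¬ IsCyc (f k) := by
        have := hL (e.symm f) hf
        rwa [MulEquiv.apply_symm_apply] at this
      obtain ⟨y, hy⟩ := trans_commutator k f hfk hnc
      have hm : el e (f * y * f⁻¹ * y⁻¹) ∈ L := by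
        rw [show f * y * f⁻¹ * y⁻¹ = f * (y * f⁻¹ * y⁻¹) by group, el_mul, el_mul, el_mul, el_inv,
          el_inv]
        exact L.mul_mem hf (hn.conj_mem _ (inv_mem hf) _)
      have := hL (e.symm (f * y * f⁻¹ * y⁻¹)) hm
      rw [MulEquiv.apply_symm_apply] at this
      exact this hy
    · intro hfk
      have hcom : ∀ y, el e (inv' k * y * (inv' k)⁻¹ * y⁻¹) ∈ L := fun y => by
        rw [show inv' k * y * (inv' k)⁻¹ * y⁻¹ = inv' k * (y * (inv' k)⁻¹ * y⁻¹) by group, el_mul,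
          el_mul, el_mul, el_inv, el_inv]
        exact L.mul_mem htL (hn.conj_mem _ (L.inv_mem htL) _)
      rcases coord_one_cases k f hfk with ⟨y, hy⟩ | ⟨y, hy⟩
      · exact hy ▸ hcom y
      · have h := L.mul_mem (L.inv_mem htL) (hy ▸ hcom y)
        rwa [el_mul, inv_mul_cancel_left] at h
  -- the Frattini argument
  set X := (M : Subgroup G) ⊓ L with hX
  obtain ⟨Q⟩ : Nonempty (Sylow 3 L) := inferInstance
  obtain ⟨P, hP⟩ := (Q.2.map L.subtype).exists_le_sylow
  obtain ⟨c, hc⟩ := MulAction.exists_smul_eq G P M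
  set Q' : Sylow 3 L := (MulAut.conjNormal c : MulAut L) • Q with hQ'
  have hQ'M : ∀ q : L, q ∈ Q' → (q : G) ∈ (M : Subgroup G) := by
    intro q hq
    obtain ⟨r, hr, rfl⟩ := hq
    rw [← hc]
    exact ⟨(r : G), hP ⟨r, hr, rfl⟩, by simp [MulAut.conjNormal_apply]⟩
  have hMQ' : ∀ q : L, (q : G) ∈ (M : Subgroup G) → q ∈ Q' := by
    have hle : (Q' : Subgroup L) ≤ (M : Subgroup G).subgroupOf L := fun q hq => hQ'M q hq
    have hp : IsPGroup 3 ((M : Subgroup G).subgroupOf L) :=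
      M.isPGroup'.comap_of_injective L.subtype L.subtype_injective
    intro q hq
    show q ∈ (Q' : Subgroup L)
    rw [← Q'.3 hp hle]
    exact hq
  have hsup : H ⊔ L = ⊤ := by
    rw [eq_top_iff, ← Sylow.normalizer_sup_eq_top Q']
    refine sup_le_sup_right (fun g hg => ?_) _
    obtain ⟨f, hf3, hf1, hfk⟩ := exists_trivial_at k
    have hfM := el_cube e A hf3
    have hfL := hmem f hf3 hfk
    obtain ⟨r, hr, hre⟩ := (Subgroup.mem_normalizer_iff.mp hg _).mp
      (⟨⟨_, hfL⟩, hMQ' ⟨_, hfL⟩ hfM, rfl⟩ : el e f ∈ (Q' : Subgroup L).map L.subtype)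
    have hfA : ∀ x ∈ (M : Subgroup G), x ≠ 1 → x ∈ setA H := fun x hx hx1 =>
      ⟨A.le hx, fun h4 => hx1 (by rw [pow_succ, A.exp x hx, one_mul] at h4; exact h4)⟩
    have hf1' : el e f ≠ 1 := fun h => hf1 (el_inj e (h.trans (el_one e).symm))
    refine (isTI e A).fuse g _ (hfA _ hfM hf1') ?_
    rw [← hre]
    exact hfA _ (hQ'M r hr) fun h => hf1' (conj_eq_one_iff.mp (hre.symm.trans h))
  have hdec : ∀ g : G, ∃ f : K, (el e f)⁻¹ * g ∈ L := by
    intro g
    obtain ⟨a, ha, m, hm, rfl⟩ := Subgroup.mem_sup_of_normal_right.mp (hsup ▸ Subgroup.mem_top g)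
    exact ⟨e ⟨a, ha⟩, by rw [el_apply]; simpa using hm⟩
  choose π hπ using hdec
  have huniq : ∀ (g : G) (f : K), (el e f)⁻¹ * g ∈ L → π g k = f k := by
    intro g f hf
    have h := L.mul_mem (hπ g) (L.inv_mem hf)
    rw [show (el e (π g))⁻¹ * g * ((el e f)⁻¹ * g)⁻¹ = el e ((π g)⁻¹ * f) by
      rw [el_mul, el_inv]; group, hin, Pi.mul_apply, Pi.inv_apply, inv_mul_eq_one] at h
    exact h
  refine ⟨MonoidHom.mk' (fun g => π g k) fun a b => ?_, fun f => huniq _ f (by simp)⟩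
  show π (a * b) k = π a k * π b k
  rw [← Pi.mul_apply]
  refine huniq _ _ ?_
  rw [el_mul, mul_inv_rev, show (el e (π b))⁻¹ * (el e (π a))⁻¹ * (a * b) =
    (el e (π b))⁻¹ * ((el e (π a))⁻¹ * a) * el e (π b) * ((el e (π b))⁻¹ * b) by group]
  exact L.mul_mem (by simpa using hn.conj_mem _ (hπ a) (el e (π b))⁻¹) (hπ b)

theorem card_range_fibre (π : G →* S3) (D : Subgroup G)
    (hD : ∀ p : S3, ∃ d ∈ D, π d = p) (p : S3) :
    (Finset.univ.filter fun g : G => g ∈ D ∧ π g = p).card =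
      (Finset.univ.filter fun g : G => g ∈ D ∧ π g = 1).card := by
  obtain ⟨d, hd, rfl⟩ := hD p
  refine Finset.card_bij' (fun g _ => d⁻¹ * g) (fun g _ => d * g) ?_ ?_ (by simp) (by simp)
  · intro g hg
    obtain ⟨-, h1, h2⟩ := Finset.mem_filter.mp hg
    exact Finset.mem_filter.mpr ⟨Finset.mem_univ _, D.mul_mem (D.inv_mem hd) h1, by
      rw [map_mul, map_inv, h2, inv_mul_cancel]⟩
  · intro g hg
    obtain ⟨-, h1, h2⟩ := Finset.mem_filter.mp hg
    exact Finset.mem_filter.mpr ⟨Finset.mem_univ _, D.mul_mem hd h1, by rw [map_mul, h2, mul_one]⟩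

/-- The pairs of involutions in a subgroup with product over a three-cycle. -/
theorem pairs_eq (π : G →* S3) (D : Subgroup G) (hD : ∀ p : S3, ∃ d ∈ D, π d = p) {p₀ : S3}
    (hp₀ : p₀ * p₀ = 1 ∧ p₀ ≠ 1) :
    6 * (Finset.univ.filter fun u : G => u ∈ D ∧ u * u = 1 ∧ π u = p₀).card ^ 2 =
      ∑ g ∈ Finset.univ.filter (fun g : G => g ∈ D ∧ IsCyc (π g)),
        (Finset.univ.filter fun u : G => u ∈ D ∧ u * u = 1 ∧ π u ≠ 1 ∧ u * g * u⁻¹ = g⁻¹).card := by
  set I := fun p : S3 => Finset.univ.filter fun u : G => u ∈ D ∧ u * u = 1 ∧ π u = p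
  set i := (I p₀).card with hi
  have hI : ∀ p, p * p = 1 → p ≠ 1 → (I p).card = i := by
    intro p hp hp1
    obtain ⟨c, -, rfl⟩ := trans_conj p₀ p hp₀.1 hp₀.2 hp hp1
    obtain ⟨d, hd, rfl⟩ := hD c
    refine Finset.card_bij' (fun u _ => d⁻¹ * u * d) (fun u _ => d * u * d⁻¹) ?_ ?_ (fun u _ => by group)
      (fun u _ => by group)
    · intro u hu
      obtain ⟨-, h1, h2, h3⟩ := Finset.mem_filter.mp hu
      refine Finset.mem_filter.mpr ⟨Finset.mem_univ _, D.mul_mem (D.mul_mem (D.inv_mem hd) h1) hd, ?_, ?_⟩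
      · calc d⁻¹ * u * d * (d⁻¹ * u * d) = d⁻¹ * (u * u) * d := by group
          _ = 1 := by rw [h2, mul_one, inv_mul_cancel]
      · rw [map_mul, map_mul, map_inv, h3]; group
    · intro u hu
      obtain ⟨-, h1, h2, h3⟩ := Finset.mem_filter.mp hu
      refine Finset.mem_filter.mpr ⟨Finset.mem_univ _, D.mul_mem (D.mul_mem hd h1) (D.inv_mem hd), ?_, ?_⟩
      · calc d * u * d⁻¹ * (d * u * d⁻¹) = d * (u * u) * d⁻¹ := by group
          _ = 1 := by rw [h2, mul_one, mul_inv_cancel]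
      · rw [map_mul, map_mul, map_inv, h3]
  set U := Finset.univ.filter fun u : G => u ∈ D ∧ u * u = 1 ∧ π u ≠ 1
  have hUimg : ∀ u ∈ U, π u * π u = 1 ∧ π u ≠ 1 := fun u hu => by
    obtain ⟨-, -, h2, h3⟩ := Finset.mem_filter.mp hu
    exact ⟨by rw [← map_mul, h2, map_one], h3⟩
  have hfib : ∀ p, p * p = 1 → p ≠ 1 → U.filter (fun u => π u = p) = I p := by
    intro p _ hp1
    ext u
    simp only [U, I, Finset.mem_filter, Finset.mem_univ, true_and]
    constructor
    · rintro ⟨⟨h1, h2, -⟩, h3⟩; exact ⟨h1, h2, h3⟩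
    · rintro ⟨h1, h2, h3⟩; exact ⟨⟨h1, h2, h3 ▸ hp1⟩, h3⟩
  have hU : U.card = 3 * i := by
    rw [Finset.card_eq_sum_card_fiberwise (f := π)
      (t := Finset.univ.filter fun p : S3 => p * p = 1 ∧ p ≠ 1) fun u hu =>
        Finset.mem_filter.mpr ⟨Finset.mem_univ _, hUimg u hu⟩,
      Finset.sum_congr rfl (g := fun _ => i) fun p hp => by
        obtain ⟨-, h1, h2⟩ := Finset.mem_filter.mp hp
        rw [hfib p h1 h2, hI p h1 h2], Finset.sum_const, card_trans, smul_eq_mul]
  have hpairs : ∀ u ∈ U, (U.filter fun v => IsCyc (π (u * v))).card = 2 * i := by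
    intro u hu
    obtain ⟨hu2, hu1⟩ := hUimg u hu
    have hsplit : U.filter (fun v => IsCyc (π (u * v))) = U.filter fun v => ¬ π v = π u := by
      refine Finset.filter_congr fun v hv => ?_
      obtain ⟨hv2, hv1⟩ := hUimg v hv
      rw [map_mul, cyc_cases _ _ hu2 hv2 hu1 hv1, ne_comm]
    have h := Finset.card_filter_add_card_filter_not (s := U) (p := fun v => π v = π u)
    rw [hfib _ hu2 hu1, hI _ hu2 hu1, hU] at h
    rw [hsplit]
    omega
  have hLHS : (Finset.sigma U fun u => U.filter fun v => IsCyc (π (u * v))).card = 6 * i ^ 2 := by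
    rw [Finset.card_sigma, Finset.sum_congr rfl hpairs, Finset.sum_const, hU, smul_eq_mul]
    ring
  rw [← hLHS, ← Finset.card_sigma]
  symm
  refine Finset.card_bij' (fun x _ => ⟨x.2, x.2 * x.1⟩) (fun x _ => ⟨x.1 * x.2, x.1⟩) ?_ ?_ ?_ ?_
  · rintro ⟨g, u⟩ hx
    obtain ⟨hg, hu⟩ := Finset.mem_sigma.mp hx
    obtain ⟨-, hgD, hgc⟩ := Finset.mem_filter.mp hg
    obtain ⟨-, huD, hu2, hu1, hinv⟩ := Finset.mem_filter.mp hu
    have hπu2 : π u * π u = 1 := by rw [← map_mul, hu2, map_one]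
    refine Finset.mem_sigma.mpr ⟨Finset.mem_filter.mpr ⟨Finset.mem_univ _, huD, hu2, hu1⟩,
      Finset.mem_filter.mpr ⟨Finset.mem_filter.mpr ⟨Finset.mem_univ _, D.mul_mem huD hgD, ?_, ?_⟩, ?_⟩⟩
    · have hui : u⁻¹ = u := inv_eq_of_mul_eq_one_right hu2
      calc u * g * (u * g) = (u * g * u⁻¹) * g := by rw [hui]; group
        _ = 1 := by rw [hinv, inv_mul_cancel]
    · rw [map_mul]; exact trans_mul_cyc _ _ hπu2 hu1 hgc
    · show IsCyc (π (u * (u * g)))
      rwa [← mul_assoc, hu2, one_mul]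
  · rintro ⟨u, v⟩ hx
    obtain ⟨hu, hv'⟩ := Finset.mem_sigma.mp hx
    obtain ⟨hv, hc⟩ := Finset.mem_filter.mp hv'
    obtain ⟨-, huD, hu2, hu1⟩ := Finset.mem_filter.mp hu
    obtain ⟨-, hvD, hv2, -⟩ := Finset.mem_filter.mp hv
    refine Finset.mem_sigma.mpr ⟨Finset.mem_filter.mpr ⟨Finset.mem_univ _, D.mul_mem huD hvD, hc⟩,
      Finset.mem_filter.mpr ⟨Finset.mem_univ _, huD, hu2, hu1, ?_⟩⟩
    show u * (u * v) * u⁻¹ = (u * v)⁻¹
    rw [mul_inv_rev, ← mul_assoc, hu2, one_mul, inv_eq_of_mul_eq_one_right hv2]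
  · rintro ⟨g, u⟩ hx
    obtain ⟨-, hu⟩ := Finset.mem_sigma.mp hx
    obtain ⟨-, -, hu2, -, -⟩ := Finset.mem_filter.mp hu
    simp [← mul_assoc, hu2]
  · rintro ⟨u, v⟩ hx
    obtain ⟨hu, -⟩ := Finset.mem_sigma.mp hx
    obtain ⟨-, -, hu2, -⟩ := Finset.mem_filter.mp hu
    simp [← mul_assoc, hu2]

end

end Cfsg.Agent.OddChar.S3Squared
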