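import Cfsg.Agent.OddChar.Virtual
import Cfsg.Agent.Blocks.PPart
import Cfsg.Agent.Chars.Eigen
import Cfsg.Agent.Chars.Induced
import Cfsg.Prelude.Def_Blocks

/-!
The `p`-regular classes are separated by the characters modulo `p`.
-/

set_option autoImplicit false
set_option linter.unusedSectionVars false

open scoped Classical ComplexConjugate

namespace Cfsg.Agent.OddChar

universe u

variable {p : ℕ} [hp : Fact p.Prime]

/-- `p` times an algebraic integer. -/
def PDiv (p : ℕ) (z : ℂ) : Prop := IsIntegral ℤ (z / (p : ℂ))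

theorem pDiv_zero : PDiv p 0 := by simpa [PDiv] using isIntegral_zero

theorem PDiv.add {a b : ℂ} (ha : PDiv p a) (hb : PDiv p b) : PDiv p (a + b) := by
  unfold PDiv at *; rw [add_div]; exact IsIntegral.add ha hb

theorem PDiv.neg {a : ℂ} (ha : PDiv p a) : PDiv p (-a) := by
  unfold PDiv at *; rw [neg_div]; exact IsIntegral.neg ha

theorem PDiv.mul {a c : ℂ} (ha : PDiv p a) (hc : IsIntegral ℤ c) : PDiv p (c * a) := by
  unfold PDiv at *; rw [mul_div_assoc]; exact hc.mul ha

theorem pDiv_sum {ι : Type*} (s : Finset ι) (f : ι → ℂ) (h : ∀ i ∈ s, PDiv p (f i)) :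
    PDiv p (∑ i ∈ s, f i) :=
  Finset.sum_induction f (PDiv p) (fun _ _ => PDiv.add) pDiv_zero h

theorem pDiv_pow_sum {ι : Type*} (s : Finset ι) (z : ι → ℂ) (hz : ∀ i ∈ s, IsIntegral ℤ (z i))
    (n : ℕ) : PDiv p ((∑ i ∈ s, z i) ^ p ^ n - ∑ i ∈ s, z i ^ p ^ n) := by
  induction s using Finset.induction_on with
  | empty => simp [zero_pow (pow_ne_zero n hp.out.ne_zero), pDiv_zero]
  | @insert a s ha ih =>
    rw [Finset.sum_insert ha, Finset.sum_insert ha]
    have h1 := ih fun i hi => hz i (Finset.mem_insert_of_mem hi)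
    set x : integralClosure ℤ ℂ := ⟨z a, hz a (Finset.mem_insert_self _ _)⟩
    set y : integralClosure ℤ ℂ :=
      ⟨∑ i ∈ s, z i, IsIntegral.sum _ fun i hi => hz i (Finset.mem_insert_of_mem hi)⟩
    obtain ⟨r, hr⟩ := (Commute.all x y).exists_add_pow_prime_pow_eq hp.out n
    have hr' := congrArg (fun w : integralClosure ℤ ℂ => (w : ℂ)) hr
    simp only [x, y] at hr'
    push_cast at hr'
    have h2 : PDiv p ((p : ℂ) * (z a * (∑ i ∈ s, z i) * r)) := by
      unfold PDiv
      rw [mul_div_cancel_left₀ _ (by exact_mod_cast hp.out.ne_zero)]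
      exact (x.2.mul y.2).mul r.2
    have := h2.add h1
    convert this using 1
    rw [hr']
    ring

variable {G : Type u} [Group G] [Fintype G]

theorem pDiv_char_pow {χ : G → ℂ} (hχ : Cfsg.IsCharacter G χ) (x : G) (n : ℕ) :
    PDiv p (χ x ^ p ^ n - χ (x ^ p ^ n)) := by
  obtain ⟨m, ρ, rfl⟩ := hχ
  obtain ⟨z, hz, hc, -, -⟩ := Chars.exists_eigenvalues ρ x
  rw [show ρ.character x = ∑ i, z i by simpa using hc 1, hc]
  exact pDiv_pow_sum _ _ (fun i _ =>
    IsIntegral.of_pow (orderOf_pos x) (by rw [hz i]; exact isIntegral_one)) n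

/-- A `p`-regular product with a commuting `p`-element has trivial second factor. -/
theorem eq_one_of_regular_mul {v q : G} (hvq : Commute v q) (hv : ¬ p ∣ orderOf v)
    (h : ¬ p ∣ orderOf (v * q)) (hq : ∃ k : ℕ, orderOf q = p ^ k) : q = 1 := by
  obtain ⟨k, hk⟩ := hq
  have h1 : (v * q) ^ orderOf v = q ^ orderOf v := by
    rw [hvq.mul_pow, pow_orderOf_eq_one, one_mul]
  have h2 : orderOf (q ^ orderOf v) = 1 := by
    refine Nat.eq_one_of_dvd_coprimes (a := orderOf (v * q)) (b := p ^ k)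
      (Nat.Coprime.pow_right _ ((hp.out.coprime_iff_not_dvd.2 h).symm)) ?_ ?_
    · rw [← h1]; exact orderOf_pow_dvd _
    · rw [← hk]; exact orderOf_pow_dvd _
  have h3 : orderOf q ∣ orderOf v := orderOf_dvd_of_pow_eq_one (orderOf_eq_one_iff.mp h2)
  refine orderOf_eq_one_iff.mp (Nat.eq_one_of_dvd_coprimes (a := orderOf v) (b := p ^ k)
    (Nat.Coprime.pow_right _ ((hp.out.coprime_iff_not_dvd.2 hv).symm)) h3 (by rw [hk]))

/-- Characters modulo `p` separate the `p`-regular classes. -/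
theorem isConj_of_congr {u v : G} (hu : ¬ p ∣ orderOf u) (hv : ¬ p ∣ orderOf v)
    (h : ∀ χ : Cfsg.IrrCharacter G, PDiv p ((χ : G → ℂ) u - (χ : G → ℂ) v)) : IsConj u v := by
  by_contra hne
  set C := Subgroup.centralizer ({v} : Set G) with hC
  obtain ⟨Q⟩ : Nonempty (Sylow p C) := inferInstance
  set P : Subgroup G := (Q : Subgroup C).map C.subtype with hP
  have hPC : P ≤ C := Subgroup.map_subtype_le _
  have hPp : IsPGroup p P := Q.isPGroup'.map _
  have hvC : v ∈ C := Subgroup.mem_centralizer_singleton_iff.mpr rfl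
  set E : Subgroup G := (Subgroup.zpowers v ⊔ P) with hE
  have hvE : v ∈ E := Subgroup.mem_sup_left (Subgroup.mem_zpowers v)
  have hEC : E ≤ C := sup_le (Subgroup.zpowers_le.mpr hvC) hPC
  have hcomm : ∀ a ∈ C, v * a = a * v := fun a ha =>
    (Subgroup.mem_centralizer_singleton_iff.mp ha).symm
  have hEN : E ≤ Subgroup.normalizer (P : Set G) := by
    refine sup_le (Subgroup.zpowers_le.mpr (Subgroup.mem_normalizer_iff.mpr fun a => ?_))
      Subgroup.le_normalizer
    constructor
    · intro ha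
      rw [hcomm a (hPC ha), mul_inv_cancel_right]; exact ha
    · intro ha
      have h1 : v * (v * a * v⁻¹) = v * a := (hcomm _ (hPC ha)).trans (inv_mul_cancel_right _ _)
      rw [← mul_left_cancel h1]; exact ha
  haveI : (P.subgroupOf E).Normal := Subgroup.normal_subgroupOf_of_le_normalizer hEN
  set mk := QuotientGroup.mk' (P.subgroupOf E)
  set vb : E ⧸ P.subgroupOf E := mk ⟨v, hvE⟩ with hvb
  have hvcen : ∀ a : E ⧸ P.subgroupOf E, a * vb = vb * a := by
    intro a
    obtain ⟨e, rfl⟩ := QuotientGroup.mk'_surjective _ a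
    rw [hvb, ← map_mul, ← map_mul]
    exact congrArg _ (Subtype.ext (hcomm _ (hEC e.2)).symm)
  let θ : E → ℂ := fun e => if mk e = vb then (Nat.card (E ⧸ P.subgroupOf E) : ℂ) else 0
  have hθ : θ = ∑ χ : Cfsg.IrrCharacter (E ⧸ P.subgroupOf E),
      conj ((χ : _ → ℂ) vb) • (fun e : E => (χ : _ → ℂ) (mk e)) := by
    funext e
    rw [Finset.sum_apply]
    have hcol := Chars.column_orth (mk e) vb
    simp only [Pi.smul_apply, smul_eq_mul, mul_comm (conj _)]
    rw [hcol]
    simp only [θ]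
    by_cases he : mk e = vb
    · rw [if_pos he, if_pos (he ▸ IsConj.refl (mk e))]
      congr 1
      refine ((congrArg (fun S : Subgroup (E ⧸ P.subgroupOf E) => Nat.card S)
        (Subgroup.centralizer_eq_top_iff_subset.2 ?_)).trans Subgroup.card_top).symm
      intro a ha
      rw [Set.mem_singleton_iff] at ha
      subst ha
      rw [he]
      exact Subgroup.mem_center_iff.2 hvcen
    · rw [if_neg he, if_neg]
      intro hc
      obtain ⟨w, hw⟩ := isConj_iff.1 hc
      apply he
      have h1 : mk e = w⁻¹ * vb * w := by rw [← hw]; group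
      rw [h1, mul_assoc, ← hvcen, ← mul_assoc, inv_mul_cancel, one_mul]
  set F := Cfsg.indFun E θ with hF
  have hdiv : PDiv p (F u - F v) := by
    rw [hF, hθ, Chars.indFun_sum]
    simp only [Finset.sum_apply, ← Finset.sum_sub_distrib, Chars.indFun_smul, Pi.smul_apply, smul_eq_mul]
    refine pDiv_sum _ _ fun χ _ => ?_
    rw [← mul_sub]
    refine PDiv.mul ?_ ?_
    swap
    · rw [← Chars.char_inv_eq_conj (Chars.isCharacter_of_isIrr χ.2)]
      exact Chars.isIntegral_of_isCharacter (Chars.isCharacter_of_isIrr χ.2) _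
    have hch := Chars.isCharacter_indFun E
      (Chars.isCharacter_comp (Chars.isCharacter_of_isIrr χ.2) mk)
    obtain ⟨m, -, hm, -⟩ := exists_eq_sum_zsmul (virt_of_char hch)
    rw [show (fun e : E => (χ : E ⧸ P.subgroupOf E → ℂ) (mk e)) = (χ : E ⧸ P.subgroupOf E → ℂ) ∘ mk
      from rfl, hm]
    simp only [Finset.sum_apply, zsmul_eq_mul, Pi.mul_apply, Pi.intCast_apply, ← Finset.sum_sub_distrib, ← mul_sub]
    exact pDiv_sum _ _ fun ψ _ => (h ψ).mul (isIntegral_algebraMap (x := m ψ))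
  -- the support
  have hker : ∀ z : G, Cfsg.extendByZero E θ z =
      if v⁻¹ * z ∈ P then (Nat.card (E ⧸ P.subgroupOf E) : ℂ) else 0 := by
    intro z
    by_cases hz : z ∈ E
    · rw [Chars.extendByZero_of_mem E θ hz]
      simp only [θ, hvb, mk, QuotientGroup.mk'_apply]
      refine if_congr ?_ rfl rfl
      rw [eq_comm, QuotientGroup.eq, Subgroup.mem_subgroupOf]
      simp
    · rw [Chars.extendByZero_of_not_mem E θ hz, if_neg]
      intro hv'
      exact hz (by simpa using E.mul_mem hvE ((le_sup_right : P ≤ E) hv'))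
  have hreg : ∀ w g : G, ¬ p ∣ orderOf w → v⁻¹ * (g⁻¹ * w * g) ∈ P → g⁻¹ * w * g = v := by
    intro w g hw hmem
    set q := v⁻¹ * (g⁻¹ * w * g) with hq
    have hvq : v * q = g⁻¹ * w * g := by rw [hq, mul_inv_cancel_left]
    have ho : orderOf (v * q) = orderOf w := by
      rw [hvq, show g⁻¹ * w * g = MulAut.conj g⁻¹ w by simp, MulEquiv.orderOf_eq]
    have hq1 : q = 1 := eq_one_of_regular_mul (p := p) (hcomm q (hPC hmem)) hv (ho ▸ hw) (by
      obtain ⟨k, hk⟩ := (hPp.exists_orderOf_eq_pow ⟨q, hmem⟩)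
      exact ⟨k, by rwa [Subgroup.orderOf_mk] at hk⟩)
    rw [← hvq, hq1, mul_one]
  have hFu : F u = 0 := by
    rw [hF, Chars.indFun_apply]
    simp only [hker]
    rw [Finset.sum_eq_zero fun g _ => if_neg fun hg => hne ?_, mul_zero]
    exact isConj_iff.mpr ⟨g⁻¹, by simpa using hreg u g hu hg⟩
  have hcardE : Nat.card E = Nat.card (E ⧸ P.subgroupOf E) * Nat.card P := by
    rw [Subgroup.card_eq_card_quotient_mul_card_subgroup (P.subgroupOf E),
      Nat.card_congr (Subgroup.subgroupOfEquivOfLe (le_sup_right : P ≤ E)).toEquiv]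
  have hFv : F v = ((Q : Subgroup C).index : ℂ) := by
    rw [hF, Chars.indFun_apply]
    simp only [hker]
    rw [← Finset.sum_filter, Finset.sum_const, nsmul_eq_mul]
    have hfil : (Finset.univ.filter fun g : G => v⁻¹ * (g⁻¹ * v * g) ∈ P) =
        Finset.univ.filter fun g : G => g ∈ C := by
      ext g
      simp only [Finset.mem_filter, Finset.mem_univ, true_and]
      constructor
      · intro hg
        rw [hC, Subgroup.mem_centralizer_singleton_iff]
        have h1 := hreg v g hv hg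
        calc g * v = g * (g⁻¹ * v * g) := by rw [h1]
          _ = v * g := by group
      · intro hg
        rw [mul_assoc g⁻¹, hcomm g hg, inv_mul_cancel_left, inv_mul_cancel]
        exact P.one_mem
    have hcC : Nat.card C = Nat.card P * (Q : Subgroup C).index := by
      rw [hP, Subgroup.card_map_of_injective C.subtype_injective, Subgroup.card_mul_index]
    rw [hfil, ← Fintype.card_subtype, ← Nat.card_eq_fintype_card, hcC, hcardE]
    have h1 : (Nat.card (E ⧸ P.subgroupOf E) : ℂ) ≠ 0 := by exact_mod_cast Nat.card_pos.ne'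
    have h2 : (Nat.card P : ℂ) ≠ 0 := by exact_mod_cast Nat.card_pos.ne'
    push_cast
    field_simp
  rw [hFu, hFv, zero_sub] at hdiv
  exact Q.not_dvd_index (Chars.dvd_of_isIntegral_div hp.out.pos (by simpa [PDiv] using hdiv.neg))

/-- The statement for arbitrary elements. -/
theorem regularPart_isConj_iff (x y x' y' : G)
    (hx : (∃ k : ℕ, orderOf (x * x'⁻¹) = p ^ k) ∧ Commute (x * x'⁻¹) x' ∧ ¬ p ∣ orderOf x')
    (hy : (∃ k : ℕ, orderOf (y * y'⁻¹) = p ^ k) ∧ Commute (y * y'⁻¹) y' ∧ ¬ p ∣ orderOf y') :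
    IsConj x' y' ↔ ∀ χ : Cfsg.IrrCharacter G,
      PDiv p ((χ : G → ℂ) x ^ p ^ (Nat.card G).factorization p -
        (χ : G → ℂ) y ^ p ^ (Nat.card G).factorization p) := by
  set P := p ^ (Nat.card G).factorization p
  have hpow : ∀ z z' : G, (∃ k : ℕ, orderOf (z * z'⁻¹) = p ^ k) → Commute (z * z'⁻¹) z' →
      z ^ P = z' ^ P := by
    intro z z' h1 h2
    conv_lhs => rw [show z = z * z'⁻¹ * z' by group]
    rw [h2.mul_pow, orderOf_dvd_iff_pow_eq_one.1 (Blocks.orderOf_dvd_ppow h1), one_mul]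
  have hcg : ∀ χ : Cfsg.IrrCharacter G, PDiv p ((χ : G → ℂ) x ^ P - (χ : G → ℂ) (x' ^ P)) ∧
      PDiv p ((χ : G → ℂ) y ^ P - (χ : G → ℂ) (y' ^ P)) := fun χ => by
    have hc := Chars.isCharacter_of_isIrr χ.2
    constructor
    · rw [← hpow x x' hx.1 hx.2.1]; exact pDiv_char_pow hc x _
    · rw [← hpow y y' hy.1 hy.2.1]; exact pDiv_char_pow hc y _
  constructor
  · intro hc χ
    obtain ⟨g, hg⟩ := isConj_iff.mp hc
    have e : (χ : G → ℂ) (x' ^ P) = (χ : G → ℂ) (y' ^ P) := by
      rw [← hg, conj_pow]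
      exact (Chars.isClassFunction_of_isCharacter (Chars.isCharacter_of_isIrr χ.2) _ _).symm
    have := (hcg χ).1.add (hcg χ).2.neg
    rw [e] at this
    simpa [P] using this
  · intro h
    have hr : ∀ z : G, ¬ p ∣ orderOf z → ¬ p ∣ orderOf (z ^ P) := fun z hz h' =>
      hz (h'.trans (orderOf_pow_dvd _))
    have hconj : IsConj (x' ^ P) (y' ^ P) := by
      refine isConj_of_congr (hr _ hx.2.2) (hr _ hy.2.2) fun χ => ?_
      have := ((hcg χ).1.neg.add (h χ)).add (hcg χ).2
      convert this using 1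
      simp only [P]; ring
    obtain ⟨g, hg⟩ := isConj_iff.mp hconj
    rw [← conj_pow] at hg
    refine isConj_iff.mpr ⟨g, ?_⟩
    set m := Nat.card G / P
    have hm : ∀ z : G, ¬ p ∣ orderOf z → z ^ m = 1 := fun z hz =>
      orderOf_dvd_iff_pow_eq_one.1 (Blocks.orderOf_dvd_pprime hz)
    have hbez : (1 : ℤ) = P * P.gcdA m + m * P.gcdB m := by
      rw [← Nat.gcd_eq_gcd_ab]
      have : Nat.Coprime P m := Nat.Coprime.pow_left _ (Nat.coprime_ordCompl hp.out Nat.card_pos.ne')
      rw [this.gcd_eq_one]; norm_num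
    have hzp : ∀ z : G, z ^ m = 1 → z = (z ^ P) ^ P.gcdA m := fun z hz => by
      conv_lhs => rw [← zpow_one z, hbez, zpow_add, zpow_mul, zpow_mul, zpow_natCast, zpow_natCast, hz, one_zpow, mul_one]
    rw [hzp y' (hm y' hy.2.2), hzp (g * x' * g⁻¹) (hm _ (by
      rw [show g * x' * g⁻¹ = MulAut.conj g x' from rfl, MulEquiv.orderOf_eq]; exact hx.2.2)), hg]

end Cfsg.Agent.OddChar
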