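import Cfsg.Agent.OddChar.SelfNormNA
import Cfsg.Agent.GeomClasses.CTGroups

/-! Non-abelian subgroups of CT-groups with small torus normalizers are self-normalizing. -/

set_option autoImplicit false

namespace Cfsg.Agent.OddChar.SelfNormNA

open GeomClasses

variable {G : Type*} [Group G] [Finite G]

/-- In a CT-group in which every element outside `C(a)` in its normalizer generates it modulo `C(a)`,
non-abelian subgroups are self-normalizing. -/
theorem naSelf_of_ct (hct : CT.AbCent G)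
    (hidx : ∀ a y g : G, a ≠ 1 → y ∈ CT.Nz a → y ∉ CT.Cz a → g ∈ CT.Nz a → ∃ i : ℕ, g * (y ^ i)⁻¹ ∈ CT.Cz a) :
    NASelf G := by
  classical
  haveI := Fintype.ofFinite G
  intro H hH
  refine le_antisymm (fun g hg => ?_) Subgroup.le_normalizer
  have hpab : ∀ (p : ℕ) [Fact p.Prime] (Q : Subgroup G), IsPGroup p Q → IsMulCommutative Q := by
    intro p _ Q hQ
    refine comm_of fun a ha b hb => ?_
    by_cases hb' : Nontrivial Q
    · have := hQ.center_nontrivial
      obtain ⟨⟨⟨z, hzQ⟩, hzc⟩, hz1⟩ := exists_ne (1 : Subgroup.center Q)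
      have hz : ∀ w ∈ Q, w * z = z * w := fun w hw => congrArg Subtype.val (Subgroup.mem_center_iff.mp hzc ⟨w, hw⟩)
      exact hct z a b (fun h => hz1 (Subtype.ext (Subtype.ext h))) (hz a ha) (hz b hb)
    · rw [not_nontrivial_iff_subsingleton] at hb'
      have := congrArg Subtype.val (Subsingleton.elim (⟨a, ha⟩ : Q) ⟨b, hb⟩)
      simp only at this
      rw [this]
  -- a Sylow subgroup with non-abelian normalizer
  obtain ⟨p, hp, hpH, P, hPN⟩ : ∃ (p : ℕ) (_ : p.Prime) (_ : p ∣ Nat.card H) (P : Sylow p H),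
      ¬ IsMulCommutative (Subgroup.normalizer ((P : Subgroup H) : Set H)) := by
    by_contra hc
    push Not at hc
    apply hH
    have hcard : Nat.card (commutator H) = 1 := by
      by_contra hne
      obtain ⟨p, hp, hpd⟩ := Nat.exists_prime_and_dvd hne
      haveI := Fact.mk hp
      let P : Sylow p H := default
      have hle : Subgroup.normalizer ((P : Subgroup H) : Set H) ≤
          Subgroup.centralizer ((P : Subgroup H) : Set H) := fun x hx =>
        Subgroup.mem_centralizer_iff.mpr fun y hy => comm_apply (hc p hp (hpd.trans (Subgroup.card_subgroup_dvd_card _)) P) (Subgroup.le_normalizer hy) hx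
      obtain ⟨Q, N, hN, hNc⟩ := Transfer.hasNormalPComplement_of_normalizer_le_centralizer P hle
      have hQ : IsMulCommutative (Q : Subgroup H) := by
        have h := hpab p ((Q : Subgroup H).map H.subtype) (Q.isPGroup'.map H.subtype)
        exact comm_of fun a ha b hb => Subtype.ext (comm_apply h
          (Subgroup.mem_map_of_mem H.subtype ha) (Subgroup.mem_map_of_mem H.subtype hb))
      have hle' : commutator H ≤ N := by
        rw [commutator_def, Subgroup.commutator_le]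
        intro a _ b _
        rw [← QuotientGroup.eq_one_iff, ← QuotientGroup.mk'_apply, map_commutatorElement,
          commutatorElement_eq_one_iff_mul_comm]
        have hs : ∀ x : H, ∃ q ∈ (Q : Subgroup H), QuotientGroup.mk' N x = QuotientGroup.mk' N q := by
          intro x
          obtain ⟨⟨n, q⟩, h⟩ := hNc.existsUnique x |>.exists
          refine ⟨q, q.2, ?_⟩
          have h' : (n : H) * q = x := h
          rw [← h', map_mul, show QuotientGroup.mk' N (n : H) = 1 from (QuotientGroup.eq_one_iff _).mpr n.2, one_mul]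
        obtain ⟨q, hq, e1⟩ := hs a
        obtain ⟨r, hr, e2⟩ := hs b
        rw [e1, e2, ← map_mul, ← map_mul, comm_apply hQ hq hr]
      have h1 : p ∣ Nat.card N := hpd.trans (Subgroup.card_dvd_of_le hle')
      rw [← (hNc : Subgroup.IsComplement' N (Q : Subgroup H)).index_eq_card] at h1
      exact Q.not_dvd_index h1
    have hbot := Subgroup.eq_bot_of_card_eq _ hcard
    refine ⟨⟨fun a b => ?_⟩⟩
    rw [← commutatorElement_eq_one_iff_mul_comm, ← Subgroup.mem_bot, ← hbot]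
    exact Subgroup.commutator_mem_commutator (Subgroup.mem_top _) (Subgroup.mem_top _)
  haveI := Fact.mk hp
  set P₀ : Subgroup G := (P : Subgroup H).map H.subtype with hP₀
  have hP₀ab := hpab p P₀ (P.isPGroup'.map H.subtype)
  set H₁ : Subgroup G := (Subgroup.normalizer ((P : Subgroup H) : Set H)).map H.subtype with hH₁
  have hH₁na : ¬ IsMulCommutative H₁ := fun h => hPN (comm_of fun a ha b hb => Subtype.ext (comm_apply h
    (Subgroup.mem_map_of_mem H.subtype ha) (Subgroup.mem_map_of_mem H.subtype hb)))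
  have hP₁ : ∀ h ∈ H₁, ∀ z ∈ P₀, h * z * h⁻¹ ∈ P₀ := by
    rintro _ ⟨h, hh, rfl⟩ _ ⟨z, hz, rfl⟩
    exact ⟨h * z * h⁻¹, (Subgroup.mem_normalizer_iff.mp hh z).mp hz, rfl⟩
  have hPne : P₀ ≠ ⊥ := by
    intro hb
    haveI := Fact.mk hp
    exact P.ne_bot_of_dvd_card hpH ((Subgroup.map_eq_bot_iff_of_injective _ H.subtype_injective).mp hb)
  obtain ⟨a, haP, ha1⟩ := (Subgroup.bot_or_exists_ne_one P₀).resolve_left hPne
  have haC : ∀ z ∈ P₀, z ∈ CT.Cz a := fun z hz => CT.mem_Cz.mpr (comm_apply hP₀ab haP hz)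
  have hH₁L : ∀ h ∈ H₁, h ∈ CT.Nz a := fun h hh =>
    CT.mem_Nz_of_conj hct ha1 (haC a haP) ha1 (haC _ (hP₁ h hh a haP))
  obtain ⟨y, hy, hyC⟩ : ∃ y ∈ H₁, y ∉ CT.Cz a := by
    by_contra hc
    push Not at hc
    exact hH₁na (comm_of fun u hu v hv =>
      hct a u v ha1 (CT.mem_Cz.mp (hc u hu)).symm (CT.mem_Cz.mp (hc v hv)).symm)
  -- Frattini argument
  let σ : MulAut H := H.normalizerMonoidHom ⟨g, hg⟩
  obtain ⟨h, hh⟩ : ∃ h : H, h • (σ • P) = P := MulAction.exists_smul_eq H _ P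
  set g' : G := (h : G) * g with hg'
  have hg'H : g' ∈ Subgroup.normalizer (H : Set G) := mul_mem (Subgroup.le_normalizer h.2) hg
  have hg'P : ∀ z ∈ P₀, g' * z * g'⁻¹ ∈ P₀ := by
    rintro _ ⟨z, hz, rfl⟩
    have : h * σ z * h⁻¹ ∈ ((h • (σ • P) : Sylow p H) : Subgroup H) :=
      ⟨σ z, ⟨z, hz, rfl⟩, rfl⟩
    rw [hh] at this
    refine ⟨_, this, ?_⟩
    show ((h : G) * (g * (z : G) * g⁻¹) * (h : G)⁻¹) = g' * z * g'⁻¹
    rw [hg']; group
  have hg'L : g' ∈ CT.Nz a := CT.mem_Nz_of_conj hct ha1 (haC a haP) ha1 (haC _ (hg'P a haP))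
  obtain ⟨i, hi⟩ := hidx a y g' ha1 (hH₁L y hy) hyC hg'L
  set k : G := g' * (y ^ i)⁻¹ with hk
  have hyi : y ^ i ∈ H₁ := pow_mem hy i
  have hkH : k ∈ Subgroup.normalizer (H : Set G) := by
    refine mul_mem hg'H (inv_mem (Subgroup.le_normalizer ?_))
    obtain ⟨w, -, hw⟩ := hyi
    exact hw ▸ w.2
  have hkP : ∀ z ∈ P₀, k * z * k⁻¹ ∈ P₀ := by
    intro z hz
    rw [hk, show g' * (y ^ i)⁻¹ * z * (g' * (y ^ i)⁻¹)⁻¹ = g' * ((y ^ i)⁻¹ * z * (y ^ i)⁻¹⁻¹) * g'⁻¹ by group]
    exact hg'P _ (hP₁ _ (inv_mem hyi) z hz)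
  -- `k` normalizes `H₁`
  have hkH₁ : ∀ w ∈ H₁, k * w * k⁻¹ ∈ H₁ := by
    rintro _ ⟨w, hw, rfl⟩
    have hwH : k * (w : G) * k⁻¹ ∈ H := (Subgroup.mem_normalizer_iff.mp hkH _).mp w.2
    refine ⟨⟨_, hwH⟩, ?_, rfl⟩
    have hle : ∀ v : H, v ∈ (P : Subgroup H) → (⟨_, hwH⟩ : H) * v * (⟨_, hwH⟩ : H)⁻¹ ∈ (P : Subgroup H) := by
      intro v hv
      have hmemfin : ∀ z ∈ P₀, k⁻¹ * z * k ∈ P₀ := by
        let f : P₀ → P₀ := fun z => ⟨k * z * k⁻¹, hkP z z.2⟩
        have hf : Function.Surjective f := Finite.injective_iff_surjective.mp fun u v huv => Subtype.ext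
          (mul_left_cancel (mul_right_cancel (congrArg Subtype.val huv : k * (u : G) * k⁻¹ = k * v * k⁻¹)))
        intro z hz
        obtain ⟨u, hu⟩ := hf ⟨z, hz⟩
        have : k * (u : G) * k⁻¹ = z := congrArg Subtype.val hu
        rw [← this]
        simpa [mul_assoc] using u.2
      have h1 := hP₁ _ (Subgroup.mem_map_of_mem H.subtype hw) _ (hmemfin _ (Subgroup.mem_map_of_mem H.subtype hv))
      have h2 := hkP _ h1
      refine (Subgroup.mem_map_iff_mem H.subtype_injective).mp ?_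
      show k * (w : G) * k⁻¹ * (v : G) * (k * (w : G) * k⁻¹)⁻¹ ∈ P₀
      convert h2 using 1
      simp only [Subgroup.coe_subtype]; group
    rw [SetLike.mem_coe, Subgroup.mem_normalizer_iff]
    intro v
    refine ⟨hle v, fun hv => ?_⟩
    let f : ↥(P : Subgroup H) → ↥(P : Subgroup H) := fun z => ⟨_, hle (z : H) z.2⟩
    have hf : Function.Surjective f := Finite.injective_iff_surjective.mp fun u w huv => Subtype.ext
      (mul_left_cancel (mul_right_cancel (congrArg Subtype.val huv)))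
    obtain ⟨u, hu⟩ := hf ⟨_, hv⟩
    have := mul_left_cancel (mul_right_cancel (congrArg Subtype.val hu))
    exact this ▸ u.2
  -- fixed-point-free action of `y` on `C(a)`
  have hyL := hH₁L y hy
  let J : Subgroup G := H₁ ⊓ CT.Cz a
  have hJ : ∀ w ∈ CT.Cz a, (∀ v ∈ H₁, w * v * w⁻¹ ∈ H₁) → w * y * w⁻¹ * y⁻¹ ∈ J := by
    intro w hw hwn
    refine Subgroup.mem_inf.mpr ⟨H₁.mul_mem (hwn y hy) (H₁.inv_mem hy), ?_⟩
    have : y * w⁻¹ * y⁻¹ ∈ CT.Cz a := (Subgroup.mem_normalizer_iff.mp hyL _).mp (inv_mem hw)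
    have := mul_mem hw this
    simpa [mul_assoc] using this
  let φ : J → J := fun w => ⟨(w : G) * y * (w : G)⁻¹ * y⁻¹, hJ w w.2.2 fun v hv =>
    mul_mem (mul_mem w.2.1 hv) (inv_mem w.2.1)⟩
  have hinj : ∀ u v : G, u ∈ CT.Cz a → v ∈ CT.Cz a → u * y * u⁻¹ * y⁻¹ = v * y * v⁻¹ * y⁻¹ → u = v := by
    intro u v hu hv e
    have e' : u * y * u⁻¹ = v * y * v⁻¹ := mul_right_cancel e
    have hc : (v⁻¹ * u) * y = y * (v⁻¹ * u) := by
      have := congrArg (fun z => v⁻¹ * z * u) e'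
      simpa [mul_assoc] using this
    by_contra hne
    have hw1 : v⁻¹ * u ≠ 1 := fun h => hne (inv_mul_eq_one.mp h).symm
    apply hyC
    rw [← CT.Cz_eq hct ha1 (mul_mem (inv_mem hv) hu) hw1]
    exact CT.mem_Cz.mpr hc
  have hφ : Function.Surjective φ := Finite.injective_iff_surjective.mp fun u v e =>
    Subtype.ext (hinj u v u.2.2 v.2.2 (congrArg Subtype.val e))
  obtain ⟨w, hw⟩ := hφ ⟨_, hJ k hi hkH₁⟩
  have hkw : k = w := hinj k w hi w.2.2 (congrArg Subtype.val hw).symm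
  have hg'H₁ : g' ∈ H₁ := by
    have : g' = k * y ^ i := by rw [hk, inv_mul_cancel_right]
    rw [this]
    refine mul_mem ?_ hyi
    rw [hkw]; exact w.2.1
  obtain ⟨v, -, hv⟩ := hg'H₁
  have : g = (h : G)⁻¹ * (v : G) := by
    rw [show (v : G) = g' from hv, hg', inv_mul_cancel_left]
  rw [this]
  exact mul_mem (inv_mem h.2) v.2

end Cfsg.Agent.OddChar.SelfNormNA
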