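import Cfsg.Agent.S0071
import Cfsg.Agent.Transfer.Burnside
import Cfsg.Agent.FGS2.SchurTransfer
import Cfsg.Agent.OddLocal.Basic

/-! Simple groups all of whose non-abelian subgroups are self-normalizing have abelian centralizers. -/

set_option autoImplicit false

namespace Cfsg.Agent.OddChar.SelfNormNA

variable {G : Type*} [Group G] [Finite G]

/-- Every non-abelian subgroup is self-normalizing. -/
def NASelf (G : Type*) [Group G] : Prop :=
  ∀ H : Subgroup G, ¬ IsMulCommutative H → Subgroup.normalizer (H : Set G) = H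

theorem comm_of {H : Subgroup G} (h : ∀ a ∈ H, ∀ b ∈ H, a * b = b * a) : IsMulCommutative H :=
  ⟨⟨fun a b => Subtype.ext (h a a.2 b b.2)⟩⟩

theorem comm_apply {H : Subgroup G} (h : IsMulCommutative H) {a b : G} (ha : a ∈ H) (hb : b ∈ H) :
    a * b = b * a :=
  congrArg Subtype.val (h.is_comm.comm ⟨a, ha⟩ ⟨b, hb⟩)

/-- A proper normal subgroup of a subgroup is abelian. -/
theorem sub_normal_comm (hs : NASelf G) (L : Subgroup G) {N : Subgroup L} (hN : N.Normal) (hne : N ≠ ⊤) :
    IsMulCommutative N := by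
  by_contra hn
  apply hne
  have hna : ¬ IsMulCommutative (N.map L.subtype) := fun h => hn
    ⟨⟨fun a b => Subtype.ext (Subtype.ext (comm_apply h
      (Subgroup.mem_map_of_mem L.subtype a.2) (Subgroup.mem_map_of_mem L.subtype b.2)))⟩⟩
  refine top_le_iff.mp fun x _ => ?_
  have hx : (x : G) ∈ Subgroup.normalizer ((N.map L.subtype : Subgroup G) : Set G) :=
    Subgroup.le_normalizer_map _ (Subgroup.mem_map_of_mem L.subtype
      (show x ∈ Subgroup.normalizer (N : Set L) by rw [Subgroup.normalizer_eq_top_iff.mpr hN]; trivial))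
  rw [hs _ hna] at hx
  exact (Subgroup.mem_map_iff_mem L.subtype_injective).mp hx

theorem not_pgroup [IsSimpleGroup G] (hna : ¬ IsMulCommutative G) {p : ℕ} [Fact p.Prime] : ¬ IsPGroup p G := by
  intro hpg
  haveI := hpg.center_nontrivial
  have h1 : Subgroup.center G = ⊤ :=
    (Subgroup.Normal.eq_bot_or_eq_top inferInstance).resolve_left ((Subgroup.nontrivial_iff_ne_bot _).mp this)
  exact hna ⟨⟨fun a b => (Subgroup.mem_center_iff.mp (h1 ▸ Subgroup.mem_top b) a)⟩⟩

theorem burnside_contra [IsSimpleGroup G] {p : ℕ} [Fact p.Prime] (hnp : ¬ IsPGroup p G) (P : Sylow p G)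
    (hP : (P : Subgroup G) ≠ ⊥)
    (h : Subgroup.normalizer ((P : Subgroup G) : Set G) ≤ Subgroup.centralizer ((P : Subgroup G) : Set G)) :
    False := by
  obtain ⟨P', N, hN, hc⟩ := Transfer.hasNormalPComplement_of_normalizer_le_centralizer P h
  rcases hN.eq_bot_or_eq_top with rfl | rfl
  · have hP' : (P' : Subgroup G) = ⊤ := Subgroup.isComplement'_bot_left.mp hc
    have := P'.isPGroup'
    rw [hP'] at this
    exact hnp (this.of_equiv Subgroup.topEquiv)
  · have hP' : (P' : Subgroup G) = ⊥ := Subgroup.isComplement'_top_left.mp hc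
    refine hP (Subgroup.eq_bot_of_card_eq _ ?_)
    rw [P.card_eq_multiplicity, ← P'.card_eq_multiplicity, hP', Subgroup.card_bot]

theorem pgroup_nonabelian_eq_sylow (hs : NASelf G) {p : ℕ} [Fact p.Prime] {U : Subgroup G}
    (hU : ¬ IsMulCommutative U) {P : Sylow p G} (hle : U ≤ (P : Subgroup G)) : U = (P : Subgroup G) := by
  by_contra hne
  haveI : Group.IsNilpotent (P : Subgroup G) := P.isPGroup'.isNilpotent
  have hlt : U.subgroupOf (P : Subgroup G) < ⊤ := lt_top_iff_ne_top.2 fun h =>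
    hne (le_antisymm hle (Subgroup.subgroupOf_eq_top.mp h))
  obtain ⟨x, hx, hxU⟩ := SetLike.exists_of_lt
    ((Group.normalizerCondition_of_isNilpotent : NormalizerCondition (P : Subgroup G)) _ hlt)
  apply hxU
  rw [Subgroup.mem_subgroupOf]
  rw [← hs U hU]
  rw [Subgroup.mem_normalizer_iff] at hx ⊢
  intro y
  constructor
  · intro hy
    exact Subgroup.mem_subgroupOf.mp ((hx ⟨y, hle hy⟩).mp (Subgroup.mem_subgroupOf.mpr hy))
  · intro hy
    have hyP : y ∈ (P : Subgroup G) := by
      have := mul_mem (mul_mem (inv_mem x.2) (hle hy)) x.2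
      simpa [mul_assoc] using this
    exact Subgroup.mem_subgroupOf.mp ((hx ⟨y, hyP⟩).mpr (Subgroup.mem_subgroupOf.mpr hy))

theorem eq_one_of_coprime_pow {Q : Type*} [Group Q] {p : ℕ} [Fact p.Prime] {g : Q}
    (h1 : (orderOf g).Coprime p) {n : ℕ} (h2 : g ^ p ^ n = 1) : g = 1 :=
  orderOf_eq_one_iff.mp (Nat.Coprime.eq_one_of_dvd (h1.pow_right n) (orderOf_dvd_of_pow_eq_one h2))

/-- Sylow subgroups are abelian. -/
theorem sylow_comm [IsSimpleGroup G] (hs : NASelf G) (hna : ¬ IsMulCommutative G) {p : ℕ} [hp : Fact p.Prime]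
    (P : Sylow p G) : IsMulCommutative (P : Subgroup G) := by
  classical
  by_contra hP
  let good : Subgroup G → Prop := fun Q => IsPGroup p Q ∧ ∃ g ∈ Subgroup.normalizer (Q : Set G),
    (orderOf g).Coprime p ∧ g ∉ Subgroup.centralizer (Q : Set G)
  have hex : ∃ Q, good Q := by
    by_contra hno
    have hall : ∀ Q : Subgroup G, Q ≤ (P : Subgroup G) → ∀ g ∈ Subgroup.normalizer (Q : Set G),
        Nat.Coprime (orderOf g) p → g ∈ Subgroup.centralizer (Q : Set G) := fun Q hQ g hg hc => by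
      by_contra hn
      exact hno ⟨Q, P.2.to_le hQ, g, hg, hc, hn⟩
    obtain ⟨N, hN, hc⟩ := (S0071.result P).mpr hall
    rcases hN.eq_bot_or_eq_top with rfl | rfl
    · have hP' : (P : Subgroup G) = ⊤ := Subgroup.isComplement'_bot_left.mp hc
      have := P.isPGroup'
      rw [hP'] at this
      exact not_pgroup hna (this.of_equiv Subgroup.topEquiv)
    · have hP' : (P : Subgroup G) = ⊥ := Subgroup.isComplement'_top_left.mp hc
      rw [hP'] at hP
      exact hP (comm_of fun a ha b hb => by rw [Subgroup.mem_bot.mp ha, Subgroup.mem_bot.mp hb])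
  obtain ⟨U, ⟨hUp, g, hgN, hgc, hgC⟩, hmax⟩ :=
    (Set.toFinite {Q | good Q}).exists_maximalFor (fun Q : Subgroup G => Nat.card Q) _ hex
  -- the normalizer
  set L : Subgroup G := Subgroup.normalizer (U : Set G) with hL
  have hUL : U ≤ L := Subgroup.le_normalizer
  let U' : Subgroup L := U.subgroupOf L
  have hU'p : IsPGroup p U' := hUp.of_equiv (Subgroup.subgroupOfEquivOfLe hUL).symm
  let γ : L := ⟨g, hgN⟩
  have hγc : (orderOf γ).Coprime p := by rwa [Subgroup.orderOf_mk]
  obtain ⟨u0, hu0, hu0g⟩ : ∃ u ∈ U, u * g ≠ g * u := by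
    by_contra hc
    push Not at hc
    exact hgC (Subgroup.mem_centralizer_iff.mpr hc)
  -- `U` is no Sylow subgroup
  have hnS : ∀ S : Sylow p G, U ≠ (S : Subgroup G) := by
    intro S e
    obtain ⟨w, hw⟩ : ∃ w : G, w • P = S := MulAction.exists_smul_eq G P S
    have hSna : ¬ IsMulCommutative U := by
      intro hcm
      apply hP
      refine comm_of fun a ha b hb => ?_
      have h : ∀ z ∈ (P : Subgroup G), w * z * w⁻¹ ∈ U := fun z hz => by
        rw [e, ← hw, Sylow.coe_subgroup_smul]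
        exact ⟨z, hz, rfl⟩
      have := comm_apply hcm (h a ha) (h b hb)
      rw [conj_mul, conj_mul] at this
      exact mul_left_cancel (mul_right_cancel this)
    have hgU : g ∈ U := by
      rw [← hs U hSna]; exact hgN
    obtain ⟨n, hn⟩ := hUp ⟨g, hgU⟩
    have h1 : g = 1 := eq_one_of_coprime_pow hgc (congrArg Subtype.val hn)
    exact hgC (h1 ▸ one_mem _)
  have hUab : IsMulCommutative U := by
    by_contra hn
    obtain ⟨S, hS⟩ := hUp.exists_le_sylow
    exact hnS S (pgroup_nonabelian_eq_sylow hs hn hS)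
  -- maximal normal subgroup
  have hLtop : (⊥ : Subgroup L) ≠ ⊤ := by
    intro h
    have : γ = 1 := Subgroup.mem_bot.mp (h ▸ Subgroup.mem_top γ)
    have hg1 : g = 1 := congrArg Subtype.val this
    apply hgC
    rw [hg1]; exact one_mem _
  obtain ⟨M, ⟨hMn, hMt⟩, hMmax⟩ := (Set.toFinite {N : Subgroup L | N.Normal ∧ N ≠ ⊤}).exists_maximal
    ⟨⊥, inferInstance, hLtop⟩
  haveI := hMn
  have hMab := sub_normal_comm hs L hMn hMt
  -- `g` is outside `M`
  have hγM : γ ∉ M := by
    intro hγ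
    apply hu0g
    let u : L := ⟨u0, hUL hu0⟩
    have hconj : u * γ * u⁻¹ ∈ M := hMn.conj_mem γ hγ u
    have hcm : Commute (u * γ * u⁻¹) γ⁻¹ := comm_apply hMab hconj (inv_mem hγ)
    have h1 : (u * γ * u⁻¹ * γ⁻¹) ^ orderOf γ = 1 := by
      rw [hcm.mul_pow, conj_pow, inv_pow, pow_orderOf_eq_one]; group
    have h2 : u0 * g * u0⁻¹ * g⁻¹ ∈ U := by
      have : g * u0⁻¹ * g⁻¹ ∈ U := (Subgroup.mem_normalizer_iff.mp hgN _).mp (inv_mem hu0)
      have := mul_mem hu0 this
      simpa [mul_assoc] using this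
    obtain ⟨n, hn⟩ := hUp ⟨_, h2⟩
    have h1' : (u0 * g * u0⁻¹ * g⁻¹) ^ orderOf g = 1 := by
      have := congrArg Subtype.val h1
      rw [Subgroup.orderOf_mk] at this
      simpa using this
    have h3 : u0 * g * u0⁻¹ * g⁻¹ = 1 := by
      refine eq_one_of_coprime_pow ?_ (congrArg Subtype.val hn)
      exact hgc.coprime_dvd_left (orderOf_dvd_of_pow_eq_one h1')
    rw [mul_inv_eq_one, mul_inv_eq_iff_eq_mul] at h3
    exact h3
  -- quotient
  let π := QuotientGroup.mk' M
  have hπ : Function.Surjective π := QuotientGroup.mk'_surjective M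
  haveI : Nontrivial (L ⧸ M) := QuotientGroup.nontrivial_iff.mpr hMt
  haveI : IsSimpleGroup (L ⧸ M) := by
    refine ⟨fun K hK => ?_⟩
    by_cases h : K.comap π = ⊤
    · refine Or.inr (top_le_iff.mp fun x _ => ?_)
      obtain ⟨y, rfl⟩ := hπ x
      exact Subgroup.mem_comap.mp (h ▸ Subgroup.mem_top y : y ∈ K.comap π)
    · refine Or.inl (le_bot_iff.mp fun x hx => ?_)
      obtain ⟨y, rfl⟩ := hπ x
      exact (QuotientGroup.eq_one_iff y).mpr (hMmax ⟨hK.comap π, h⟩
        (fun z hz => Subgroup.mem_comap.mpr (by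
          rw [show π z = 1 from (QuotientGroup.eq_one_iff z).mpr hz]; exact one_mem _)) hx)
  have hQnp : ¬ IsPGroup p (L ⧸ M) := by
    intro hpg
    apply hγM
    obtain ⟨n, hn⟩ := hpg (π γ)
    refine (QuotientGroup.eq_one_iff γ).mp (eq_one_of_coprime_pow ?_ hn)
    exact hγc.coprime_dvd_left (orderOf_map_dvd π γ)
  haveI hU'n : U'.Normal := by
    refine ⟨fun n hn x => ?_⟩
    exact Subgroup.mem_subgroupOf.mpr
      ((Subgroup.mem_normalizer_iff.mp x.2 _).mp (Subgroup.mem_subgroupOf.mp hn))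
  -- `U ≤ M`
  have hUM : U' ≤ M := by
    by_contra hn
    have h1 : (U' ⊔ M).Normal := Subgroup.sup_normal U' M
    have htop : U' ⊔ M = ⊤ := by
      by_contra hne
      exact hn (le_sup_left.trans (hMmax ⟨h1, hne⟩ le_sup_right))
    apply hQnp
    intro q
    obtain ⟨x, rfl⟩ := hπ q
    obtain ⟨a, ha, b, hb, rfl⟩ := Subgroup.mem_sup_of_normal_left.mp (htop ▸ Subgroup.mem_top x)
    obtain ⟨n, hn'⟩ := hU'p ⟨a, ha⟩
    refine ⟨n, ?_⟩
    rw [map_mul, show π b = 1 from (QuotientGroup.eq_one_iff b).mpr hb, mul_one, ← map_pow]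
    have : a ^ p ^ n = 1 := congrArg Subtype.val hn'
    rw [this, map_one]
  have hCU : Subgroup.centralizer (U' : Set L) ≤ M := by
    have hn : (Subgroup.centralizer (U' : Set L)).Normal := inferInstance
    have hMC : M ≤ Subgroup.centralizer (U' : Set L) := fun m hm =>
      Subgroup.mem_centralizer_iff.mpr fun u hu => comm_apply hMab (hUM hu) hm
    refine hMmax ⟨hn, fun h => ?_⟩ hMC
    apply hu0g
    exact congrArg Subtype.val (Subgroup.mem_centralizer_iff.mp (h ▸ Subgroup.mem_top γ)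
      ⟨u0, hUL hu0⟩ (Subgroup.mem_subgroupOf.mpr hu0))
  -- Sylow subgroup of the normalizer
  obtain ⟨T, hUT⟩ := hU'p.exists_le_sylow
  let T₀ : Subgroup G := (T : Subgroup L).map L.subtype
  have hT₀p : IsPGroup p T₀ := T.isPGroup'.map L.subtype
  have hUT₀ : U ≤ T₀ := fun u hu => ⟨⟨u, hUL hu⟩, hUT (Subgroup.mem_subgroupOf.mpr hu), rfl⟩
  have hlt : U < T₀ := by
    refine lt_of_le_of_ne hUT₀ fun e => ?_
    obtain ⟨S, hS⟩ := hUp.exists_le_sylow
    haveI : Group.IsNilpotent (S : Subgroup G) := S.isPGroup'.isNilpotent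
    have hlt' : U.subgroupOf (S : Subgroup G) < ⊤ := lt_top_iff_ne_top.2 fun h =>
      hnS S (le_antisymm hS (Subgroup.subgroupOf_eq_top.mp h))
    obtain ⟨x, hx, hxU⟩ := SetLike.exists_of_lt
      ((Group.normalizerCondition_of_isNilpotent : NormalizerCondition (S : Subgroup G)) _ hlt')
    have hxL : (x : G) ∈ L := by
      rw [hL, Subgroup.mem_normalizer_iff]
      rw [Subgroup.mem_normalizer_iff] at hx
      intro y
      constructor
      · intro hy
        exact Subgroup.mem_subgroupOf.mp ((hx ⟨y, hS hy⟩).mp (Subgroup.mem_subgroupOf.mpr hy))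
      · intro hy
        have hyP : y ∈ (S : Subgroup G) := by
          have := mul_mem (mul_mem (inv_mem x.2) (hS hy)) x.2
          simpa [mul_assoc] using this
        exact Subgroup.mem_subgroupOf.mp ((hx ⟨y, hyP⟩).mpr (Subgroup.mem_subgroupOf.mpr hy))
    let J : Subgroup L := (L.subgroupOf L ⊓ (S : Subgroup G).subgroupOf L)
    have hJp : IsPGroup p J :=
      (S.isPGroup'.comap_of_injective L.subtype L.subtype_injective).to_le inf_le_right
    have hTJ : (T : Subgroup L) ≤ J := by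
      intro t ht
      have : (t : G) ∈ U := e ▸ ⟨t, ht, rfl⟩
      exact ⟨Subgroup.mem_subgroupOf.mpr t.2, Subgroup.mem_subgroupOf.mpr (hS this)⟩
    have hJT := T.is_maximal' hJp hTJ
    apply hxU
    have : (⟨(x : G), hxL⟩ : L) ∈ (T : Subgroup L) := by
      rw [← hJT]; exact ⟨Subgroup.mem_subgroupOf.mpr hxL, Subgroup.mem_subgroupOf.mpr x.2⟩
    rw [Subgroup.mem_subgroupOf, e]
    exact ⟨_, this, rfl⟩
  -- `T` is not inside `M`
  have hTM : ¬ (T : Subgroup L) ≤ M := by
    intro hTM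
    have hTn : ∀ y : L, ∀ t ∈ (T : Subgroup L), y * t * y⁻¹ ∈ (T : Subgroup L) := by
      intro y t ht
      let J : Subgroup L := (T : Subgroup L) ⊔ Subgroup.zpowers (y * t * y⁻¹)
      have hJM : J ≤ M := sup_le hTM (Subgroup.zpowers_le.mpr (hMn.conj_mem t (hTM ht) y))
      have hJp : IsPGroup p J := by
        intro j
        obtain ⟨a, ha, b, hb, hab⟩ : ∃ a ∈ (T : Subgroup L), ∃ b ∈ Subgroup.zpowers (y * t * y⁻¹), a * b = (j : L) := by
          have hnz : (Subgroup.zpowers (y * t * y⁻¹)) ≤ Subgroup.normalizer ((T : Subgroup L) : Set L) := by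
            refine Subgroup.zpowers_le.mpr (Subgroup.mem_normalizer_iff.mpr fun z => ?_)
            have hc := hMn.conj_mem t (hTM ht) y
            constructor
            · intro hz; rwa [comm_apply hMab hc (hTM hz), mul_inv_cancel_right]
            · intro hz
              have := comm_apply hMab (hTM hz) hc
              rw [inv_mul_cancel_right] at this
              have e : z = y * t * y⁻¹ * z * (y * t * y⁻¹)⁻¹ := mul_left_cancel this
              rw [e]; exact hz
          exact Set.mem_mul.mp ((Subgroup.coe_mul_of_right_le_normalizer_left _ _ hnz).le j.2)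
        obtain ⟨m, hm⟩ := T.isPGroup' ⟨a, ha⟩
        obtain ⟨k, hk⟩ := T.isPGroup' ⟨t, ht⟩
        obtain ⟨z, rfl⟩ := Subgroup.mem_zpowers_iff.mp hb
        refine ⟨m + k, Subtype.ext ?_⟩
        have hm' : a ^ p ^ m = 1 := congrArg Subtype.val hm
        have hk' : t ^ p ^ k = 1 := congrArg Subtype.val hk
        have hcm : Commute a ((y * t * y⁻¹) ^ z) := comm_apply hMab (hTM ha) (zpow_mem (hMn.conj_mem t (hTM ht) y) z)
        rw [SubmonoidClass.coe_pow, ← hab, hcm.mul_pow, pow_add, pow_mul, hm', one_pow, one_mul,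
          mul_comm, pow_mul, ← zpow_natCast ((y * t * y⁻¹) ^ z) (p ^ k), ← zpow_mul, mul_comm z, zpow_mul,
          zpow_natCast, conj_pow, hk', mul_one, mul_inv_cancel, one_zpow, one_pow]
        rfl
      exact T.is_maximal' hJp le_sup_left ▸ Subgroup.mem_sup_right (Subgroup.mem_zpowers _)
    have hg' : g ∈ Subgroup.normalizer (T₀ : Set G) := by
      rw [Subgroup.mem_normalizer_iff]
      intro z
      constructor
      · rintro ⟨t, ht, rfl⟩
        exact ⟨γ * t * γ⁻¹, hTn γ t ht, rfl⟩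
      · rintro ⟨t, ht, e⟩
        refine ⟨γ⁻¹ * t * γ⁻¹⁻¹, hTn γ⁻¹ t ht, ?_⟩
        have e' : (t : G) = g * z * g⁻¹ := e
        show g⁻¹ * (t : G) * g⁻¹⁻¹ = z
        rw [e']; group
    have hgC' : g ∉ Subgroup.centralizer (T₀ : Set G) := fun h =>
      hu0g (Subgroup.mem_centralizer_iff.mp h u0 (hUT₀ hu0))
    have hc1 : Nat.card T₀ ≤ Nat.card U := hmax ⟨hT₀p, g, hg', hgc, hgC'⟩
      (Nat.card_le_card_of_injective _ (Subgroup.inclusion_injective hUT₀))
    exact hlt.ne (Subgroup.eq_of_le_of_card_ge hUT₀ hc1)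
  -- `T` is a Sylow subgroup of `G`, and each element outside `M` generates its image
  have hgen : ∀ y ∈ (T : Subgroup L), y ∉ M → U' ⊔ Subgroup.zpowers y = (T : Subgroup L) ∧
      ¬ IsMulCommutative T₀ := by
    intro y hy hyM
    set W : Subgroup L := U' ⊔ Subgroup.zpowers y with hW
    have hWT : W ≤ (T : Subgroup L) := sup_le hUT (Subgroup.zpowers_le.mpr hy)
    have hna' : ¬ IsMulCommutative (W.map L.subtype) := by
      intro h
      apply hyM
      refine hCU (Subgroup.mem_centralizer_iff.mpr fun u hu => Subtype.ext ?_)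
      exact comm_apply h (Subgroup.mem_map_of_mem L.subtype (show u ∈ W from Subgroup.mem_sup_left hu))
        (Subgroup.mem_map_of_mem L.subtype (show y ∈ W from Subgroup.mem_sup_right (Subgroup.mem_zpowers y)))
    obtain ⟨S, hS⟩ := hT₀p.exists_le_sylow
    have h1 : W.map L.subtype ≤ T₀ := Subgroup.map_mono hWT
    have h2 := pgroup_nonabelian_eq_sylow hs hna' (h1.trans hS)
    refine ⟨le_antisymm hWT fun t ht => ?_, fun h => hna' (comm_of fun a ha b hb => comm_apply h (h1 ha) (h1 hb))⟩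
    have : (t : G) ∈ W.map L.subtype := h2 ▸ hS ⟨t, ht, rfl⟩
    exact (Subgroup.mem_map_iff_mem L.subtype_injective).mp this
  obtain ⟨y, hy, hyM⟩ := SetLike.not_le_iff_exists.mp hTM
  obtain ⟨hTgen, hT₀na⟩ := hgen y hy hyM
  let Tb : Sylow p (L ⧸ M) := T.mapSurjective hπ
  have hTb : (Tb : Subgroup (L ⧸ M)) ≠ ⊥ := by
    intro h
    apply hyM
    apply (QuotientGroup.eq_one_iff y).mp
    exact Subgroup.mem_bot.mp (h ▸ (⟨y, hy, rfl⟩ : π y ∈ (Tb : Subgroup (L ⧸ M))))
  refine burnside_contra hQnp Tb hTb ?_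
  intro q hq
  obtain ⟨x, rfl⟩ := hπ q
  set H : Subgroup L := (Tb : Subgroup (L ⧸ M)).comap π with hH
  have hTH : (T : Subgroup L) ≤ H := fun t ht => ⟨t, ht, rfl⟩
  have hHna : ¬ IsMulCommutative (H.map L.subtype) := fun h =>
    hT₀na (comm_of fun a ha b hb => comm_apply h (Subgroup.map_mono hTH ha) (Subgroup.map_mono hTH hb))
  have hxH : x ∈ H := by
    have h1 : x ∈ Subgroup.normalizer (H : Set L) := by
      rw [hH, ← Subgroup.comap_normalizer_eq_of_surjective _ hπ]; exact hq
    have h2 : (x : G) ∈ Subgroup.normalizer ((H.map L.subtype : Subgroup G) : Set G) :=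
      Subgroup.le_normalizer_map _ (Subgroup.mem_map_of_mem L.subtype h1)
    rw [hs _ hHna] at h2
    exact (Subgroup.mem_map_iff_mem L.subtype_injective).mp h2
  have hcyc : ∀ z ∈ (Tb : Subgroup (L ⧸ M)), z ∈ Subgroup.zpowers (π y) := by
    intro z hz
    have hz' : z ∈ (T : Subgroup L).map π := hz
    rw [← hTgen, Subgroup.map_sup, MonoidHom.map_zpowers] at hz'
    have : U'.map π = ⊥ := by
      rw [Subgroup.map_eq_bot_iff, QuotientGroup.ker_mk']; exact hUM
    rwa [this, bot_sup_eq] at hz'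
  rw [Subgroup.mem_centralizer_iff]
  intro z hz
  obtain ⟨a, ha⟩ := Subgroup.mem_zpowers_iff.mp (hcyc z hz)
  obtain ⟨b, hb⟩ := Subgroup.mem_zpowers_iff.mp (hcyc (π x) hxH)
  rw [← ha, ← hb]
  exact ((Commute.refl _).zpow_zpow a b).eq

/-- Every non-identity element has abelian centralizer. -/
theorem abCent [IsSimpleGroup G] (hs : NASelf G) (hna : ¬ IsMulCommutative G) :
    ∀ x a b : G, x ≠ 1 → a * x = x * a → b * x = x * b → a * b = b * a := by
  classical
  intro x₁ a₀ b₀ hx₁ ha₀ hb₀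
  by_contra hab₀
  obtain ⟨p, hp, hpd⟩ := Nat.exists_prime_and_dvd (n := orderOf x₁) (fun h => hx₁ (orderOf_eq_one_iff.mp h))
  haveI := Fact.mk hp
  obtain ⟨m, hm⟩ := hpd
  set x := x₁ ^ m with hx
  have hxo : orderOf x = p := by
    rw [hx, orderOf_pow_of_dvd]
    · rw [hm, Nat.mul_div_cancel]
      rcases Nat.eq_zero_or_pos m with rfl | h
      · rw [mul_zero] at hm; exact absurd hm (orderOf_pos x₁).ne'
      · exact h
    · rintro rfl; rw [mul_zero] at hm; exact absurd hm (orderOf_pos x₁).ne'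
    · rw [hm]; exact dvd_mul_left _ _
  have hx1 : x ≠ 1 := fun h => by rw [h, orderOf_one] at hxo; exact hp.ne_one hxo.symm
  set C : Subgroup G := Subgroup.centralizer ({x} : Set G) with hC
  have memC : ∀ y : G, y ∈ C ↔ x * y = y * x := fun y => by simp [hC, Subgroup.mem_centralizer_iff]
  have haC : a₀ ∈ C := (memC a₀).mpr (Commute.pow_right ha₀ m).eq.symm
  have hbC : b₀ ∈ C := (memC b₀).mpr (Commute.pow_right hb₀ m).eq.symm
  have hCna : ¬ IsMulCommutative C := fun h => hab₀ (comm_apply h haC hbC)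
  let z : C := ⟨x, (memC x).mpr rfl⟩
  have hzc : z ∈ Subgroup.center C :=
    Subgroup.mem_center_iff.mpr fun y => Subtype.ext ((memC y).mp y.2).symm
  have hxp : IsPGroup p (Subgroup.zpowers x) :=
    IsPGroup.of_card (n := 1) (by rw [Nat.card_zpowers, hxo, pow_one])
  obtain ⟨PG, hPG⟩ := hxp.exists_le_sylow
  have hxP : x ∈ (PG : Subgroup G) := hPG (Subgroup.mem_zpowers x)
  have hPab := sylow_comm hs hna PG
  have hPC : (PG : Subgroup G) ≤ C := fun y hy => (memC y).mpr (comm_apply hPab hxP hy)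
  let P : Sylow p C := PG.subtype hPC
  have hPcoe : ∀ y : C, y ∈ (P : Subgroup C) ↔ (y : G) ∈ (PG : Subgroup G) := fun y => Iff.rfl
  -- `x` is not a commutator
  have hzd : z ∉ commutator C := by
    intro hd
    obtain ⟨h, h'⟩ := FGS2.pow_index_mem_commutator (P : Subgroup C) hzc hd
    have h0 : commutator (P : Subgroup C) = ⊥ := by
      rw [commutator_def, Subgroup.commutator_eq_bot_iff_le_centralizer]
      intro a _
      exact Subgroup.mem_centralizer_iff.mpr fun b _ =>
        Subtype.ext (Subtype.ext (comm_apply hPab b.2 a.2))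
    rw [h0, Subgroup.mem_bot] at h'
    have hd := orderOf_dvd_of_pow_eq_one (congrArg Subtype.val h' : z ^ _ = 1)
    rw [Subgroup.orderOf_mk, hxo] at hd
    exact P.not_dvd_index hd
  set m' := Nat.card C / p ^ (Nat.card C).factorization p with hm'
  have hpm' : ¬ p ∣ m' := Nat.not_dvd_ordCompl hp Nat.card_pos.ne'
  -- a proper normal subgroup containing all `p'`-elements
  let φ : C →* Abelianization C := (powMonoidHom m').comp Abelianization.of
  have hφz : φ z ≠ 1 := by
    intro h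
    apply hzd
    rw [← Abelianization.ker_of, MonoidHom.mem_ker]
    refine eq_one_of_coprime_pow (p := p) (n := 1) ?_ ?_
    · refine Nat.Coprime.coprime_dvd_left (orderOf_dvd_of_pow_eq_one h) ?_
      exact (Nat.coprime_comm.mp ((Nat.Prime.coprime_iff_not_dvd hp).mpr hpm'))
    · rw [pow_one, ← map_pow, show z ^ p = 1 from Subtype.ext (by
        show x ^ p = 1
        rw [← hxo, pow_orderOf_eq_one]), map_one]
  have hKab : IsMulCommutative φ.ker := sub_normal_comm hs C inferInstance fun h =>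
    hφz (MonoidHom.mem_ker.mp (h ▸ Subgroup.mem_top z))
  have hcard : ∀ c : C, c ^ (p ^ (Nat.card C).factorization p * m') = 1 := fun c => by
    rw [hm', Nat.ordProj_mul_ordCompl_eq_self, pow_card_eq_one']
  let A : Subgroup C :=
    { carrier := {c | c ^ m' = 1}
      one_mem' := one_pow _
      mul_mem' := by
        intro a b ha hb
        have hka : a ∈ φ.ker := MonoidHom.mem_ker.mpr (by
          show (Abelianization.of a) ^ m' = 1
          rw [← map_pow, (ha : a ^ m' = 1), map_one])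
        have hkb : b ∈ φ.ker := MonoidHom.mem_ker.mpr (by
          show (Abelianization.of b) ^ m' = 1
          rw [← map_pow, (hb : b ^ m' = 1), map_one])
        show (a * b) ^ m' = 1
        have hc : Commute a b := comm_apply hKab hka hkb
        rw [hc.mul_pow, (ha : a ^ m' = 1), (hb : b ^ m' = 1), one_mul]
      inv_mem' := by intro a ha; show a⁻¹ ^ m' = 1; rw [inv_pow, (ha : a ^ m' = 1), inv_one] }
  haveI hAn : A.Normal := ⟨fun a ha g => by
    show (g * a * g⁻¹) ^ m' = 1
    rw [conj_pow, (ha : a ^ m' = 1), mul_one, mul_inv_cancel]⟩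
  have hAP : ∀ a ∈ A, a ∈ (P : Subgroup C) → a = 1 := by
    intro a ha haP
    obtain ⟨n, hn⟩ := P.isPGroup' ⟨a, haP⟩
    refine eq_one_of_coprime_pow (p := p) ?_ (congrArg Subtype.val hn)
    exact Nat.Coprime.coprime_dvd_left (orderOf_dvd_of_pow_eq_one ha)
      (Nat.coprime_comm.mp ((Nat.Prime.coprime_iff_not_dvd hp).mpr hpm'))
  have hAPtop : A ⊔ (P : Subgroup C) = ⊤ := by
    rw [← Subgroup.index_eq_one]
    have h1 : (A ⊔ (P : Subgroup C)).index ∣ (P : Subgroup C).index := Subgroup.index_dvd_of_le le_sup_right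
    have h2 : (A ⊔ (P : Subgroup C)).index ∣ A.index := Subgroup.index_dvd_of_le le_sup_left
    have h3 : IsPGroup p (C ⧸ A) := by
      intro q
      obtain ⟨c, rfl⟩ := QuotientGroup.mk'_surjective A q
      refine ⟨(Nat.card C).factorization p, ?_⟩
      rw [← map_pow]
      refine (QuotientGroup.eq_one_iff _).mpr ?_
      show (c ^ _) ^ m' = 1
      rw [← pow_mul]; exact hcard c
    obtain ⟨n, hn⟩ := h3.exists_card_eq
    rw [← Subgroup.index_eq_card] at hn
    rw [hn] at h2
    exact Nat.Coprime.eq_one_of_dvd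
      (Nat.Coprime.coprime_dvd_left h1 (((Nat.Prime.coprime_iff_not_dvd hp).mpr P.not_dvd_index).symm.pow_right n)) h2
  have hdec : ∀ c : C, ∃ a ∈ A, ∃ b ∈ (P : Subgroup C), a * b = c := fun c =>
    Subgroup.mem_sup_of_normal_left.mp (hAPtop ▸ Subgroup.mem_top c)
  have hAab : ∀ a ∈ A, ∀ b ∈ A, a * b = b * a := fun a ha b hb =>
    comm_apply hKab (MonoidHom.mem_ker.mpr (by show (Abelianization.of a) ^ m' = 1; rw [← map_pow, (ha : a ^ m' = 1), map_one]))
      (MonoidHom.mem_ker.mpr (by show (Abelianization.of b) ^ m' = 1; rw [← map_pow, (hb : b ^ m' = 1), map_one]))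
  -- some element of `P` moves `A`
  obtain ⟨y, hy, a₁, ha₁, hy1⟩ : ∃ y ∈ (P : Subgroup C), ∃ a ∈ A, a * y ≠ y * a := by
    by_contra hc
    push Not at hc
    apply hCna
    refine ⟨⟨fun c d => ?_⟩⟩
    obtain ⟨a, ha, b, hb, rfl⟩ := hdec c
    obtain ⟨a', ha', b', hb', rfl⟩ := hdec d
    have e1 : Commute a a' := hAab a ha a' ha'
    have e2 : Commute a b' := hc b' hb' a ha
    have e3 : Commute b a' := (hc b hb a' ha').symm
    have e4 : Commute b b' := Subtype.ext (comm_apply hPab hb hb')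
    exact ((e1.mul_right e2).mul_left (e3.mul_right e4)).eq
  have hcyc : ∀ t ∈ (P : Subgroup C), ∃ k : ℤ, y ^ k = t := by
    intro t ht
    let H : Subgroup C := A ⊔ Subgroup.zpowers y
    have hHn : H.Normal := by
      refine ⟨fun n hn g => ?_⟩
      obtain ⟨a, ha, b, hb, rfl⟩ := Subgroup.mem_sup_of_normal_left.mp hn
      obtain ⟨a', ha', b', hb', rfl⟩ := hdec g
      obtain ⟨k, rfl⟩ := Subgroup.mem_zpowers_iff.mp hb
      have e4 : Commute b' (y ^ k) := Subtype.ext (comm_apply hPab hb' (zpow_mem hy k))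
      have : a' * b' * (a * y ^ k) * (a' * b')⁻¹ =
          a' * (b' * a * b'⁻¹) * ((y ^ k) * a'⁻¹ * (y ^ k)⁻¹) * y ^ k := by
        rw [mul_inv_rev]
        calc a' * b' * (a * y ^ k) * (b'⁻¹ * a'⁻¹) = a' * (b' * a) * (y ^ k * b'⁻¹) * a'⁻¹ := by group
          _ = a' * (b' * a) * (b'⁻¹ * y ^ k) * a'⁻¹ := by rw [(e4.inv_left).eq]
          _ = _ := by group
      rw [this]
      exact mul_mem (Subgroup.mem_sup_left (mul_mem (mul_mem ha' (hAn.conj_mem a ha b'))
        (hAn.conj_mem _ (inv_mem ha') _))) (Subgroup.mem_sup_right (zpow_mem (Subgroup.mem_zpowers y) k))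
    have hHt : H = ⊤ := by
      by_contra hne
      exact hy1 (comm_apply (sub_normal_comm hs C hHn hne) (Subgroup.mem_sup_left ha₁)
        (Subgroup.mem_sup_right (Subgroup.mem_zpowers y)))
    obtain ⟨a, ha, b, hb, hab⟩ := Subgroup.mem_sup_of_normal_left.mp (show t ∈ H by rw [hHt]; trivial)
    obtain ⟨k, rfl⟩ := Subgroup.mem_zpowers_iff.mp hb
    refine ⟨k, ?_⟩
    have : a = 1 := hAP a ha (by
      rw [eq_mul_inv_of_mul_eq hab]; exact mul_mem ht (inv_mem (zpow_mem hy k)))
    rw [← hab, this, one_mul]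
  haveI : IsCyclic (PG : Subgroup G) := by
    refine ⟨⟨⟨(y : G), hy⟩, fun t => ?_⟩⟩
    obtain ⟨k, hk⟩ := hcyc ⟨t, hPC t.2⟩ t.2
    exact ⟨k, Subtype.ext (by simpa using congrArg Subtype.val hk)⟩
  refine burnside_contra (not_pgroup hna) PG (fun h => hx1 (Subgroup.mem_bot.mp (h ▸ hxP))) ?_
  intro n hn
  -- `n` normalizes `⟨x⟩`
  have hnx : n * x * n⁻¹ ∈ Subgroup.zpowers x := by
    have hmem : n * x * n⁻¹ ∈ (PG : Subgroup G) := (Subgroup.mem_normalizer_iff.mp hn x).mp hxP
    have hz1 : Subgroup.zpowers (n * x * n⁻¹) = Subgroup.zpowers x := by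
      refine OddLocal.eq_of_card_eq_of_isCyclic (C := (PG : Subgroup G)) inferInstance
        (Subgroup.zpowers_le.mpr hmem) (Subgroup.zpowers_le.mpr hxP) ?_
      rw [Nat.card_zpowers, Nat.card_zpowers]
      exact orderOf_injective (MulAut.conj n).toMonoidHom (MulAut.conj n).injective x
    exact hz1 ▸ Subgroup.mem_zpowers _
  have hnC : n ∈ C := by
    rw [← hs C hCna]
    obtain ⟨k, hk⟩ := Subgroup.mem_zpowers_iff.mp hnx
    have hsub : ∀ w ∈ C, n⁻¹ * w * n ∈ C := fun w hw => (memC _).mpr (by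
      have h1 : (n * x * n⁻¹) * w = w * (n * x * n⁻¹) := by
        rw [← hk]; exact (Commute.zpow_left ((memC w).mp hw) k).eq
      calc x * (n⁻¹ * w * n) = n⁻¹ * ((n * x * n⁻¹) * w) * n := by group
        _ = n⁻¹ * (w * (n * x * n⁻¹)) * n := by rw [h1]
        _ = n⁻¹ * w * n * x := by group)
    have hle : C.map (MulAut.conj n⁻¹).toMonoidHom ≤ C := by
      rintro _ ⟨w, hw, rfl⟩
      simpa using hsub w hw
    have heq := Subgroup.eq_of_le_of_card_ge hle
      (Subgroup.card_map_of_injective (MulAut.conj n⁻¹).injective).ge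
    rw [Subgroup.mem_normalizer_iff]
    intro w
    constructor
    · intro hw
      obtain ⟨v, hv, hv'⟩ := heq.symm ▸ hw
      have hv'' : n⁻¹ * v * n = w := by simpa using hv'
      rw [← hv'']
      simpa [mul_assoc] using hv
    · intro hw
      simpa [mul_assoc] using hsub _ hw
  obtain ⟨a, ha, b, hb, hab⟩ := hdec ⟨n, hnC⟩
  have hnab : n = (a : G) * (b : G) := (congrArg Subtype.val hab).symm
  have haN : ∀ t ∈ (P : Subgroup C), a * t * a⁻¹ ∈ (P : Subgroup C) := by
    intro t ht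
    have h1 : n * (t : G) * n⁻¹ ∈ (PG : Subgroup G) := (Subgroup.mem_normalizer_iff.mp hn _).mp ht
    have hbt : (b : G) * t = t * b := comm_apply hPab hb ht
    rw [hnab, mul_inv_rev, mul_assoc (a : G), hbt] at h1
    rw [hPcoe]
    simpa [mul_assoc] using h1
  rw [Subgroup.mem_centralizer_iff]
  intro t ht
  let t' : C := ⟨t, hPC ht⟩
  have h1 : a * t' * a⁻¹ * t'⁻¹ = 1 := by
    refine hAP _ ?_ (mul_mem (haN t' ht) (inv_mem ht))
    have : a * t' * a⁻¹ * t'⁻¹ = a * (t' * a⁻¹ * t'⁻¹) := by group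
    rw [this]
    exact mul_mem ha (hAn.conj_mem _ (inv_mem ha) t')
  rw [mul_inv_eq_one, mul_inv_eq_iff_eq_mul] at h1
  have h1' : (a : G) * t = t * a := congrArg Subtype.val h1
  rw [hnab, ← mul_assoc, ← h1', mul_assoc, mul_assoc, comm_apply hPab ht ((hPcoe b).mp hb)]

end Cfsg.Agent.OddChar.SelfNormNA
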