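import Cfsg.Agent.OddChar.Degree18Sylow
import Cfsg.Agent.FGS4.SylowNumber

/-!
Centreless groups whose Sylow numbers are `18`, `136` and `153`.
-/

set_option autoImplicit false

open MulAction Subgroup

namespace Cfsg.Agent.OddChar.SylowNumbers18

variable {G : Type*} [Group G] [Finite G]

theorem card_congr {A B : Type*} [Group A] [Group B] [Finite A] [Finite B] (e : A ≃* B) (p : ℕ)
    [Fact p.Prime] : Nat.card (Sylow p A) = Nat.card (Sylow p B) := by
  obtain ⟨P⟩ : Nonempty (Sylow p A) := inferInstance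
  obtain ⟨Q⟩ : Nonempty (Sylow p B) := inferInstance
  refine Nat.card_eq_of_bijective (Sylow.mapSurjective (f := e.toMonoidHom) e.surjective)
    ⟨fun R S hRS => ?_, Sylow.mapSurjective_surjective e.surjective p⟩
  refine Sylow.ext ?_
  have := congrArg Sylow.toSubgroup hRS
  exact Subgroup.map_injective e.injective this

/-- A number of Sylow subgroups in the given set determines it from the prime. -/
theorem value_of_mem {r : ℕ} [Fact r.Prime] {n : ℕ} (hn : n ∈ ({18, 136, 153} : Set ℕ))
    (hm : n ≡ 1 [MOD r]) :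
    (r = 17 ∧ n = 18) ∨ ((r = 3 ∨ r = 5) ∧ n = 136) ∨ ((r = 2 ∨ r = 19) ∧ n = 153) := by
  have hr : r.Prime := Fact.out
  have h1 : 1 ≤ n := by
    rcases hn with rfl | rfl | rfl <;> norm_num
  have hdvd : r ∣ n - 1 := (Nat.modEq_iff_dvd' h1).mp hm.symm
  rcases hn with rfl | rfl | rfl
  · exact Or.inl ⟨(Nat.prime_dvd_prime_iff_eq hr (by norm_num)).mp hdvd, rfl⟩
  · have : r ∣ 3 ^ 3 * 5 := by simpa using hdvd
    refine Or.inr (Or.inl ⟨?_, rfl⟩)
    rcases hr.dvd_mul.mp this with h | h
    · exact Or.inl ((Nat.prime_dvd_prime_iff_eq hr (by norm_num)).mp (hr.dvd_of_dvd_pow h))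
    · exact Or.inr ((Nat.prime_dvd_prime_iff_eq hr (by norm_num)).mp h)
  · have : r ∣ 2 ^ 3 * 19 := by simpa using hdvd
    refine Or.inr (Or.inr ⟨?_, rfl⟩)
    rcases hr.dvd_mul.mp this with h | h
    · exact Or.inl ((Nat.prime_dvd_prime_iff_eq hr (by norm_num)).mp (hr.dvd_of_dvd_pow h))
    · exact Or.inr ((Nat.prime_dvd_prime_iff_eq hr (by norm_num)).mp h)

variable {F : Type*} [Field F] [Fintype F]

theorem main (hZ : Subgroup.center G = ⊥)
    (hNS : {c : ℕ | ∃ r : ℕ, r.Prime ∧ r ∣ Nat.card G ∧ c = Nat.card (Sylow r G)} =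
      ({18, 136, 153} : Set ℕ)) (hF : Fintype.card F = 17) :
    Nonempty (G ≃* Matrix.ProjectiveSpecialLinearGroup (Fin 2) F) ∨
      Nonempty (G ≃* (GL (Fin 2) F ⧸ Subgroup.center (GL (Fin 2) F))) := by
  classical
  have hval : ∀ (r : ℕ) [Fact r.Prime], r ∣ Nat.card G →
      (r = 17 ∧ Nat.card (Sylow r G) = 18) ∨ ((r = 3 ∨ r = 5) ∧ Nat.card (Sylow r G) = 136) ∨
      ((r = 2 ∨ r = 19) ∧ Nat.card (Sylow r G) = 153) := by
    intro r _ hr
    exact value_of_mem (hNS ▸ ⟨r, Fact.out, hr, rfl⟩) (card_sylow_modEq_one r G)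
  haveI : Fact (Nat.Prime 17) := ⟨by norm_num⟩
  -- `17` divides the order and has eighteen Sylow subgroups
  obtain ⟨r, hrp, hr, hrn⟩ : 18 ∈ {c : ℕ | ∃ r : ℕ, r.Prime ∧ r ∣ Nat.card G ∧ c = Nat.card (Sylow r G)} := by
    rw [hNS]; simp
  obtain ⟨h17, hn17⟩ : 17 ∣ Nat.card G ∧ Nat.card (Sylow 17 G) = 18 := by
    haveI := Fact.mk hrp
    rcases hval r hr with ⟨rfl, h⟩ | ⟨-, h⟩ | ⟨-, h⟩
    · exact ⟨hr, h⟩
    all_goals omega
  haveI : Fintype (Sylow 17 G) := Fintype.ofFinite _
  set φ := toPermHom G (Sylow 17 G) with hφ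
  set K := φ.range with hK
  set L := φ.ker with hL
  obtain ⟨P⟩ : Nonempty (Sylow 17 G) := inferInstance
  haveI htrans : IsPretransitive K (Sylow 17 G) := ⟨fun A B => by
    obtain ⟨g, hg⟩ := exists_smul_eq G A B
    exact ⟨⟨φ g, g, rfl⟩, hg⟩⟩
  have hfixP : ∀ g ∈ (P : Subgroup G), g • P = P := fun g hg =>
    Sylow.smul_eq_iff_mem_normalizer.mpr (Subgroup.le_normalizer hg)
  have huniq : ∀ B : Sylow 17 G, (∀ g ∈ (P : Subgroup G), g • B = B) → B = P := by
    intro B hB
    have hle : (P : Subgroup G) ≤ normalizer ((B : Subgroup G) : Set G) :=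
      fun g hg => Sylow.smul_eq_iff_mem_normalizer.mp (hB g hg)
    have := B.3 (P.2.to_sup_of_normal_right' B.2 hle) le_sup_right
    exact (FGS4.sylow_eq_of_le (R := P) (S := B) (le_sup_left.trans this.le)).symm
  -- the image of `P` has order `17`
  set P' := (P : Subgroup G).map φ.rangeRestrict with hP'
  have hP'17 : Nat.card P' = 17 := by
    obtain ⟨n, hn⟩ := IsPGroup.iff_card.mp (P.2.map φ.rangeRestrict)
    have hdvd : Nat.card P' ∣ Nat.factorial 18 := by
      refine (Subgroup.card_subgroup_dvd_card P').trans ?_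
      refine (Subgroup.card_subgroup_dvd_card K).trans ?_
      rw [Nat.card_eq_fintype_card, Fintype.card_perm, ← Nat.card_eq_fintype_card, hn17]
    rw [hP', hn] at hdvd ⊢
    have hn1 : n ≤ 1 := by
      by_contra hcon
      have h289 : 17 ^ 2 ∣ Nat.factorial 18 := (pow_dvd_pow 17 (by omega)).trans hdvd
      revert h289
      decide +kernel
    have hn0 : n ≠ 0 := by
      rintro rfl
      rw [pow_zero, Subgroup.card_eq_one] at hn
      have hall : ∀ B : Sylow 17 G, B = P := fun B => huniq B fun g hg => by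
        have : φ.rangeRestrict g = 1 := by
          rw [← Subgroup.mem_bot, ← hn]; exact ⟨g, hg, rfl⟩
        exact congrArg (fun f : K => (f : Equiv.Perm (Sylow 17 G)) B) this
      haveI : Subsingleton (Sylow 17 G) := ⟨fun A B => (hall A).trans (hall B).symm⟩
      rw [Nat.card_of_subsingleton P] at hn17
      omega
    rw [show n = 1 by omega, pow_one]
  haveI : IsCyclic P' := isCyclic_of_prime_card hP'17
  obtain ⟨u0, hu0⟩ := IsCyclic.exists_generator (α := P')
  have hordu : orderOf (u0 : K) = 17 := by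
    rw [Subgroup.orderOf_coe, orderOf_eq_card_of_forall_mem_zpowers hu0, hP'17]
  have hP'z : P' = zpowers (u0 : K) := by
    refine le_antisymm (fun x hx => ?_) (zpowers_le.mpr u0.2)
    obtain ⟨k, hk⟩ := hu0 ⟨x, hx⟩
    exact ⟨k, by simpa using congrArg Subtype.val hk⟩
  have hD : Degree18.Datum K P (u0 : K) := by
    refine ⟨by rw [← Nat.card_eq_fintype_card, hn17], htrans, hordu, ?_, ?_, ?_⟩
    · obtain ⟨g, hg, hgu⟩ := u0.2
      rw [← hgu]
      exact hfixP g hg
    · intro B hB
      refine huniq B fun g hg => ?_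
      have hB' : (u0 : K) ∈ stabilizer K B := hB
      have : φ.rangeRestrict g ∈ stabilizer K B :=
        (zpowers_le.mpr hB') (hP'z ▸ ⟨g, hg, rfl⟩)
      exact this
    · intro x hx
      obtain ⟨g, hg⟩ := x.2
      have hgP : g • P = P := by
        have h1 : x • P = P := hx
        rw [Subgroup.smul_def, ← hg] at h1
        exact h1
      rw [← hP'z]
      obtain ⟨u1, hu1, hu1e⟩ := u0.2
      refine ⟨g * u1 * g⁻¹,
        (Subgroup.mem_normalizer_iff.mp (Sylow.smul_eq_iff_mem_normalizer.mp hgP) u1).mp hu1, ?_⟩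
      rw [← hu1e, map_mul, map_mul, map_inv, show φ.rangeRestrict g = x from Subtype.ext hg]
  obtain ⟨B, hB⟩ := Fintype.exists_ne_of_one_lt_card
    (by rw [← Nat.card_eq_fintype_card, hn17]; norm_num) P
  have hcK : Nat.card K = 18 * 17 * 16 ∨ Nat.card K = 18 * 17 * 8 :=
    (Degree18.cases hD).imp And.left And.left
  have hKdvd : Nat.card K ∣ Nat.card G := Subgroup.card_range_dvd φ
  have hiso : G ⧸ L ≃* K := QuotientGroup.quotientKerEquivRange φ
  have h2G : 2 ∣ Nat.card G := dvd_trans (by rcases hcK with e | e <;> rw [e] <;> norm_num) hKdvd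
  have h3G : 3 ∣ Nat.card G := dvd_trans (by rcases hcK with e | e <;> rw [e] <;> norm_num) hKdvd
  have hn2 : ∀ h : Fact (Nat.Prime 2), Nat.card (Sylow 2 G) = 153 := fun _ => by
    rcases hval 2 h2G with ⟨h, -⟩ | ⟨h, -⟩ | ⟨-, h⟩ <;> first | exact h | omega
  have hn3 : ∀ h : Fact (Nat.Prime 3), Nat.card (Sylow 3 G) = 136 := fun _ => by
    rcases hval 3 h3G with ⟨h, -⟩ | ⟨-, h⟩ | ⟨h, -⟩ <;> first | exact h | omega
  -- the Sylow numbers of the quotient
  have hone : ∀ (p : ℕ) [Fact p.Prime], (p = 2 ∨ p = 3 ∨ p = 17) → ∀ R : Sylow p G,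
      Nat.card (Sylow p ↥((R : Subgroup G) ⊔ L)) = 1 := by
    intro p _ hp R
    have h := FGS4.card_sylow_eq_quotient_mul L R
    rw [card_congr hiso p] at h
    have hK' : Nat.card (Sylow p K) = Nat.card (Sylow p G) := by
      obtain ⟨Rk⟩ : Nonempty (Sylow p K) := inferInstance
      rcases hp with rfl | rfl | rfl
      · rw [hn2 ‹_›]; exact Degree18.card_sylow_two hD Rk
      · rw [hn3 ‹_›]
        refine Degree18.card_sylow_three hD Rk ?_
        rw [← hn3 ‹_›]
        exact ⟨_, h⟩
      · rw [hn17]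
        have hnd : ¬ 17 ∣ P'.index := fun hd => by
          have := P'.index_mul_card
          rw [hP'17] at this
          obtain ⟨k, hk⟩ := hd
          rcases hcK with e | e <;> rw [e, hk] at this <;> omega
        have hp17 : IsPGroup 17 P' := P.2.map _
        have hN : normalizer ((P' : Subgroup K) : Set K) = stabilizer K P := by
          refine le_antisymm (fun x hx => ?_) (fun x hx => ?_)
          · refine hD.unique _ ?_
            change (u0 : K) • x • P = x • P
            have hm : x⁻¹ * (u0 : K) * x ∈ P' :=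
              (Subgroup.mem_normalizer_iff''.mp hx _).mp u0.2
            replace hm := hP'z.le hm
            have h2 : x⁻¹ * (u0 : K) * x ∈ stabilizer K P :=
              zpowers_le.mpr (Degree18.smul_a hD) hm
            rw [mem_stabilizer_iff, mul_smul, mul_smul, inv_smul_eq_iff] at h2
            exact h2
          · refine Subgroup.mem_normalizer_fintype (S := (P' : Set K)) fun y hy => ?_
            rw [SetLike.mem_coe, hP'z] at hy ⊢
            obtain ⟨k, rfl⟩ := hy
            rw [← conj_zpow]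
            exact zpow_mem (hD.normal x hx) k
        rw [Sylow.card_eq_index_normalizer (hp17.toSylow hnd)]
        exact (congrArg Subgroup.index hN).trans ((index_stabilizer_of_transitive K P).trans hn17)
    rw [hK'] at h
    exact mul_left_cancel₀ (Nat.card_pos (α := Sylow p G)).ne' (h.symm.trans (mul_one _).symm)
  -- the normal Sylow subgroup of `L` for the prime `17`
  have hnormR : ∀ (p : ℕ) [Fact p.Prime], (p = 2 ∨ p = 3 ∨ p = 17) → ∀ R : Sylow p G,
      ∀ x ∈ L, x ∈ normalizer ((R : Subgroup G) : Set G) := by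
    intro p _ hp R x hx
    haveI : Subsingleton (Sylow p ↥((R : Subgroup G) ⊔ L)) :=
      (Nat.card_eq_one_iff_unique.mp (hone p hp R)).1
    have hnor := Sylow.normal_of_subsingleton
      (R.subtype (le_sup_left : (R : Subgroup G) ≤ (R : Subgroup G) ⊔ L))
    rw [Sylow.coe_subtype] at hnor
    exact Subgroup.le_normalizer_of_normal_subgroupOf le_sup_left (Subgroup.mem_sup_right hx)
  -- no further primes
  have hprimes : ∀ p : ℕ, p.Prime → p ∣ Nat.card G → p = 2 ∨ p = 3 ∨ p = 17 := by
    intro p hp hpd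
    haveI := Fact.mk hp
    by_contra hne
    have hp519 : p = 5 ∨ p = 19 := by
      rcases hval p hpd with ⟨h, -⟩ | ⟨h | h, -⟩ | ⟨h | h, -⟩ <;> tauto
    obtain ⟨R⟩ : Nonempty (Sylow p G) := inferInstance
    have hRL : (R : Subgroup G) ≤ L := by
      intro x hx
      obtain ⟨k, hk⟩ := R.2 ⟨x, hx⟩
      have hx' : orderOf x ∣ p ^ k := orderOf_dvd_of_pow_eq_one (by simpa using congrArg Subtype.val hk)
      have h1 : orderOf (φ.rangeRestrict x) ∣ Nat.gcd (p ^ k) (Nat.card K) :=
        Nat.dvd_gcd ((orderOf_map_dvd _ x).trans hx') (orderOf_dvd_natCard _)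
      have hcop : Nat.gcd (p ^ k) (Nat.card K) = 1 := by
        refine Nat.Coprime.pow_left k ((Nat.Prime.coprime_iff_not_dvd hp).mpr ?_)
        rcases hp519 with e | e <;> rcases hcK with e' | e' <;> rw [e, e'] <;> norm_num
      rw [hcop, Nat.dvd_one, orderOf_eq_one_iff] at h1
      exact MonoidHom.mem_ker.mpr (congrArg Subtype.val h1)
    have hnL : Nat.card (Sylow p L) = Nat.card (Sylow p G) := by
      rw [← FGS4.card_sylow_le L R hRL]
      refine Nat.card_congr (Equiv.subtypeUnivEquiv fun S => ?_)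
      obtain ⟨g, rfl⟩ := exists_smul_eq G R S
      intro x hx
      rw [Sylow.coe_subgroup_smul, Subgroup.mem_pointwise_smul_iff_inv_smul_mem] at hx
      have := (MonoidHom.normal_ker φ).conj_mem _ (hRL hx) g
      change x ∈ φ.ker
      rw [MulAut.smul_def, MulAut.conj_inv_apply] at this
      simpa [mul_assoc] using this
    -- the Sylow `17`-subgroup of `L`
    let Q : Subgroup L := (P : Subgroup G).subgroupOf L
    have hQp : IsPGroup 17 Q := P.2.comap_subtype
    haveI hQn : Q.Normal := by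
      constructor
      intro q hq x
      exact (Subgroup.mem_normalizer_iff.mp (hnormR 17 (Or.inr (Or.inr rfl)) P x x.2) q).mp hq
    obtain ⟨RL⟩ : Nonempty (Sylow p L) := inferInstance
    have h := FGS4.card_sylow_eq_quotient_mul Q RL
    rw [hnL] at h
    have hnd : ¬ 17 ∣ Nat.card (L ⧸ Q) := by
      rw [← Subgroup.index_eq_card]
      exact FGS4.not_dvd_index_subgroupOf_normal L P
    have hq : ¬ 17 ∣ Nat.card (Sylow p (L ⧸ Q)) := fun hd => hnd (hd.trans (by
      obtain ⟨S⟩ : Nonempty (Sylow p (L ⧸ Q)) := inferInstance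
      rw [Sylow.card_eq_index_normalizer S]
      exact Subgroup.index_dvd_card _))
    -- the number inside `R Q` is a power of `17`
    obtain ⟨k, hk⟩ : ∃ k,
        Nat.card (Sylow p ↥((RL : Subgroup L) ⊔ Q)) = 17 ^ k := by
      obtain ⟨n, hn⟩ := IsPGroup.iff_card.mp hQp
      have hle : (RL : Subgroup L) ≤ (RL : Subgroup L) ⊔ Q := le_sup_left
      have hd : Nat.card (Sylow p ↥((RL : Subgroup L) ⊔ Q)) ∣ Nat.card Q := by
        refine (Sylow.card_dvd_index (RL.subtype hle)).trans ?_
        rw [Sylow.coe_subtype]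
        have h1 := Subgroup.relIndex_mul_relIndex ⊥ (RL : Subgroup L) ((RL : Subgroup L) ⊔ Q)
          bot_le hle
        have h2 := Subgroup.relIndex_mul_relIndex ⊥ Q ((RL : Subgroup L) ⊔ Q) bot_le le_sup_right
        rw [Subgroup.relIndex_sup_right, ← h1, relIndex_bot_left, relIndex_bot_left] at h2
        have h3 : Q.relIndex (RL : Subgroup L) = Nat.card (RL : Subgroup L) := by
          rw [← Subgroup.inf_relIndex_right,
            Subgroup.inf_eq_bot_of_coprime, relIndex_bot_left]
          rw [hn, RL.card_eq_multiplicity]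
          exact Nat.Coprime.pow _ _ ((Nat.coprime_primes (by norm_num) hp).mpr
            (by rcases hp519 with e | e <;> omega))
        rw [h3] at h2
        rw [mul_comm] at h2
        exact dvd_of_eq (Nat.eq_of_mul_eq_mul_left Nat.card_pos h2).symm
      rw [hn] at hd
      obtain ⟨k, hk, hk'⟩ := (Nat.dvd_prime_pow (by norm_num)).mp hd
      exact ⟨k, hk'⟩
    have hmod : Nat.card (Sylow p ↥((RL : Subgroup L) ⊔ Q)) ≡ 1 [MOD p] := card_sylow_modEq_one p _
    rw [hk] at h hmod
    have hG' : Nat.card (Sylow p G) = 136 ∨ Nat.card (Sylow p G) = 153 := by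
      rcases hval p hpd with ⟨h', -⟩ | ⟨-, h'⟩ | ⟨-, h'⟩
      · exfalso; rcases hp519 with e | e <;> omega
      · exact Or.inl h'
      · exact Or.inr h'
    have h17n : 17 ∣ Nat.card (Sylow p G) := by
      rcases hG' with e | e <;> rw [e] <;> norm_num
    have hk0 : k ≠ 0 := by
      rintro rfl
      rw [pow_zero, mul_one] at h
      exact hq (h ▸ h17n)
    have hk2 : k < 2 := by
      by_contra hcon
      have h289 : 17 ^ 2 ∣ Nat.card (Sylow p G) :=
        (pow_dvd_pow 17 (not_lt.mp hcon)).trans ⟨_, h.trans (mul_comm _ _)⟩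
      rcases hG' with e | e <;> rw [e] at h289 <;> norm_num at h289
    rw [show k = 1 by omega, pow_one] at hmod
    rcases hp519 with rfl | rfl <;> exact absurd hmod (by decide)
  -- `L` is trivial
  have hLbot : L = ⊥ := by
    rw [eq_bot_iff]
    by_contra hcon
    obtain ⟨s, hs, hsd⟩ := Nat.exists_prime_and_dvd (show Nat.card L ≠ 1 from
      fun h1 => hcon (le_of_eq (Subgroup.card_eq_one.mp h1)))
    haveI := Fact.mk hs
    have hs' := hprimes s hs (hsd.trans (Subgroup.card_subgroup_dvd_card L))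
    obtain ⟨S⟩ : Nonempty (Sylow s G) := inferInstance
    set Ls := (S : Subgroup G) ⊓ L with hLs
    have hSL : ∀ x ∈ L, (∃ k : ℕ, x ^ s ^ k = 1) → x ∈ (S : Subgroup G) := by
      rintro x hx ⟨k, hk⟩
      have hp : IsPGroup s (zpowers x) := by
        obtain ⟨j, -, hj⟩ := (Nat.dvd_prime_pow hs).mp (orderOf_dvd_of_pow_eq_one hk)
        exact IsPGroup.of_card (n := j) (by rw [Nat.card_zpowers, hj])
      have := S.3 (hp.to_sup_of_normal_right' S.2 (zpowers_le.mpr (hnormR s hs' S x hx))) le_sup_right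
      exact (zpowers_le.mp (le_sup_left.trans this.le))
    have hLsn : ∀ g : G, ∀ x ∈ Ls, g * x * g⁻¹ ∈ Ls := by
      intro g x hx
      have hgx : g * x * g⁻¹ ∈ L := (MonoidHom.normal_ker φ).conj_mem _ hx.2 g
      refine ⟨hSL _ hgx ?_, hgx⟩
      obtain ⟨k, hk⟩ := S.2 ⟨x, hx.1⟩
      refine ⟨k, ?_⟩
      rw [conj_pow, show x ^ s ^ k = 1 by simpa using congrArg Subtype.val hk, mul_one,
        mul_inv_cancel]
    -- a central element
    have hpS : IsPGroup s (S : Subgroup G) := S.2
    obtain ⟨z, hz⟩ := exists_prime_orderOf_dvd_card' s hsd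
    have hzL : (z : G) ∈ Ls := ⟨hSL z z.2 ⟨1, by
      rw [pow_one, ← hz, ← SubgroupClass.coe_pow, pow_orderOf_eq_one, OneMemClass.coe_one]⟩, z.2⟩
    letI : MulAction (S : Subgroup G) Ls :=
      { smul := fun g x => ⟨(g : G) * x * (g : G)⁻¹, hLsn g x x.2⟩
        one_smul := fun x => Subtype.ext (show ((1 : (S : Subgroup G)) : G) * x * _ = x by simp)
        mul_smul := fun g g' x => Subtype.ext
          (show ((g * g' : (S : Subgroup G)) : G) * (x : G) * ((g * g' : (S : Subgroup G)) : G)⁻¹ =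
            (g : G) * ((g' : G) * x * (g' : G)⁻¹) * (g : G)⁻¹ by
            rw [Subgroup.coe_mul]; group) }
    have hsLs : s ∣ Nat.card Ls := by
      have := Subgroup.orderOf_dvd_natCard _ hzL
      rwa [Subgroup.orderOf_coe, hz] at this
    obtain ⟨w, hw, hw1⟩ := hpS.exists_fixed_point_of_prime_dvd_card_of_fixed_point Ls hsLs
      (a := 1) (fun g => Subtype.ext (show (g : G) * ((1 : Ls) : G) * (g : G)⁻¹ = 1 by simp))
    have hcent : (w : G) ∈ Subgroup.center G := by
      have htop : Subgroup.centralizer ({(w : G)} : Set G) = ⊤ := by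
        refine Subgroup.eq_top_of_card_eq _ (Nat.dvd_antisymm (Subgroup.card_subgroup_dvd_card _) ?_)
        refine (Nat.dvd_iff_prime_pow_dvd_dvd _ _).mpr fun t k ht htk => ?_
        rcases Nat.eq_zero_or_pos k with rfl | hk
        · simp
        haveI := Fact.mk ht
        have ht' := hprimes t ht ((dvd_pow_self t hk.ne').trans htk)
        obtain ⟨R, hR⟩ : ∃ R : Sylow t G, (R : Subgroup G) ≤ Subgroup.centralizer ({(w : G)} : Set G) := by
          by_cases hts : t = s
          · subst hts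
            refine ⟨S, fun g hg => Subgroup.mem_centralizer_singleton_iff.mpr ?_⟩
            have : g * (w : G) * g⁻¹ = w := congrArg Subtype.val (hw ⟨g, hg⟩)
            exact mul_inv_eq_iff_eq_mul.mp this
          · obtain ⟨R⟩ : Nonempty (Sylow t G) := inferInstance
            refine ⟨R, fun g hg => Subgroup.mem_centralizer_singleton_iff.mpr ?_⟩
            have h1 : g * (w : G) * g⁻¹ * (w : G)⁻¹ ∈ Ls :=
              mul_mem (hLsn g w w.2) (inv_mem w.2)
            have h2 : g * (w : G) * g⁻¹ * (w : G)⁻¹ ∈ (R : Subgroup G) := by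
              rw [show g * (w : G) * g⁻¹ * (w : G)⁻¹ = g * ((w : G) * g⁻¹ * (w : G)⁻¹) by group]
              exact mul_mem hg
                ((Subgroup.mem_normalizer_iff.mp (hnormR t ht' R w w.2.2) g⁻¹).mp (inv_mem hg))
            obtain ⟨i, hi⟩ := R.2 ⟨_, h2⟩
            obtain ⟨j, hj⟩ := S.2 ⟨_, h1.1⟩
            have h3 : orderOf (g * (w : G) * g⁻¹ * (w : G)⁻¹) ∣ Nat.gcd (t ^ i) (s ^ j) :=
              Nat.dvd_gcd (orderOf_dvd_of_pow_eq_one (by simpa using congrArg Subtype.val hi))
                (orderOf_dvd_of_pow_eq_one (by simpa using congrArg Subtype.val hj))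
            rw [Nat.Coprime.pow i j ((Nat.coprime_primes ht hs).mpr hts), Nat.dvd_one,
              orderOf_eq_one_iff] at h3
            exact mul_inv_eq_iff_eq_mul.mp (mul_inv_eq_one.mp h3)
        refine dvd_trans ?_ (Subgroup.card_dvd_of_le hR)
        rw [R.card_eq_multiplicity]
        exact pow_dvd_pow t ((ht.pow_dvd_iff_le_factorization Nat.card_pos.ne').mp htk)
      exact Subgroup.mem_center_iff.mpr fun g =>
        Subgroup.mem_centralizer_singleton_iff.mp (htop ▸ Subgroup.mem_top g)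
    rw [hZ, Subgroup.mem_bot] at hcent
    exact hw1 (Subtype.ext hcent.symm)
  let e : G ≃* K := MonoidHom.ofInjective ((MonoidHom.ker_eq_bot_iff φ).mp hLbot)
  have σ : ZMod 17 ≃+* F := ZMod.ringEquivOfPrime F (by norm_num) hF
  rcases Degree18.cases hD with ⟨-, ⟨f⟩⟩ | ⟨-, ⟨f⟩⟩
  · obtain ⟨g⟩ := PermGroups.nonempty_pgl_congr (n := Fin 2) σ
    exact Or.inr ⟨(e.trans f).trans g⟩
  · exact Or.inl ⟨(e.trans f).trans (Linear.pslCongr σ)⟩

end Cfsg.Agent.OddChar.SylowNumbers18
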