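import Cfsg.Agent.Core.Cores
import Cfsg.Prelude.Def_Solvable

/-!
The socle of a group with trivial intersection Sylow subgroups and trivial cores.
-/

set_option autoImplicit false

namespace Cfsg.Agent.OddChar

variable {H : Type*} [Group H] [Finite H] {p : ℕ} [hp : Fact p.Prime]

/-- A Sylow subgroup meets its other conjugates trivially, in element form. -/
def TIElem (P : Subgroup H) : Prop :=
  ∀ g : H, ∀ x ∈ P, x ≠ 1 → g * x * g⁻¹ ∈ P → g ∈ Subgroup.normalizer (P : Set H)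

omit [Finite H] in
theorem tiElem_conj {P : Subgroup H} (h : TIElem P) (a : H) :
    TIElem (P.map (MulAut.conj a).toMonoidHom) := by
  rintro g _ ⟨x, hx, rfl⟩ hx1 ⟨y, hy, hgy⟩
  simp only [MulEquiv.coe_toMonoidHom, MulAut.conj_apply] at hx1 hgy
  have hy' : y = (a⁻¹ * g * a) * x * (a⁻¹ * g * a)⁻¹ :=
    calc y = a⁻¹ * (a * y * a⁻¹) * a := by group
      _ = a⁻¹ * (g * (a * x * a⁻¹) * g⁻¹) * a := by rw [hgy]
      _ = _ := by group
  have hn := h _ x hx (fun h0 => hx1 (by rw [h0]; group)) (hy' ▸ hy)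
  have h2 : g = (MulAut.conj a).toMonoidHom (a⁻¹ * g * a) := by
    simp only [MulEquiv.coe_toMonoidHom, MulAut.conj_apply]; group
  rw [h2]
  exact Subgroup.le_normalizer_map _ (Subgroup.mem_map_of_mem _ hn)

theorem tiElem_sylow {P : Sylow p H} (h : TIElem (P : Subgroup H)) (P' : Sylow p H) :
    TIElem (P' : Subgroup H) := by
  obtain ⟨a, ha⟩ := MulAction.exists_smul_eq H P P'
  rw [← ha]
  exact tiElem_conj h a

omit hp in
theorem dvd_card_of_normal (hOp' : Cfsg.pPrimeCore p H = ⊥) [Fact p.Prime] (K : Subgroup H)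
    [hK : K.Normal] (h1 : K ≠ ⊥) : p ∣ Nat.card K := by
  by_contra h
  exact h1 (le_bot_iff.mp (hOp' ▸ Core.le_pPrimeCore hK
    ((Nat.Prime.coprime_iff_not_dvd Fact.out).mpr h).symm))

theorem sylow_inf_ne_bot (hOp' : Cfsg.pPrimeCore p H = ⊥) (P : Sylow p H) (K : Subgroup H)
    [hK : K.Normal] (h1 : K ≠ ⊥) : (P : Subgroup H) ⊓ K ≠ ⊥ := by
  haveI : Fact p.Prime := hp
  obtain ⟨x, hx⟩ := exists_prime_orderOf_dvd_card' (G := K) p (dvd_card_of_normal hOp' K h1)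
  have hxo : orderOf (x : H) = p := by rw [Subgroup.orderOf_coe]; exact hx
  have hp' : IsPGroup p (Subgroup.zpowers (x : H)) := IsPGroup.of_card (n := 1) (by
    rw [Nat.card_zpowers, hxo, pow_one])
  obtain ⟨Q, hQ⟩ := hp'.exists_le_sylow
  obtain ⟨a, ha⟩ := MulAction.exists_smul_eq H Q P
  intro hbot
  have h2 : a * (x : H) * a⁻¹ ∈ (P : Subgroup H) ⊓ K := by
    refine ⟨?_, hK.conj_mem _ x.2 a⟩
    rw [← ha]
    exact ⟨(x : H), hQ (Subgroup.mem_zpowers _), rfl⟩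
  rw [hbot, Subgroup.mem_bot, conj_eq_one_iff] at h2
  rw [h2, orderOf_one] at hxo
  exact hp.out.one_lt.ne hxo

/-- Two nontrivial normal subgroups meet nontrivially. -/
theorem ti_normal_meet (hOp : Cfsg.pCore p H = ⊥) (hOp' : Cfsg.pPrimeCore p H = ⊥) (P : Sylow p H)
    (hTI : TIElem (P : Subgroup H)) (K₁ K₂ : Subgroup H) [h₁ : K₁.Normal] [h₂ : K₂.Normal]
    (hK₁ : K₁ ≠ ⊥) (hK₂ : K₂ ≠ ⊥) : K₁ ⊓ K₂ ≠ ⊥ := by
  intro hdis
  obtain ⟨x, ⟨hxP, hxK⟩, hx1⟩ :=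
    (Subgroup.bot_or_exists_ne_one _).resolve_left (sylow_inf_ne_bot hOp' P K₁ hK₁)
  have hN : K₂ ≤ Subgroup.normalizer ((P : Subgroup H) : Set H) := fun k hk => by
    refine hTI k x hxP hx1 ?_
    rw [(Subgroup.commute_of_normal_of_disjoint K₁ K₂ h₁ h₂ (disjoint_iff.mpr hdis) x k hxK hk).symm.eq,
      mul_inv_cancel_right]
    exact hxP
  haveI : ((P : Subgroup H).subgroupOf K₂).Normal := ⟨fun r hr k => by
    rw [Subgroup.mem_subgroupOf] at hr ⊢
    simpa using (Subgroup.mem_normalizer_iff.mp (hN k.2) _).mp hr⟩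
  have hR : IsPGroup p ((P : Subgroup H).subgroupOf K₂) :=
    P.isPGroup'.comap_of_injective _ K₂.subtype_injective
  have h := Core.le_pCore inferInstance hR
  rw [Core.pCore_eq_bot_of_normal K₂ hOp, le_bot_iff, Subgroup.subgroupOf_eq_bot, disjoint_iff] at h
  exact sylow_inf_ne_bot hOp' P K₂ hK₂ h

/-- There is a least nontrivial normal subgroup. -/
theorem ti_least_normal (hOp : Cfsg.pCore p H = ⊥) (hOp' : Cfsg.pPrimeCore p H = ⊥) (P : Sylow p H)
    (hP : (P : Subgroup H) ≠ ⊥) (hTI : TIElem (P : Subgroup H)) :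
    ∃ N : Subgroup H, N.Normal ∧ N ≠ ⊥ ∧ ∀ K : Subgroup H, K.Normal → K ≠ ⊥ → N ≤ K := by
  obtain ⟨N, hN⟩ := (Set.toFinite {K : Subgroup H | K.Normal ∧ K ≠ ⊥}).exists_minimal
    ⟨⊤, inferInstance, fun h => hP (le_bot_iff.mp (h ▸ le_top))⟩
  refine ⟨N, hN.1.1, hN.1.2, fun K hK hK1 => ?_⟩
  haveI := hN.1.1
  exact le_trans (hN.2 ⟨inferInstance, ti_normal_meet hOp hOp' P hTI N K hN.1.2 hK1⟩ inf_le_left)
    inf_le_right

/-- Normal subgroups inherit the hypotheses. -/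
theorem ti_inherit (P : Sylow p H) (hTI : TIElem (P : Subgroup H)) (N : Subgroup H)
    (Q : Sylow p N) : TIElem (Q : Subgroup N) := by
  obtain ⟨P', hP'⟩ := Q.exists_comap_subtype_eq
  intro g x hx hx1 hgx
  rw [← hP'] at hx hgx ⊢
  have hg : (g : H) ∈ Subgroup.normalizer ((P' : Subgroup H) : Set H) :=
    tiElem_sylow hTI P' g x hx (fun h => hx1 (Subtype.ext h)) hgx
  rw [Subgroup.mem_normalizer_iff]
  exact fun y => Subgroup.mem_normalizer_iff.mp hg y

end Cfsg.Agent.OddChar
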