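import Mathlib.GroupTheory.Transfer
import Mathlib.GroupTheory.Abelianization.Defs
import Mathlib.GroupTheory.Sylow

/-!
Squares in the abelianisation of a Sylow 2-subgroup above a normal subgroup whose own
abelianisation has odd order.
-/

set_option autoImplicit false
set_option linter.unusedSectionVars false

open scoped Pointwise

namespace Cfsg.Agent.OddChar

theorem transfer_comp_hom {X A B : Type*} [Group X] [CommGroup A] [CommGroup B] {H : Subgroup X}
    [H.FiniteIndex] (f : A →* B) (φ : H →* A) (g : X) :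
    MonoidHom.transfer (f.comp φ) g = f (MonoidHom.transfer φ g) := by
  rw [MonoidHom.transfer_def (f.comp φ) default, MonoidHom.transfer_def φ default]
  simp only [Subgroup.leftTransversals.diff, map_prod, MonoidHom.comp_apply]

theorem transfer_of_extension {X A : Type*} [Group X] [CommGroup A] {H : Subgroup X} [H.FiniteIndex]
    (μ : X →* A) (g : X) : MonoidHom.transfer (μ.comp H.subtype) g = μ g ^ H.index := by
  rw [MonoidHom.transfer_def (μ.comp H.subtype) default]
  simp only [Subgroup.leftTransversals.diff, MonoidHom.comp_apply, Subgroup.coe_subtype, map_mul, map_inv]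
  let T : H.LeftTransversal := default
  letI := H.fintypeQuotientOfFiniteIndex
  rw [Finset.prod_mul_distrib, Finset.prod_inv_distrib]
  have h : ∀ q : X ⧸ H, μ ((g • T).2.leftQuotientEquiv q : X) =
      μ g * μ (T.2.leftQuotientEquiv (g⁻¹ • q) : X) := fun q => by
    rw [Subgroup.smul_apply_eq_smul_apply_inv_smul, smul_eq_mul, map_mul]
  rw [Finset.prod_congr rfl fun q _ => h q, Finset.prod_mul_distrib,
    show (∏ q : X ⧸ H, μ (T.2.leftQuotientEquiv (g⁻¹ • q) : X)) = ∏ q : X ⧸ H, μ (T.2.leftQuotientEquiv q : X)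
      from Fintype.prod_equiv (MulAction.toPerm (g⁻¹ : X)) _ _ fun q => rfl,
    Finset.prod_const, Finset.card_univ, ← Nat.card_eq_fintype_card, ← Subgroup.index_eq_card]
  rw [mul_comm (μ g ^ H.index), inv_mul_cancel_left]

variable {G : Type*} [Group G] [Finite G]

theorem abelianization_squares (N : Subgroup G) [N.Normal] (P : Sylow 2 G)
    (hP : ∀ x ∈ (P : Subgroup G), x ^ 2 ∈ ((P : Subgroup G) ⊓ N) ⊔ ⁅(P : Subgroup G), (P : Subgroup G)⁆)
    (hQ : ∀ x ∈ (P : Subgroup G) ⊓ N, x ^ 2 ∈ ⁅(P : Subgroup G) ⊓ N, (P : Subgroup G) ⊓ N⁆)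
    (hodd : Odd (Nat.card (Abelianization N))) :
    ∀ x ∈ (P : Subgroup G), x ^ 2 ∈ ⁅(P : Subgroup G), (P : Subgroup G)⁆ := by
  intro x hx
  set A := Abelianization (P : Subgroup G)
  set ι : (P : Subgroup G) →* A := Abelianization.of
  have hcomm : ∀ (a : G) (ha : a ∈ (P : Subgroup G)), a ∈ ⁅(P : Subgroup G), (P : Subgroup G)⁆ ↔
      ι ⟨a, ha⟩ = 1 := by
    intro a ha
    rw [← Subgroup.map_subtype_commutator, ← MonoidHom.mem_ker, Abelianization.ker_of]
    exact Subgroup.mem_map_iff_mem (x := (⟨a, ha⟩ : (P : Subgroup G))) Subtype.coe_injective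
  have hQ2 : ∀ q : (P : Subgroup G), (q : G) ∈ N → ι q ^ 2 = 1 := fun q hq => by
    rw [← map_pow]
    exact (hcomm _ (q ^ 2).2).mp (Subgroup.commutator_mono inf_le_left inf_le_left (hQ _ ⟨q.2, hq⟩))
  have hsplit : ∀ a : (P : Subgroup G), ∃ q : (P : Subgroup G), (q : G) ∈ N ∧ ι a ^ 2 = ι q := by
    intro a
    haveI : (((P : Subgroup G) ⊓ N).subgroupOf (P : Subgroup G)).Normal := by
      rw [Subgroup.inf_subgroupOf_left]; infer_instance
    have h1 : a ^ 2 ∈ (((P : Subgroup G) ⊓ N) ⊔ ⁅(P : Subgroup G), (P : Subgroup G)⁆).subgroupOf (P : Subgroup G) :=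
      Subgroup.mem_subgroupOf.mpr (hP a a.2)
    rw [Subgroup.subgroupOf_sup inf_le_left (Subgroup.commutator_le_self _), Subgroup.mem_sup_of_normal_left] at h1
    obtain ⟨q, hq, c, hc, hqc⟩ := h1
    refine ⟨q, (Subgroup.mem_subgroupOf.mp hq).2, ?_⟩
    rw [← map_pow, ← hqc, map_mul, (hcomm _ c.2).mp (Subgroup.mem_subgroupOf.mp hc), mul_one]
  set G₀ := N ⊔ (P : Subgroup G)
  have hPG : (P : Subgroup G) ≤ G₀ := le_sup_right
  have hdec : ∀ g : G₀, ∃ a : (P : Subgroup G), (g : G) * (a : G)⁻¹ ∈ N := fun g => by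
    obtain ⟨n, hn, a, ha, h⟩ := Subgroup.mem_sup_of_normal_left.mp g.2
    exact ⟨⟨a, ha⟩, by rw [← h, mul_inv_cancel_right]; exact hn⟩
  choose π hπ using hdec
  have hwd : ∀ (g : G₀) (a : (P : Subgroup G)), (g : G) * (a : G)⁻¹ ∈ N → ι (π g) ^ 2 = ι a ^ 2 := by
    intro g a ha
    have h : (((π g)⁻¹ * a : (P : Subgroup G)) : G) ∈ N := by
      have hn := N.mul_mem (N.inv_mem ha) (hπ g)
      rw [show ((g : G) * (a : G)⁻¹)⁻¹ * ((g : G) * (π g : G)⁻¹) = (a : G) * (π g : G)⁻¹ by group] at hn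
      have := (inferInstance : N.Normal).conj_mem _ hn (π g : G)⁻¹
      simpa [mul_assoc] using this
    have := hQ2 _ h
    rw [map_mul, map_inv, mul_pow, inv_pow, inv_mul_eq_one] at this
    exact this
  let μ : G₀ →* A := MonoidHom.mk' (fun g => ι (π g) ^ 2) fun g g' => by
    rw [hwd (g * g') (π g * π g'), map_mul, mul_pow]
    rw [Subgroup.coe_mul, Subgroup.coe_mul, show ((g : G) * g') * ((π g : G) * π g')⁻¹ =
      ((g : G) * ((g' : G) * (π g' : G)⁻¹) * (g : G)⁻¹) * ((g : G) * (π g : G)⁻¹) by group]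
    exact N.mul_mem ((inferInstance : N.Normal).conj_mem _ (hπ g') _) (hπ g)
  set H := (P : Subgroup G).subgroupOf G₀
  let e : H →* (P : Subgroup G) := (Subgroup.subgroupOfEquivOfLe hPG).toMonoidHom
  let φ : H →* A := ι.comp e
  have hsq : (powMonoidHom 2).comp φ = μ.comp H.subtype := MonoidHom.ext fun h => by
    show φ h ^ 2 = ι (π (h : G₀)) ^ 2
    exact (hwd _ (e h) (by
      rw [show ((e h : (P : Subgroup G)) : G) = ((h : G₀) : G) from rfl, mul_inv_cancel]
      exact N.one_mem)).symm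
  set V := MonoidHom.transfer φ
  have hV2 : ∀ g : G₀, V g ^ 2 = μ g ^ H.index := fun g => by
    rw [← transfer_of_extension μ g, ← hsq, transfer_comp_hom]; rfl
  have hVN : ∀ n : G₀, (n : G) ∈ N → V n = 1 := by
    intro n hn
    let f : N →* A := V.comp (Subgroup.inclusion le_sup_left)
    have h1 : orderOf (f ⟨n, hn⟩) ∣ Nat.card (Abelianization N) := by
      rw [← Abelianization.lift_apply_of f ⟨n, hn⟩]
      exact (orderOf_map_dvd _ _).trans (orderOf_dvd_natCard _)
    obtain ⟨k, hk⟩ := (P.isPGroup'.to_quotient (commutator (P : Subgroup G))).exists_orderOf_eq_pow (f ⟨n, hn⟩)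
    have hfn : f ⟨n, hn⟩ = V n := rfl
    rw [hfn] at h1 hk
    refine orderOf_eq_one_iff.mp ?_
    have h2 : orderOf (V n) = 2 ^ k := hk
    rw [h2] at h1 ⊢
    cases k with
    | zero => rfl
    | succ k =>
      exact absurd ((dvd_pow_self 2 k.succ_ne_zero).trans h1) (hodd.not_two_dvd_nat)
  have hidx : Odd H.index := by
    rw [Nat.odd_iff, ← Nat.two_dvd_ne_zero]
    intro h
    exact P.not_dvd_index (h.trans (Subgroup.relIndex_dvd_index_of_le hPG))
  -- a product of a kernel element and a commutator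
  have hVx : V ⟨x, hPG hx⟩ ^ 2 = 1 := by
    haveI : (((P : Subgroup G) ⊓ N).subgroupOf (P : Subgroup G)).Normal := by
      rw [Subgroup.inf_subgroupOf_left]; infer_instance
    have h1 : (⟨x, hx⟩ : (P : Subgroup G)) ^ 2 ∈ (((P : Subgroup G) ⊓ N) ⊔ ⁅(P : Subgroup G), (P : Subgroup G)⁆).subgroupOf (P : Subgroup G) :=
      Subgroup.mem_subgroupOf.mpr (hP x hx)
    rw [Subgroup.subgroupOf_sup inf_le_left (Subgroup.commutator_le_self _), Subgroup.mem_sup_of_normal_left] at h1
    obtain ⟨q, hq, c, hc, hqc⟩ := h1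
    have h2 : (⟨x, hPG hx⟩ : G₀) ^ 2 = Subgroup.inclusion hPG q * Subgroup.inclusion hPG c := by
      rw [← map_mul, hqc, map_pow]; rfl
    rw [← map_pow, h2, map_mul, hVN _ (Subgroup.mem_subgroupOf.mp hq).2, one_mul]
    have h3 : Subgroup.inclusion hPG c ∈ (commutator (P : Subgroup G)).map (Subgroup.inclusion hPG) := by
      refine Subgroup.mem_map_of_mem _ ?_
      have := Subgroup.mem_subgroupOf.mp hc
      rw [← Subgroup.map_subtype_commutator] at this
      exact (Subgroup.mem_map_iff_mem Subtype.coe_injective).mp this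
    exact MonoidHom.mem_ker.mp (Abelianization.commutator_subset_ker V
      (by
        rw [commutator_def, Subgroup.map_commutator] at h3
        rw [commutator_def]
        exact Subgroup.commutator_mono le_top le_top h3))
  have hμ : μ ⟨x, hPG hx⟩ = ι ⟨x, hx⟩ ^ 2 := hwd ⟨x, hPG hx⟩ ⟨x, hx⟩ (by simp)
  obtain ⟨q, hq, hxq⟩ := hsplit ⟨x, hx⟩
  obtain ⟨r, hr⟩ := hidx
  have h4 : ι q ^ H.index = ι q := by rw [hr, pow_succ, pow_mul, hQ2 q hq, one_pow, one_mul]
  rw [hV2, hμ, hxq, h4] at hVx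
  rw [hVx, ← map_pow] at hxq
  exact (hcomm _ (Subgroup.pow_mem _ hx 2)).mpr hxq

end Cfsg.Agent.OddChar
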