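import Cfsg.Agent.OddChar.Wreath72Count

/-!
The three patterns: either the degree is two and the central inversion lies outside the kernel, or
the order of the group is seven hundred and twenty.
-/

set_option autoImplicit false

open Cfsg
open scoped Classical ComplexConjugate

namespace Cfsg.Agent.OddChar.Wreath72

open S3Cubed (virt_comp virt_indFun setA)

/-- The power of two in a product with an odd number. -/
theorem two_pow_factor {n a o : ℕ} (hn : n = 2 ^ a * o) (ho : Odd o) :
    2 ^ n.factorization 2 = 2 ^ a := by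
  subst hn
  have ho0 : o ≠ 0 := fun h => by simp [h] at ho
  rw [Nat.factorization_mul (by positivity) ho0, Finsupp.add_apply, Nat.prime_two.factorization_pow,
    Finsupp.single_eq_same, Nat.factorization_eq_zero_of_not_dvd (fun h => ?_), add_zero]
  exact (Nat.not_even_iff_odd.mpr ho) (even_iff_two_dvd.mpr h)

/-- The arithmetic of the pattern `T = 20`. -/
theorem no_twenty {k X Z C n u : ℕ} {z a b : ℤ} (hk : k % 9 = 1) (hk0 : 0 < k)
    (hgX : 126 * k = 5 * (X * X)) (hodd : Odd X ∨ Odd Z) (hZC : Z * C = 72 * k) (hn : 2 * n = C)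
    (hz1 : (20 - z) * Z = 60 * X) (hb : 2 * b = z + 8) (hbe : 2 ∣ b)
    (ha : a = -1 - z - b) (hsq : a ^ 2 ≤ C) (hu : 7 * (u : ℤ) = k * (8 + z))
    (hle : u ≤ 2 ^ n.factorization 2 * n) : False := by
  obtain ⟨w, hw⟩ : 42 ∣ X := by
    have h2 : 2 ∣ X * X := by omega
    have h3 : 3 ∣ X * X := by omega
    have h7 : 7 ∣ X * X := by omega
    have h2' : 2 ∣ X := (Nat.prime_two.dvd_mul.mp h2).elim id id
    have h3' : 3 ∣ X := (Nat.prime_three.dvd_mul.mp h3).elim id id
    have h7' : 7 ∣ X := ((show Nat.Prime 7 by norm_num).dvd_mul.mp h7).elim id id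
    omega
  subst hw
  have hkw : k = 70 * (w * w) := by nlinarith
  subst hkw
  have hw0 : 0 < w := by
    rcases Nat.eq_zero_or_pos w with rfl | h
    · simp at hk0
    · exact h
  have hZ : Odd Z := by
    rcases hodd with h | h
    · exact absurd h (Nat.not_odd_iff_even.mpr (Even.mul_right ⟨21, rfl⟩ _))
    · exact h
  have hZ0 : 0 < Z := hZ.pos
  have hz : 4 ∣ z := by omega
  push_cast at hu
  have hu' : (u : ℤ) = 10 * ((w : ℤ) * w) * (8 + z) := by linarith
  have hww : 0 < (w : ℤ) * w := by positivity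
  have hlo : -8 ≤ z := by nlinarith [Int.natCast_nonneg u]
  have hhi : z < 20 := by
    by_contra hge
    have h0 : (20 - z) * Z ≤ 0 := mul_nonpos_of_nonpos_of_nonneg (by omega) (Int.natCast_nonneg _)
    push_cast at hz1
    omega
  obtain ⟨q, rfl⟩ := hZ
  have hcases : (z = -4 ∧ 2 * q + 1 = 105 * w) ∨ (z = 4 ∧ 2 * (2 * q + 1) = 315 * w) ∨
      (z = 12 ∧ 2 * q + 1 = 315 * w) := by
    push_cast at hz1
    interval_cases z <;> omega
  rcases hcases with ⟨rfl, hq⟩ | ⟨rfl, hq⟩ | ⟨rfl, hq⟩
  · have hn' : n = 2 ^ 3 * (3 * w) := by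
      rw [hq] at hZC
      have : 105 * w * (2 * n) = 105 * w * (48 * w) := by rw [hn, hZC]; ring
      have := Nat.eq_of_mul_eq_mul_left (by positivity) this
      omega
    rw [two_pow_factor hn' (Odd.mul (by decide) (Nat.odd_iff.mpr (by omega))), hn'] at hle
    have h : (u : ℤ) ≤ 192 * w := by push_cast; omega
    have hw4 : w ≤ 4 := by nlinarith
    interval_cases w <;> omega
  · obtain ⟨v, rfl⟩ : 2 ∣ w := by omega
    have hn' : n = 2 ^ 5 * v := by
      have hq' : 2 * q + 1 = 315 * v := by omega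
      rw [hq'] at hZC
      have : 315 * v * (2 * n) = 315 * v * (64 * v) := by rw [hn, hZC]; ring
      have := Nat.eq_of_mul_eq_mul_left (show 0 < 315 * v by omega) this
      omega
    rw [two_pow_factor hn' (Nat.odd_iff.mpr (by omega)), hn'] at hle
    have h : (u : ℤ) ≤ 1024 * v := by push_cast; omega
    push_cast at hu'
    have hv4 : v ≤ 2 := by nlinarith
    interval_cases v <;> norm_num at *
    all_goals first
      | omega
      | (have h11 : a = -11 := by omega
         subst h11
         norm_num at hsq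
         omega)
  · have hn' : n = 2 ^ 3 * w := by
      rw [hq] at hZC
      have : 315 * w * (2 * n) = 315 * w * (16 * w) := by rw [hn, hZC]; ring
      have := Nat.eq_of_mul_eq_mul_left (by positivity) this
      omega
    rw [two_pow_factor hn' (Nat.odd_iff.mpr (by omega)), hn'] at hle
    have h : (u : ℤ) ≤ 64 * w := by push_cast; omega
    nlinarith

/-- The arithmetic of the pattern `T = -16`. -/
theorem seven_twenty {k X Z C n u : ℕ} {z b : ℤ} (hk : k % 9 = 1) (hk0 : 0 < k)
    (hgX : 45 * k = 2 * (X * X)) (hodd : Odd X ∨ Odd Z) (hZC : Z * C = 72 * k) (hn : 2 * n = C)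
    (hz1 : (z + 16) * Z = 48 * X) (hb : 4 * b = 4 - z) (hbo : ¬ 2 ∣ b)
    (hu : 5 * (u : ℤ) = k * (4 - z)) (hle : u ≤ 2 ^ n.factorization 2 * n) : k = 10 := by
  obtain ⟨w, hw⟩ : 15 ∣ X := by
    have h5 : 5 ∣ X * X := by omega
    have h3 : 3 ∣ X * X := by omega
    have h5' : 5 ∣ X := ((show Nat.Prime 5 by norm_num).dvd_mul.mp h5).elim id id
    have h3' : 3 ∣ X := (Nat.prime_three.dvd_mul.mp h3).elim id id
    omega
  subst hw
  have hkw : k = 10 * (w * w) := by nlinarith
  subst hkw
  have hw0 : 0 < w := by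
    rcases Nat.eq_zero_or_pos w with rfl | h
    · simp at hk0
    · exact h
  push_cast at hu hz1
  have hu' : (u : ℤ) = 2 * ((w : ℤ) * w) * (4 - z) := by linarith
  have hww : 0 < (w : ℤ) * w := by positivity
  have hhi : z ≤ 4 := by nlinarith [Int.natCast_nonneg u]
  have hlo : -16 < z := by
    by_contra hge
    have h0 : (z + 16) * Z ≤ 0 := mul_nonpos_of_nonpos_of_nonneg (by omega) (Int.natCast_nonneg _)
    omega
  have hz : z = -8 ∨ z = 0 := by omega
  rcases hz with rfl | rfl
  · obtain rfl : Z = 90 * w := by omega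
    have hwo : Odd w := by
      rcases hodd with h | h
      · exact (Nat.odd_mul.mp h).2
      · exact (Nat.odd_mul.mp h).2
    have hn' : n = 2 ^ 2 * w := by
      have : 90 * w * (2 * n) = 90 * w * (8 * w) := by rw [hn, hZC]; ring
      have := Nat.eq_of_mul_eq_mul_left (by positivity) this
      omega
    rw [two_pow_factor hn' hwo, hn'] at hle
    have h : (u : ℤ) ≤ 16 * w := by push_cast; omega
    nlinarith
  · obtain rfl : Z = 45 * w := by omega
    have hwo : Odd w := by
      rcases hodd with h | h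
      · exact (Nat.odd_mul.mp h).2
      · exact (Nat.odd_mul.mp h).2
    have hn' : n = 2 ^ 3 * w := by
      have : 45 * w * (2 * n) = 45 * w * (16 * w) := by rw [hn, hZC]; ring
      have := Nat.eq_of_mul_eq_mul_left (by positivity) this
      omega
    rw [two_pow_factor hn' hwo, hn'] at hle
    have h : (u : ℤ) ≤ 64 * w := by push_cast; omega
    have hw8 : w ≤ 8 := by nlinarith
    obtain ⟨q, rfl⟩ := hwo
    have hq : q ≤ 3 := by omega
    interval_cases q <;> omega

variable {G : Type*} [Group G] [Fintype G] {H : Subgroup G} [Fintype H] {e : H ≃* W}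
  {M : Sylow 3 G}

/-- Either the degree is two, or the order is seven hundred and twenty. -/
theorem Full.two_or_order (F : Full e) (A : Ambient M H) :
    (F.cfg.D 1 = 2 ∧ (F.cfg.pts 1 : G → ℂ) (el e z0) ≠ (F.cfg.pts 1 : G → ℂ) 1) ∨
      Nat.card G = 720 := by
  obtain ⟨x, y, T, b, ξ, hx, hy, hpat, hT, hb3, hb2, hP, hP6, hx1, hy1, -, hx5, hy6, hXY, hord⟩ :=
    F.reflections
  obtain ⟨z, hz, ez1, ez5, ez6, ez2, ez3, ez7, ez8, ez4, ez0⟩ := F.central hx hy hT hP hP6 hXY
  obtain ⟨n, hn, hle⟩ := F.count_le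
  have hcount := F.count_formula A hz
  have hz0sq := el_sq_one e (w := z0) (by decide)
  have hpar := fun k => F.cfg.val_parity hz0sq hz k
  have hodd : Odd (clOf (el e r1)).card ∨ Odd (clOf (el e z0)).card := by
    rcases F.exists_odd A with h | h | h
    · exact Or.inl h
    · exact Or.inl (hXY ▸ h)
    · exact Or.inr h
  have hk := A.index_mod
  have hg : Nat.card G = 72 * H.index := by rw [← card_H e, H.card_mul_index]
  have hk0 : 0 < H.index := Nat.pos_of_ne_zero Subgroup.FiniteIndex.index_ne_zero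
  have hZC : (clOf (el e z0)).card *
      Nat.card (Subgroup.centralizer ({el e z0} : Set G)) = 72 * H.index := by
    rw [card_clOf, Subgroup.index_mul_card, hg]
  have hsq := sq_val_le hz0sq (hz 2)
  rw [mul_pow, sq (F.cfg.sgn 2), F.cfg.sgn_sq, one_mul] at hsq
  rw [hg] at hord
  push_cast at hord
  rw [hx1] at ez1
  rw [hx5] at ez5
  rw [hy6] at ez6
  have h56 : z 6 = z 5 := by
    have hZ0 : ((clOf (el e z0)).card : ℤ) ≠ 0 := by
      exact_mod_cast (Finset.card_pos.mpr ⟨_, mem_clOf.mpr (IsConj.refl (el e z0))⟩).ne'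
    exact (sub_left_inj).mp (mul_right_cancel₀ hZ0 (ez6.trans ez5.symm))
  generalize ((clOf (el e j1)).filter fun u => IsConj (el e j1) (el e z0 * u)).card = u at hle hcount
  simp only [jCol_eq, Fin.sum_univ_succ, Fin.sum_univ_zero] at hcount
  simp [-Nat.card_eq_fintype_card, Fin.succ, F.cfg.D_zero, F.cfg.D_four F.hA F.lab, hT, hb2, hb3, hP, hP6, ez0, ez3, ez4, ez7,
    ez8, h56, hg] at hcount
  have hD7 : F.cfg.D 7 = -(1 + T + b) := by
    have := F.val_twist F.cfg.isVal_one 5
    rw [F.cfg.D_four F.hA F.lab, one_mul, hP] at this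
    exact this
  have hD8 : F.cfg.D 8 = -(1 + T + b) := by
    have := F.val_twist F.cfg.isVal_one 6
    rw [F.cfg.D_four F.hA F.lab, one_mul, hP6] at this
    exact this
  rw [hD7, hD8, ez2] at hcount
  rcases hpat with ⟨rfl, rfl, rfl⟩ | ⟨rfl, rfl, rfl⟩ | ⟨rfl, rfl, rfl⟩
  · refine Or.inl ⟨hT, fun h => ?_⟩
    rw [hz, F.cfg.deg, hT] at h
    have h' : F.cfg.sgn 1 * z 1 = F.cfg.sgn 1 * 2 := by exact_mod_cast h
    have h'' := mul_left_cancel₀ (fun h0 => by simpa [h0] using F.cfg.sgn_sq 1) h'
    rw [h''] at ez1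
    have hX : 0 < (clOf (el e r1)).card := Finset.card_pos.mpr ⟨_, mem_clOf.mpr (IsConj.refl _)⟩
    omega
  · exfalso
    have h5 : 2 * z 5 = z 1 + 8 := by
      have : ((clOf (el e z0)).card : ℤ) * (2 * z 5 - z 1 - 8) = 0 := by linarith
      rcases mul_eq_zero.mp this with h | h
      · exact absurd h (by exact_mod_cast
          (Finset.card_pos.mpr ⟨_, mem_clOf.mpr (IsConj.refl (el e z0))⟩).ne')
      · omega
    have hp2 := hpar 2
    have hp5 := hpar 5
    rw [hb2] at hp2
    rw [hP] at hp5
    refine no_twenty (X := (clOf (el e r1)).card) (Z := (clOf (el e z0)).card) (n := n) (z := z 1)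
      (a := z 2) (b := z 5) (u := _) hk hk0 ?_ hodd hZC hn ?_ h5 (by omega) (by rw [ez2]) hsq ?_ hle
    · have h : (21 : ℤ) * (72 * H.index) = 60 * ((clOf (el e r1)).card * (clOf (el e r1)).card) := by
        linarith
      have h' : 21 * (72 * H.index) = 60 * ((clOf (el e r1)).card * (clOf (el e r1)).card) := by
        exact_mod_cast h
      omega
    · linarith
    · have h5' : (2 : ℚ) * z 5 = z 1 + 8 := by exact_mod_cast h5
      norm_num at hcount
      refine Int.cast_inj (α := ℚ).mp ?_
      push_cast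
      linear_combination (7 / 324 : ℚ) * hcount + (3 * (H.index : ℚ) / 5) * h5'
  · refine Or.inr ?_
    have h5 : 4 * z 5 = 4 - z 1 := by
      have : ((clOf (el e z0)).card : ℤ) * (4 * z 5 - 4 + z 1) = 0 := by linarith
      rcases mul_eq_zero.mp this with h | h
      · exact absurd h (by exact_mod_cast
          (Finset.card_pos.mpr ⟨_, mem_clOf.mpr (IsConj.refl (el e z0))⟩).ne')
      · omega
    have hp5 := hpar 5
    rw [hP] at hp5
    have := seven_twenty (X := (clOf (el e r1)).card) (Z := (clOf (el e z0)).card) (n := n)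
      (z := z 1) (b := z 5) (k := H.index) (u := _) hk hk0 ?_ hodd hZC hn ?_ h5 (by omega) ?_ hle
    · omega
    · have h : (15 : ℤ) * (72 * H.index) = 48 * ((clOf (el e r1)).card * (clOf (el e r1)).card) := by
        linarith
      have h' : 15 * (72 * H.index) = 48 * ((clOf (el e r1)).card * (clOf (el e r1)).card) := by
        exact_mod_cast h
      omega
    · linarith
    · norm_num at hcount
      have h5' : (4 : ℚ) * z 5 = 4 - z 1 := by exact_mod_cast h5
      refine Int.cast_inj (α := ℚ).mp ?_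
      push_cast
      linear_combination (5 / 324 : ℚ) * hcount + ((H.index : ℚ) / 2) * h5'

end Cfsg.Agent.OddChar.Wreath72
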