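import Cfsg.Agent.OddChar.Wreath72Arith

/-!
When the degree is two the Sylow subgroup is normal.
-/

set_option autoImplicit false

open Cfsg
open scoped Classical

namespace Cfsg.Agent.OddChar.Wreath72

theorem transl_j : ∀ s : W, s ^ 3 = 1 → ∃ a b : Fin 3,
    j1 ^ (a : ℕ) * (r1 * r2 * j1 * (r1 * r2)⁻¹) ^ (b : ℕ) = s := by decide +kernel

theorem transl_any : ∀ t : W, t ^ 3 = 1 → t ≠ 1 → ∀ s : W, s ^ 3 = 1 → ∃ a b : Fin 3,
    t ^ (a : ℕ) * (r1 * r2 * t * (r1 * r2)⁻¹) ^ (b : ℕ) = s := by decide +kernel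

theorem reach_z : ∀ w : W, w ^ 3 ≠ 1 → (w⁻¹ * z0) ^ 3 = 1 ∨
    ∃ u : W, ((u * w * u⁻¹ * w⁻¹)⁻¹ * z0) ^ 3 = 1 := by decide +kernel

variable {G : Type*} [Group G] [Fintype G] {H : Subgroup G} [Fintype H] {e : H ≃* W}
  {M : Sylow 3 G}

/-- A subgroup meeting the normaliser exactly in the Sylow subgroup is that subgroup. -/
theorem Ambient.eq_sylow (A : Ambient M H) {L₀ : Subgroup G} (hM : (M : Subgroup G) ≤ L₀)
    (hN : L₀ ⊓ H = (M : Subgroup G)) : L₀ = (M : Subgroup G) := by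
  haveI : Fact (Nat.Prime 3) := ⟨Nat.prime_three⟩
  set P := M.subtype hM with hPdef
  have hmem : ∀ x : L₀, x ∈ (P : Subgroup L₀) ↔ (x : G) ∈ (M : Subgroup G) := fun x => by
    rw [hPdef, Sylow.coe_subtype]; rfl
  have hnorm : ∀ x : L₀, x ∈ Subgroup.normalizer ((P : Subgroup L₀) : Set L₀) →
      (x : G) ∈ (M : Subgroup G) := by
    intro x hx
    have h : (x : G) ∈ L₀ ⊓ H := by
      refine ⟨x.2, ?_⟩
      show (x : G) ∈ H
      rw [A.norm, Subgroup.mem_normalizer_iff]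
      intro u
      rw [Subgroup.mem_normalizer_iff] at hx
      constructor
      · intro hu
        exact (hmem _).mp ((hx ⟨u, hM hu⟩).mp ((hmem _).mpr hu))
      · intro hu
        have hu' : u ∈ L₀ := by
          rw [show u = (x : G)⁻¹ * ((x : G) * u * (x : G)⁻¹) * x by group]
          exact L₀.mul_mem (L₀.mul_mem (L₀.inv_mem x.2) (hM hu)) x.2
        exact (hmem _).mp ((hx ⟨u, hu'⟩).mpr ((hmem _).mpr hu))
    rwa [hN] at h
  have hP : Subgroup.normalizer ((P : Subgroup L₀) : Set L₀) ≤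
      Subgroup.centralizer ((P : Subgroup L₀) : Set L₀) := by
    intro x hx
    rw [Subgroup.mem_centralizer_iff]
    intro u hu
    have h : (u : G) ∈ Subgroup.centralizer ((M : Subgroup G) : Set G) := by
      rw [A.self]; exact (hmem u).mp hu
    exact Subtype.ext (Subgroup.mem_centralizer_iff.mp h x (hnorm x hx)).symm
  obtain ⟨L, hn, hnot, hc, hd⟩ : ∃ L : Subgroup L₀, L.Normal ∧ ¬ 3 ∣ Nat.card L ∧
      Subgroup.IsComplement' L (P : Subgroup L₀) ∧ Disjoint L (P : Subgroup L₀) :=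
    ⟨_, MonoidHom.normal_ker _, MonoidHom.not_dvd_card_ker_transferSylow P hP,
      MonoidHom.ker_transferSylow_isComplement' P hP,
      MonoidHom.ker_transferSylow_disjoint P hP _ P.2⟩
  have hnorml : (M : Subgroup G) ≤ Subgroup.normalizer ((L.map L₀.subtype : Subgroup G) : Set G) := by
    intro m hm
    rw [Subgroup.mem_normalizer_iff]
    intro u
    constructor
    · rintro ⟨v, hv, rfl⟩
      exact ⟨⟨m, hM hm⟩ * v * ⟨m, hM hm⟩⁻¹, hn.conj_mem v hv _, by simp⟩
    · rintro ⟨v, hv, hvu⟩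
      refine ⟨⟨m, hM hm⟩⁻¹ * v * ⟨m, hM hm⟩, ?_, ?_⟩
      · simpa using hn.conj_mem v hv ⟨m, hM hm⟩⁻¹
      · rw [map_mul, map_mul, map_inv, hvu]
        show m⁻¹ * (m * u * m⁻¹) * m = u
        group
  have hcard : Nat.card (L.map L₀.subtype : Subgroup G) = Nat.card L :=
    (Nat.card_congr (Subgroup.equivMapOfInjective L _ L₀.subtype_injective).toEquiv).symm
  have hbot := A.fpf_bot hnorml (by
    rw [show (9 : ℕ) = 3 ^ 2 by norm_num, hcard]
    exact Nat.Coprime.pow_left 2 ((Nat.Prime.coprime_iff_not_dvd Nat.prime_three).mpr hnot)) (by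
    rintro m hm hm1 _ ⟨v, hv, rfl⟩ hvm
    have h : (v : G) ∈ L₀ ⊓ H :=
      ⟨v.2, A.loc m hm hm1 (Subgroup.mem_centralizer_singleton_iff.mpr hvm)⟩
    rw [hN] at h
    have : v = 1 := Subgroup.disjoint_def.mp hd hv ((hmem v).mpr h)
    rw [this]; rfl)
  rw [(Subgroup.map_eq_bot_iff_of_injective _ L₀.subtype_injective).mp hbot,
    Subgroup.isComplement'_bot_left] at hc
  refine le_antisymm (fun x hx => ?_) hM
  exact (hmem ⟨x, hx⟩).mp (by rw [hc]; exact Subgroup.mem_top _)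

/-- If the degree is two then the Sylow subgroup is normal. -/
theorem Full.normal_of_two (F : Full e) (A : Ambient M H) (hT : F.cfg.D 1 = 2)
    (hz : (F.cfg.pts 1 : G → ℂ) (el e z0) ≠ (F.cfg.pts 1 : G → ℂ) 1) :
    (M : Subgroup G).Normal := by
  have hψ := Chars.irr_isCharacter (F.cfg.pts 1)
  haveI : (Chars.charKer hψ).Normal := Chars.charKer_normal _
  set K := Chars.charKer hψ with hK
  have hKn : K.Normal := inferInstance
  have hj : el e j1 ∈ K := by
    show (F.cfg.pts 1 : G → ℂ) (el e j1) = (F.cfg.pts 1 : G → ℂ) 1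
    rw [F.cfg.val_j, F.cfg.deg, jCol_eq, hT]
    rfl
  have hMK : (M : Subgroup G) ≤ K := by
    intro m hm
    obtain ⟨s, hs3, rfl⟩ := A.cube_of e hm
    obtain ⟨a, b, hab⟩ := transl_j s hs3
    rw [← hab, el_mul, el_pow, el_pow, el_mul, el_mul, el_inv]
    exact K.mul_mem (K.pow_mem hj _) (K.pow_mem (hKn.conj_mem _ hj _) _)
  have hKN : K ⊓ H = (M : Subgroup G) := by
    refine le_antisymm ?_ (le_inf hMK A.le)
    rintro x ⟨hxK, hxH⟩
    by_contra hxM
    set w := e ⟨x, hxH⟩ with hw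
    have hwx : el e w = x := by simp [el, hw]
    have hw3 : w ^ 3 ≠ 1 := fun h => hxM (by
      refine A.mem_cube e hxH ?_
      rw [← hwx, ← el_pow, h, el_one])
    have hcube : ∀ t : W, t ^ 3 = 1 → el e t ∈ K := fun t ht =>
      hMK (A.mem_cube e (e.symm t).2 (show el e t ^ 3 = 1 by rw [← el_pow, ht, el_one]))
    refine hz ?_
    show el e z0 ∈ K
    rcases reach_z w hw3 with h | ⟨u, h⟩
    · have := K.mul_mem (hwx ▸ hxK : el e w ∈ K) (hcube _ h)
      rwa [← el_mul, mul_inv_cancel_left] at this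
    · have hc : el e (u * w * u⁻¹ * w⁻¹) ∈ K := by
        rw [el_mul, el_mul, el_mul, el_inv, el_inv, hwx]
        exact K.mul_mem (hKn.conj_mem _ hxK _) (K.inv_mem hxK)
      have := K.mul_mem hc (hcube _ h)
      rwa [← el_mul, mul_inv_cancel_left] at this
  rw [← A.eq_sylow hMK hKN]
  exact hKn

end Cfsg.Agent.OddChar.Wreath72
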