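import Cfsg.Agent.OddChar.Wreath72Normal
import Cfsg.Agent.FGS3.AlmostAlternating
import Cfsg.Agent.S0497

/-!
A group of order seven hundred and twenty of this shape is the symmetric group of degree six.
-/

set_option autoImplicit false

open Cfsg
open scoped Classical

namespace Cfsg.Agent.OddChar.Wreath72

open FGS3.AlmostAlternating Equiv

theorem sgn_cube : ∀ t : W, t ^ 3 = 1 → sgnAB t = 1 := by decide +kernel
theorem sgn_rot : sgnAB (r1 * r2) = 1 := by decide
theorem rot_free : ∀ t : W, t ^ 3 = 1 → r1 * r2 * t = t * (r1 * r2) → t = 1 := by decide +kernel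
theorem three_cyc : (swap 1 2 * swap 1 3 : Perm (Fin 6)).IsThreeCycle :=
  Equiv.Perm.isThreeCycle_swap_mul_swap_same (by decide) (by decide) (by decide)
theorem exists_fixed : ∃ t : W, t ^ 3 = 1 ∧ t ≠ 1 ∧ r1 * t * r1⁻¹ = t := by decide +kernel
theorem card_sgn : (Finset.univ.filter fun w : W => sgnAB w = 1).card = 36 := by decide +kernel

variable {G : Type*} [Group G] [Fintype G] {H : Subgroup G} [Fintype H] {e : H ≃* W}
  {M : Sylow 3 G}

theorem Full.phi_cases (F : Full e) (g : G) : F.φ g = 1 ∨ F.φ g = -1 := by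
  obtain ⟨h, -⟩ := F.twist_pts 4
  have h' := congrFun h g
  rw [show twist 4 = 0 from rfl, F.cfg.pts_zero] at h'
  simp only [F.pts_four] at h'
  rcases mul_self_eq_one_iff.mp h'.symm with h1 | h1
  · exact Or.inl (Units.ext (by rw [h1, Units.val_one]))
  · exact Or.inr (Units.ext (by rw [h1, Units.val_neg, Units.val_one]))

theorem Full.mem_ker_iff (F : Full e) (w : W) : el e w ∈ F.φ.ker ↔ sgnAB w = 1 := by
  rw [MonoidHom.mem_ker, Units.ext_iff, F.φ_el, Units.val_one]
  exact_mod_cast Iff.rfl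

theorem Full.not_ker (F : Full e) : el e r1 ∉ F.φ.ker := by
  rw [F.mem_ker_iff]; decide

theorem Full.ker_split (F : Full e) (g : G) :
    g ∈ F.φ.ker ∨ (el e r1)⁻¹ * g ∈ F.φ.ker := by
  have hr : F.φ (el e r1) = -1 := (F.phi_cases _).resolve_left fun h => F.not_ker h
  rcases F.phi_cases g with h | h
  · exact Or.inl h
  · refine Or.inr ?_
    rw [MonoidHom.mem_ker, map_mul, map_inv, hr, h, inv_mul_cancel]

theorem Full.index_ker (F : Full e) : F.φ.ker.index = 2 := by
  rw [Subgroup.index_eq_two_iff]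
  refine ⟨el e r1, fun u => ?_⟩
  have hr : F.φ (el e r1) = -1 := (F.phi_cases _).resolve_left fun h => F.not_ker h
  have hne : (-1 : ℂˣ) ≠ 1 := fun h => by
    have := congrArg Units.val h
    norm_num at this
  simp only [MonoidHom.mem_ker, map_mul, hr]
  rcases F.phi_cases u with h | h <;> rw [h] <;> simp [Xor', hne]

/-- A subgroup normalised by a larger subgroup and meeting the Sylow subgroup trivially is
trivial. -/
theorem Ambient.meet_bot (A : Ambient M H) {G₀ K : Subgroup G} (hM : (M : Subgroup G) ≤ G₀)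
    (hK : K ≤ G₀) (hn : G₀ ≤ Subgroup.normalizer (K : Set G)) (h : K ⊓ (M : Subgroup G) = ⊥) :
    K = ⊥ := by
  haveI : Fact (Nat.Prime 3) := ⟨Nat.prime_three⟩
  have hconj : ∀ c ∈ G₀, ∀ x ∈ K, c * x * c⁻¹ ∈ K := fun c hc x hx =>
    (Subgroup.mem_normalizer_iff.mp (hn hc) x).mp hx
  refine A.fpf_bot (L := K) (hM.trans hn) ?_ ?_
  · rw [show (9 : ℕ) = 3 ^ 2 by norm_num]
    refine Nat.Coprime.pow_left 2 ((Nat.Prime.coprime_iff_not_dvd Nat.prime_three).mpr fun h3 => ?_)
    obtain ⟨x, hx⟩ := exists_prime_orderOf_dvd_card' 3 h3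
    have hxo : orderOf (⟨(x : G), hK x.2⟩ : G₀) = 3 := by
      rw [← Subgroup.orderOf_coe]; show orderOf (x : G) = 3; rw [Subgroup.orderOf_coe, hx]
    have hp : IsPGroup 3 (Subgroup.zpowers (⟨(x : G), hK x.2⟩ : G₀)) :=
      IsPGroup.of_card (n := 1) (by rw [Nat.card_zpowers, hxo, pow_one])
    obtain ⟨Q, hQ⟩ := hp.exists_le_sylow
    obtain ⟨c, hc⟩ := MulAction.exists_smul_eq G₀ Q (M.subtype hM)
    have hmem : c * ⟨(x : G), hK x.2⟩ * c⁻¹ ∈ (M.subtype hM : Subgroup G₀) := by
      rw [← hc, Sylow.coe_subgroup_smul, Subgroup.mem_pointwise_smul_iff_inv_smul_mem]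
      simpa [MulAut.smul_def, mul_assoc] using hQ (Subgroup.mem_zpowers _)
    rw [Sylow.coe_subtype, Subgroup.mem_subgroupOf] at hmem
    have hbot : (c : G) * x * (c : G)⁻¹ ∈ K ⊓ (M : Subgroup G) :=
      ⟨hconj _ c.2 _ x.2, hmem⟩
    rw [h, Subgroup.mem_bot, conj_eq_one_iff] at hbot
    rw [← Subgroup.orderOf_coe, hbot, orderOf_one] at hx
    norm_num at hx
  · intro m hm hm1 u hu hum
    have huN : u ∈ H := A.loc m hm hm1 (Subgroup.mem_centralizer_singleton_iff.mpr hum)
    have hcent : u ∈ Subgroup.centralizer ((M : Subgroup G) : Set G) := by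
      rw [Subgroup.mem_centralizer_iff]
      intro n hn'
      have h1 : u * n * u⁻¹ * n⁻¹ ∈ K ⊓ (M : Subgroup G) := by
        refine ⟨?_, ?_⟩
        · rw [show u * n * u⁻¹ * n⁻¹ = u * (n * u⁻¹ * n⁻¹) by group]
          exact K.mul_mem hu (hconj n (hM hn') _ (K.inv_mem hu))
        · rw [A.norm, Subgroup.mem_normalizer_iff] at huN
          exact Subgroup.mul_mem _ ((huN n).mp hn') (Subgroup.inv_mem _ hn')
      rw [h, Subgroup.mem_bot, mul_inv_eq_one, mul_inv_eq_iff_eq_mul] at h1
      exact h1.symm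
    rw [A.self] at hcent
    exact Subgroup.mem_bot.mp (h ▸ (⟨hu, hcent⟩ : u ∈ K ⊓ (M : Subgroup G)))

/-- An element of order three cannot normalise a cyclic subgroup of order five. -/
theorem Ambient.no_five (A : Ambient M H) (e : H ≃* W) {x y : G} (hx : x ^ 3 = 1) (hx1 : x ≠ 1)
    (hy : y ^ 5 = 1) (hy1 : y ≠ 1) (hn : x * y * x⁻¹ ∈ Subgroup.zpowers y) : False := by
  haveI : Fact (Nat.Prime 5) := ⟨by norm_num⟩
  have hyo : orderOf y = 5 := orderOf_eq_prime hy hy1
  obtain ⟨i, hi, hyi⟩ : ∃ i < 5, y ^ i = x * y * x⁻¹ := by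
    obtain ⟨i, hi, hi'⟩ := Finset.mem_image.mp
      ((isOfFinOrder_of_finite y).mem_zpowers_iff_mem_range_orderOf.mp hn)
    exact ⟨i, hyo ▸ Finset.mem_range.mp hi, hi'⟩
  have hpow : ∀ k : ℕ, x ^ k * y * (x ^ k)⁻¹ = y ^ i ^ k := by
    intro k
    induction k with
    | zero => simp
    | succ k ih =>
      calc x ^ (k + 1) * y * (x ^ (k + 1))⁻¹ = x * (x ^ k * y * (x ^ k)⁻¹) * x⁻¹ := by
            rw [pow_succ']; group
        _ = x * y ^ i ^ k * x⁻¹ := by rw [ih]
        _ = (x * y * x⁻¹) ^ i ^ k := (conj_pow).symm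
        _ = _ := by rw [← hyi, ← pow_mul, pow_succ']
  have h3 := hpow 3
  rw [hx, one_mul, inv_one, mul_one] at h3
  have hmod := pow_eq_pow_iff_modEq.mp (show y ^ 1 = y ^ i ^ 3 by rw [pow_one]; exact h3)
  rw [hyo] at hmod
  obtain rfl : i = 1 := by interval_cases i <;> first | rfl | simp [Nat.ModEq] at hmod
  rw [pow_one, eq_mul_inv_iff_mul_eq] at hyi
  obtain ⟨c, hc⟩ := A.conj_mem (x := x) hx
  have hyN : c * y * c⁻¹ ∈ H := A.loc _ hc (fun h => hx1 (conj_eq_one_iff.mp h))
    (Subgroup.mem_centralizer_singleton_iff.mpr (by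
      calc c * y * c⁻¹ * (c * x * c⁻¹) = c * (y * x) * c⁻¹ := by group
        _ = c * (x * y) * c⁻¹ := by rw [hyi]
        _ = c * x * c⁻¹ * (c * y * c⁻¹) := by group))
  have ho : orderOf (⟨c * y * c⁻¹, hyN⟩ : H) = 5 := by
    rw [Subgroup.orderOf_mk]
    exact orderOf_eq_prime (by rw [conj_pow, hy, mul_one, mul_inv_cancel])
      fun h => hy1 (conj_eq_one_iff.mp h)
  have := ho ▸ orderOf_dvd_natCard (⟨c * y * c⁻¹, hyN⟩ : H)
  rw [card_H e] at this
  norm_num at this

theorem Ambient.simple_ker (F : Full e) (A : Ambient M H) (hg : Nat.card G = 720) :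
    Nat.card F.φ.ker = 360 ∧ IsSimpleGroup F.φ.ker := by
  haveI : Fact (Nat.Prime 3) := ⟨Nat.prime_three⟩
  haveI : Fact (Nat.Prime 5) := ⟨by norm_num⟩
  set G₀ := F.φ.ker with hG0
  have h360 : Nat.card G₀ = 360 := by
    have := G₀.card_mul_index
    rw [F.index_ker, hg] at this
    omega
  refine ⟨h360, ?_⟩
  haveI : Nontrivial G₀ := Finite.one_lt_card_iff_nontrivial.mp (by rw [h360]; norm_num)
  have hMG : (M : Subgroup G) ≤ G₀ := by
    intro m hm
    obtain ⟨t, ht, rfl⟩ := A.cube_of e hm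
    exact (F.mem_ker_iff t).mpr (sgn_cube t ht)
  have hrot : el e (r1 * r2) ∈ G₀ := (F.mem_ker_iff _).mpr sgn_rot
  set N₀ := H.subgroupOf G₀ with hN0
  have hN36 : Nat.card N₀ = 36 := by
    rw [← card_sgn, ← Nat.card_eq_finsetCard]
    refine Nat.card_congr
      { toFun := fun u => ⟨e ⟨((u : G₀) : G), u.2⟩, Finset.mem_filter.mpr ⟨Finset.mem_univ _, ?_⟩⟩
        invFun := fun w => ⟨⟨el e w.1, (F.mem_ker_iff _).mpr (Finset.mem_filter.mp w.2).2⟩,
          (e.symm w.1).2⟩
        left_inv := fun u => Subtype.ext (Subtype.ext (by simp [el]))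
        right_inv := fun w => Subtype.ext (by simp [el]) }
    rw [← F.mem_ker_iff]
    simp [el, ← hG0]
  refine ⟨fun K hK => ?_⟩
  by_cases hbot : K = ⊥
  · exact Or.inl hbot
  refine Or.inr ?_
  set K' := K.map G₀.subtype with hK'
  have hK'le : K' ≤ G₀ := Subgroup.map_subtype_le K
  have hK'n : ∀ c ∈ G₀, ∀ x ∈ K', c * x * c⁻¹ ∈ K' := by
    rintro c hc _ ⟨x, hx, rfl⟩
    exact ⟨⟨c, hc⟩ * x * ⟨c, hc⟩⁻¹, hK.conj_mem x hx _, by simp⟩
  have hnorm : G₀ ≤ Subgroup.normalizer (K' : Set G) := by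
    intro c hc
    rw [Subgroup.mem_normalizer_iff]
    refine fun x => ⟨hK'n c hc x, fun hx => ?_⟩
    have := hK'n c⁻¹ (G₀.inv_mem hc) _ hx
    simpa [mul_assoc] using this
  have hmeet : K' ⊓ (M : Subgroup G) ≠ ⊥ := fun h =>
    hbot ((Subgroup.map_eq_bot_iff_of_injective _ G₀.subtype_injective).mp
      (A.meet_bot hMG hK'le hnorm h))
  obtain ⟨⟨m, hmK, hmM⟩, hm1⟩ : ∃ m : (K' ⊓ (M : Subgroup G) : Subgroup G), m ≠ 1 := by
    by_contra! hall
    exact hmeet ((Subgroup.eq_bot_iff_forall _).mpr fun x hx => congrArg Subtype.val (hall ⟨x, hx⟩))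
  obtain ⟨t, ht3, rfl⟩ := A.cube_of e hmM
  have hMK : (M : Subgroup G) ≤ K' := by
    intro s hs
    obtain ⟨s', hs3, rfl⟩ := A.cube_of e hs
    obtain ⟨a, b, hab⟩ := transl_any t ht3 (fun h => hm1 (Subtype.ext (show el e t = 1 by rw [h, el_one])))
      s' hs3
    rw [← hab, el_mul, el_pow, el_pow, el_mul, el_mul (b := t), el_inv]
    exact K'.mul_mem (K'.pow_mem hmK _) (K'.pow_mem (hK'n _ hrot _ hmK) _)
  set M₀ := M.subtype hMG with hM0
  have hM0K : (M₀ : Subgroup G₀) ≤ K := by
    intro x hx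
    rw [hM0, Sylow.coe_subtype, Subgroup.mem_subgroupOf] at hx
    obtain ⟨y, hy, hyx⟩ := hMK hx
    rwa [← Subtype.ext hyx]
  have hNle : Subgroup.normalizer ((M₀ : Subgroup G₀) : Set G₀) ≤ N₀ := by
    intro x hx
    rw [Subgroup.mem_normalizer_iff] at hx
    simp only [hM0, Sylow.coe_subtype, Subgroup.mem_subgroupOf] at hx
    show (x : G) ∈ H
    rw [A.norm, Subgroup.mem_normalizer_iff]
    intro u
    constructor
    · intro hu
      simpa using (hx ⟨u, hMG hu⟩).mp hu
    · intro hu
      have hu' : u ∈ G₀ := by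
        rw [show u = (x : G)⁻¹ * ((x : G) * u * (x : G)⁻¹) * x by group]
        exact G₀.mul_mem (G₀.mul_mem (G₀.inv_mem x.2) (hMG hu)) x.2
      exact (hx ⟨u, hu'⟩).mpr (by simpa using hu)
  haveI := hK
  have hsup : N₀ ⊔ K = ⊤ :=
    eq_top_iff.mpr (le_of_eq_of_le (Sylow.normalizer_sup_eq_top' M₀ hM0K).symm (sup_le_sup_right hNle K))
  have hidx : K.relIndex N₀ = K.index := by
    have h := Subgroup.relIndex_sup_right (H := N₀) (K := K)
    rw [hsup, Subgroup.relIndex_top_right] at h
    exact h.symm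
  have hmulN : Nat.card (K.subgroupOf N₀) * K.index = 36 := by
    rw [← hidx, ← hN36]; exact Subgroup.card_mul_index _
  have hmulK : Nat.card K * K.index = 360 := by rw [← h360]; exact K.card_mul_index
  -- the meet of `K` with the subgroup, inside the group
  set X := K' ⊓ H with hX
  have hXcard : Nat.card X = Nat.card (K.subgroupOf N₀) := by
    refine Nat.card_congr
      { toFun := fun x => ⟨⟨⟨x.1, hK'le x.2.1⟩, x.2.2⟩, ?_⟩
        invFun := fun u => ⟨((u.1 : G₀) : G), ⟨_, u.2, rfl⟩, u.1.2⟩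
        left_inv := fun x => rfl
        right_inv := fun u => rfl }
    obtain ⟨y, hy, hyx⟩ := x.2.1
    show (⟨x.1, _⟩ : G₀) ∈ K
    rwa [show (⟨x.1, hK'le x.2.1⟩ : G₀) = y from Subtype.ext hyx.symm]
  have hMX : (M : Subgroup G) ≤ X := le_inf hMK A.le
  have h9 : 9 ∣ Nat.card X := A.card ▸ Subgroup.card_dvd_of_le hMX
  rw [← hXcard] at hmulN
  obtain ⟨d, hd⟩ := h9
  have hd4 : d * K.index = 4 := by rw [hd] at hmulN; linarith
  have hidx4 : K.index = 1 ∨ K.index = 2 ∨ K.index = 4 := by
    have hle := Nat.le_of_dvd (by norm_num) (Dvd.intro_left d hd4)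
    interval_cases h : K.index <;> omega
  have hK'card : Nat.card K' = Nat.card K :=
    (Nat.card_congr (Subgroup.equivMapOfInjective K _ G₀.subtype_injective).toEquiv).symm
  rcases hidx4 with h | h | h
  · exact Subgroup.index_eq_one.mp h
  · exfalso
    rw [h] at hmulK hd4
    have hX18 : Nat.card X = 18 := by omega
    obtain ⟨P⟩ : Nonempty (Sylow 5 K') := inferInstance
    have hK180 : Nat.card K' = 180 := by omega
    have hP5 : Nat.card (P : Subgroup K') = 5 := by
      rw [P.card_eq_multiplicity, hK180, show (180 : ℕ) = 5 * 36 by norm_num,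
        Nat.factorization_mul (by norm_num) (by norm_num), Finsupp.add_apply,
        (show Nat.Prime 5 by norm_num).factorization_self,
        Nat.factorization_eq_zero_of_not_dvd (show ¬ 5 ∣ 36 by norm_num)]
      norm_num
    set NP := Subgroup.normalizer ((P : Subgroup K') : Set K') with hNP
    have hno3 : ¬ 3 ∣ Nat.card NP := by
      intro h3
      obtain ⟨x, hx⟩ := exists_prime_orderOf_dvd_card' 3 h3
      haveI : IsCyclic (P : Subgroup K') := isCyclic_of_prime_card hP5
      obtain ⟨y, hy⟩ := IsCyclic.exists_generator (α := (P : Subgroup K'))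
      have hyo : orderOf y = 5 := by rw [orderOf_eq_card_of_forall_mem_zpowers hy, hP5]
      rw [← Subgroup.orderOf_coe, ← Subgroup.orderOf_coe] at hx hyo
      refine A.no_five e (x := ((x : K') : G)) (y := ((y : K') : G))
        (orderOf_dvd_iff_pow_eq_one.mp hx.dvd) (fun h1 => by rw [h1, orderOf_one] at hx; norm_num at hx)
        (orderOf_dvd_iff_pow_eq_one.mp hyo.dvd)
        (fun h1 => by rw [h1, orderOf_one] at hyo; norm_num at hyo) ?_
      have hmem : (x : K') * (y : K') * (x : K')⁻¹ ∈ (P : Subgroup K') :=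
        (Subgroup.mem_normalizer_iff.mp x.2 _).mp y.2
      obtain ⟨j, hj⟩ := Subgroup.mem_zpowers_iff.mp (hy ⟨_, hmem⟩)
      exact ⟨j, by simpa using congrArg (fun u : (P : Subgroup K') => ((u : K') : G)) hj⟩
    have h36 : NP.index = 36 := by
      have hmul := NP.card_mul_index
      rw [hK180] at hmul
      have hcs := card_sylow_modEq_one 5 K'
      rw [P.card_eq_index_normalizer] at hcs
      have hdiv : 5 ∣ Nat.card NP := hP5 ▸ Subgroup.card_dvd_of_le Subgroup.le_normalizer
      obtain ⟨q, hq⟩ := hdiv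
      rw [hq] at hmul hno3
      have hq' : q * NP.index = 36 := by linarith
      have hle := Nat.le_of_dvd (by norm_num) (Dvd.intro_left q hq')
      have hcs' : NP.index % 5 = 1 := hcs
      interval_cases hh : NP.index <;> omega
    have hNPP : NP = (P : Subgroup K') := by
      refine (Subgroup.eq_of_le_of_card_ge Subgroup.le_normalizer ?_).symm
      have hmul := NP.card_mul_index
      rw [hK180, h36] at hmul
      rw [hP5]
      show Nat.card NP ≤ 5
      omega
    have hPab : NP ≤ Subgroup.centralizer ((P : Subgroup K') : Set K') := by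
      haveI : IsCyclic (P : Subgroup K') := isCyclic_of_prime_card hP5
      rw [hNPP]
      intro u hu
      rw [Subgroup.mem_centralizer_iff]
      intro v hv
      letI : CommGroup (P : Subgroup K') := IsCyclic.commGroup
      exact congrArg Subtype.val (mul_comm (⟨v, hv⟩ : (P : Subgroup K')) ⟨u, hu⟩)
    have hc := MonoidHom.ker_transferSylow_isComplement' P hPab
    set f := MonoidHom.transferSylow P hPab
    have hL36 : Nat.card f.ker = 36 := by
      have := hc.card_mul_card
      rw [hP5, hK180] at this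
      omega
    -- the meet lies in the kernel with index two
    have hXL : X.subgroupOf K' ≤ f.ker := by
      intro x hx
      rw [MonoidHom.mem_ker]
      have h1 : x ^ 18 = 1 := Subtype.ext (by
        rw [Subgroup.coe_pow, Subgroup.coe_one, ← hX18]
        exact congrArg Subtype.val (pow_card_eq_one' (x := (⟨(x : G), hx⟩ : X))))
      have h2 : f x ^ 18 = 1 := by rw [← map_pow, h1, map_one]
      have h3 : f x ^ 5 = 1 := orderOf_dvd_iff_pow_eq_one.mp ((orderOf_dvd_natCard (f x)).trans hP5.dvd)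
      have := pow_gcd_eq_one.mpr ⟨h2, h3⟩
      simpa using this
    set X' := (X.subgroupOf K').subgroupOf f.ker with hX'
    have hX'2 : X'.index = 2 := by
      have h18 : Nat.card X' = 18 := by
        rw [hX', Nat.card_congr (Subgroup.subgroupOfEquivOfLe hXL).toEquiv,
          Nat.card_congr (Subgroup.subgroupOfEquivOfLe (inf_le_left : X ≤ K')).toEquiv, hX18]
      have := X'.card_mul_index
      rw [h18, hL36] at this
      omega
    haveI := Subgroup.normal_of_index_eq_two hX'2
    have hsub : f.ker ≤ X.subgroupOf K' := by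
      intro l hl
      refine ⟨l.2, ?_⟩
      show (l : G) ∈ H
      rw [A.norm, Subgroup.mem_normalizer_iff]
      have hfwd : ∀ l' ∈ f.ker, ∀ m ∈ (M : Subgroup G), (l' : G) * m * (l' : G)⁻¹ ∈ (M : Subgroup G) := by
        intro l' hl' m hm
        have hmX : (⟨m, hMK hm⟩ : K') ∈ X.subgroupOf K' := hMX hm
        have h := (inferInstance : X'.Normal).conj_mem ⟨⟨m, hMK hm⟩, hXL hmX⟩ hmX ⟨l', hl'⟩
        exact A.mem_cube e h.2 (by
          show ((l' : G) * m * (l' : G)⁻¹) ^ 3 = 1
          rw [conj_pow, A.exp m hm, mul_one, mul_inv_cancel])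
      refine fun u => ⟨hfwd l hl u, fun hu => ?_⟩
      have := hfwd l⁻¹ (f.ker.inv_mem hl) _ hu
      simpa [mul_assoc] using this
    have := Subgroup.card_dvd_of_le hsub
    rw [hL36, Nat.card_congr (Subgroup.subgroupOfEquivOfLe (inf_le_left : X ≤ K')).toEquiv, hX18] at this
    norm_num at this
  · exfalso
    rw [h] at hmulK hd4
    have hXM : X = (M : Subgroup G) :=
      (Subgroup.eq_of_le_of_card_ge hMX (by rw [A.card]; omega)).symm
    have := A.eq_sylow hMK hXM
    have hc := congrArg (fun S : Subgroup G => Nat.card S) this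
    simp only [A.card] at hc
    omega

/-- The group of order seven hundred and twenty. -/
theorem Full.iso_perm (F : Full e) (A : Ambient M H) (hg : Nat.card G = 720) :
    Nonempty (G ≃* Perm (Fin 6)) := by
  obtain ⟨h360, hs⟩ := Ambient.simple_ker F A hg
  haveI := hs
  obtain ⟨f⟩ := S0497.result h360
  let θ : G →* MulAut (alternatingGroup (Fin 6)) :=
    (MulAut.congr f).toMonoidHom.comp (MulAut.conjNormal (H := F.φ.ker))
  have hθ : ∀ (g : G) (x : F.φ.ker), θ g (f x) = f (MulAut.conjNormal g x) := fun g x => by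
    simp [θ, MulAut.congr]
  have hMG : ∀ t : W, t ^ 3 = 1 → el e t ∈ F.φ.ker := fun t ht =>
    (F.mem_ker_iff t).mpr (sgn_cube t ht)
  have hinj : Function.Injective θ := by
    rw [injective_iff_map_eq_one]
    intro g hg1
    have hfix : ∀ x : F.φ.ker, g * x * g⁻¹ = x := by
      intro x
      have h := hθ g x
      rw [hg1, MulAut.one_apply] at h
      have := congrArg Subtype.val (f.injective h)
      rw [MulAut.conjNormal_apply] at this
      exact this.symm
    have hgM : g ∈ (M : Subgroup G) := by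
      rw [← A.self, Subgroup.mem_centralizer_iff]
      intro m hm
      obtain ⟨t, ht, rfl⟩ := A.cube_of e hm
      exact (mul_inv_eq_iff_eq_mul.mp (hfix ⟨_, hMG t ht⟩)).symm
    obtain ⟨t, ht, rfl⟩ := A.cube_of e hgM
    have h := mul_inv_eq_iff_eq_mul.mp (hfix ⟨_, (F.mem_ker_iff _).mpr sgn_rot⟩)
    rw [← el_mul, ← el_mul] at h
    rw [rot_free t ht (e.symm.injective (Subtype.ext h.symm)), el_one]
  have hker : ∀ g ∈ F.φ.ker, Pres (θ g) := by
    intro g hg' x hx
    have h : θ g x = f ⟨g, hg'⟩ * x * (f ⟨g, hg'⟩)⁻¹ := by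
      obtain ⟨u, rfl⟩ := f.surjective x
      rw [hθ, ← map_inv, ← map_mul, ← map_mul]
      exact congrArg f (Subtype.ext (by simp [MulAut.conjNormal_apply]))
    rw [h]
    show (((f ⟨g, hg'⟩ : alternatingGroup (Fin 6)) : Perm (Fin 6)) * x *
      ((f ⟨g, hg'⟩ : alternatingGroup (Fin 6)) : Perm (Fin 6))⁻¹).IsThreeCycle
    rw [Equiv.Perm.IsThreeCycle, Equiv.Perm.cycleType_conj]
    exact hx
  have hr : Pres (θ (el e r1)) := by
    by_contra hnp
    obtain ⟨t, ht3, ht1, htc⟩ := exists_fixed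
    set x := f ⟨el e t, hMG t ht3⟩ with hx
    have hfx : θ (el e r1) x = x := by
      rw [hx, hθ]
      refine congrArg f (Subtype.ext ?_)
      rw [MulAut.conjNormal_apply]
      show el e r1 * el e t * (el e r1)⁻¹ = el e t
      rw [← el_inv, ← el_mul, ← el_mul, htc]
    have ho : orderOf (x : Perm (Fin 6)) = 3 := by
      haveI : Fact (Nat.Prime 3) := ⟨Nat.prime_three⟩
      rw [Subgroup.orderOf_coe, hx, MulEquiv.orderOf_eq, ← Subgroup.orderOf_coe]
      show orderOf (el e t) = 3
      refine orderOf_eq_prime (by rw [← el_pow, ht3, el_one]) fun h => ht1 ?_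
      exact e.symm.injective (Subtype.ext (h.trans (el_one e).symm))
    rcases three_type ho with h | h
    · have := not_pres_flips hnp x h
      rw [hfx] at this
      exact three_ne_double h this
    · obtain ⟨c, hc⟩ : ∃ c : alternatingGroup (Fin 6), (c : Perm (Fin 6)).IsThreeCycle :=
        ⟨⟨_, three_cyc.mem_alternatingGroup⟩, three_cyc⟩
      have h' : (θ (el e r1) x : Perm (Fin 6)).cycleType = {3, 3} := by rw [hfx]; exact h
      have hconj := conj_of_double _ _ (not_pres_flips hnp c hc) h'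
      have h2 := (θ (el e r1)).symm.toMonoidHom.map_isConj hconj
      simp only [MulEquiv.coe_toMonoidHom, MulEquiv.symm_apply_apply] at h2
      exact three_ne_double hc ((isConj_stable h2).trans h)
  have hall : ∀ g, Pres (θ g) := by
    intro g
    rcases F.ker_split g with h | h
    · exact hker g h
    · intro x hx
      have := hr _ (hker _ h x hx)
      rwa [← MulAut.mul_apply, ← map_mul, mul_inv_cancel_left] at this
  obtain ⟨hcinj, honto⟩ := Screen.AutAltSix.conjNormal_injective_and_onto 6 (by norm_num)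
  choose π hπ using fun g => honto (θ g) (hall g)
  let ψ : G →* Perm (Fin 6) := MonoidHom.mk' π fun a b => hcinj (by
    rw [map_mul, hπ, hπ, hπ, map_mul])
  have hψinj : Function.Injective ψ := fun a b h => hinj (by
    rw [← hπ a, ← hπ b]
    exact congrArg _ h)
  refine ⟨MulEquiv.ofBijective ψ ((Nat.bijective_iff_injective_and_card ψ).mpr ⟨hψinj, ?_⟩)⟩
  rw [hg, Nat.card_perm, Nat.card_fin]
  rfl

end Cfsg.Agent.OddChar.Wreath72
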